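import Cfsg.Agent.H4.Coset.LinSim
import Cfsg.Agent.H4.Coset.Bridge
import Cfsg.Agent.H5.SingularChoice
import Cfsg.Agent.H5.RootClosure

/-!
The centraliser of the orthogonal group over a subfield in the group of automorphisms induced by
semisimilarities: scalars times field automorphisms fixing the subfield.
-/

set_option autoImplicit false

namespace Cfsg.Agent.H4.LocalBalance

open QuadraticMap hiding sq
open Module
open Cfsg.Agent.H5 (orth orth_map eich eich_apply HypPair pperp mem_pperp)

variable {F : Type*} [Field F] {ι : Type} [Fintype ι] [DecidableEq ι] {K : Type*} [Field K]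
  {e : K →+* F} {Q : QuadraticForm F (ι → F)} {QK : QuadraticForm K (ι → K)}

theorem baseVec_add' (x y : ι → K) : baseVec e (x + y) = baseVec e x + baseVec e y := by
  funext i; simp [baseVec]

theorem baseVec_sub' (x y : ι → K) : baseVec e (x - y) = baseVec e x - baseVec e y := by
  funext i; simp [baseVec]

theorem polar_baseVec (hQK : ∀ x, Q (baseVec e x) = e (QK x)) (x y : ι → K) :
    polar Q (baseVec e x) (baseVec e y) = e (polar QK x y) := by
  simp only [polar, ← baseVec_add', hQK, map_sub]

variable [Fintype F] [Fintype K] [Nontrivial (ι → K)]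

/-- A semisimilarity commuting, up to scalars, with the group over the subfield is a scalar times
a field automorphism fixing the subfield. -/
theorem exists_scalar_field_of_commute {f : (ι → F) → F} (hf : ⇑Q = f) (hh : FormHyp Q)
    (hhK : FormHyp QK) (hQK : ∀ x, Q (baseVec e x) = e (QK x)) (g : semiSimGroup Q)
    (hcomm : ∀ k ∈ commutator (orth QK),
      indHom Q hf g * indHom Q hf (baseSim hQK ⟨orthToSim QK k, orthToSim_mem QK k⟩).1 =
        indHom Q hf (baseSim hQK ⟨orthToSim QK k, orthToSim_mem QK k⟩).1 * indHom Q hf g) :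
    ∃ (c : F) (τ : F ≃+* F), (∀ a, τ (e a) = e a) ∧
      ∀ v, (g : Equiv.Perm (ι → F)) v = c • coordSigma ι τ v := by
  haveI : Finite (ι → F) := Pi.finite
  haveI : Finite (ι → K) := Pi.finite
  set τ := simSigma g
  set G := simEquiv g
  have hGs : ∀ (t : F) v, G (t • v) = τ t • G v := (isSemiSim g).map_smul
  have hn : 7 ≤ finrank K (ι → K) := hhK.seven_le
  have hn5 : 5 ≤ finrank K (ι → K) := by omega
  -- commuting with the root elements
  let T : (ι → K) → (ι → K) → K → (ι → F) → (ι → F) := fun a b t v =>
    v + polar Q (baseVec e a) v • (e t • baseVec e b) -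
      (e t * polar Q (baseVec e b) v) • baseVec e a
  have hT : ∀ a b : ι → K, QK a = 0 → QK b = 0 → polar QK a b = 0 → a ≠ 0 → ∀ (t : K) v,
      G (T a b t v) = T a b t (G v) := by
    intro a b ha hb hab ha0 t
    have hat : polar QK a (t • b) = 0 := by rw [polar_smul_right, hab, smul_zero]
    set k := eich QK a (t • b) with hk
    have hbase : ∀ v, ((baseSim hQK ⟨orthToSim QK k, orthToSim_mem QK k⟩).1 :
        Equiv.Perm (ι → F)) v = T a b t v := by
      intro v
      let TL : (ι → F) →ₗ[F] (ι → F) :=
        LinearMap.id + ((polarBilin Q (baseVec e a)).smulRight (e t • baseVec e b)) -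
          ((e t • polarBilin Q (baseVec e b)).smulRight (baseVec e a))
      have hTL : ∀ w, TL w = T a b t w := fun w => by
        simp [TL, T, polarBilin_apply_apply]
      rw [← hTL]
      refine lin_eq_of_baseVec (κ := ι) e
        (a := (linSimEquiv (baseSim hQK ⟨orthToSim QK k, orthToSim_mem QK k⟩) : (ι → F) →ₗ[F] (ι → F)))
        (b := TL) (fun x => ?_) v
      change ((baseSim hQK _).1 : Equiv.Perm (ι → F)) (baseVec e x) = TL (baseVec e x)
      rw [baseSim_apply, hTL, orthToSim_apply, hk, eich_apply ha hat, QuadraticMap.map_smul, hb,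
        smul_zero, zero_mul, zero_smul, sub_zero, baseVec_sub', baseVec_add', polar_smul_left,
        baseVec_smul, baseVec_smul, baseVec_smul]
      simp only [T, polar_baseVec hQK, smul_eq_mul, map_mul]
    obtain ⟨d, hd⟩ := exists_smul_of_indHom_eq Q hf hh
      (g := g * (baseSim hQK ⟨orthToSim QK k, orthToSim_mem QK k⟩).1)
      (g' := (baseSim hQK ⟨orthToSim QK k, orthToSim_mem QK k⟩).1 * g)
      (by rw [map_mul, map_mul]; exact hcomm k (H5.eich_mem_commutator hhK.nondeg hn5 _ _))
    simp only [Subgroup.coe_mul, Equiv.Perm.mul_apply, hbase] at hd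
    suffices hd1 : d = 1 by
      intro v
      have := hd v
      rwa [hd1, one_smul] at this
    by_contra hd1
    have h0 := hd (baseVec e a)
    have hTa : T a b t (baseVec e a) = baseVec e a := by
      simp [T, polar_baseVec hQK, H5.polar_self', ha, polar_comm (⇑QK) b a, hab]
    rw [hTa] at h0
    set w := (g : Equiv.Perm (ι → F)) (baseVec e a) with hw
    have haa : polar Q (baseVec e a) (baseVec e a) = 0 := by
      rw [polar_baseVec hQK, H5.polar_self', ha, mul_zero, map_zero]
    have hab' : polar Q (baseVec e a) (baseVec e b) = 0 := by rw [polar_baseVec hQK, hab, map_zero]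
    have hbb : polar Q (baseVec e b) (baseVec e b) = 0 := by
      rw [polar_baseVec hQK, H5.polar_self', hb, mul_zero, map_zero]
    have h1 := congrArg (polar Q (baseVec e a)) h0
    have h2 := congrArg (polar Q (baseVec e b)) h0
    simp only [T, polar_smul_right, polar_sub_right, polar_add_right, haa, hab', hbb,
      polar_comm (⇑Q) (baseVec e b) (baseVec e a), smul_eq_mul, mul_zero, add_zero, sub_zero] at h1 h2
    have hz : ∀ z : F, z = d * z → z = 0 := fun z hz =>
      (mul_eq_zero.1 (show (1 - d) * z = 0 by linear_combination hz)).resolve_left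
        (sub_ne_zero.2 (Ne.symm hd1))
    simp only [T, hz _ h1, hz _ h2, mul_zero, zero_smul, smul_zero, add_zero, sub_zero] at h0
    have hw0 : w = 0 := (smul_eq_zero.1 (show (1 - d) • w = 0 by
      rw [sub_smul, one_smul, ← h0, sub_self])).resolve_left (sub_ne_zero.2 (Ne.symm hd1))
    have ha' : baseVec e a = 0 := (g : Equiv.Perm (ι → F)).injective
      (hw.symm.trans (hw0.trans (map_zero G).symm))
    exact ha0 (baseVec_injective e (ha'.trans (funext fun i => (map_zero e).symm)))
  have hN : ∀ a b : ι → K, QK a = 0 → QK b = 0 → polar QK a b = 0 → a ≠ 0 → ∀ v,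
      G (polar Q (baseVec e a) v • baseVec e b - polar Q (baseVec e b) v • baseVec e a) =
        polar Q (baseVec e a) (G v) • baseVec e b -
          polar Q (baseVec e b) (G v) • baseVec e a := by
    intro a b ha hb hab ha0 v
    have h := hT a b ha hb hab ha0 1 v
    simp only [T, map_one, one_smul, one_mul, add_sub_assoc, map_add] at h
    exact add_left_cancel h
  -- singular rational points are fixed
  have hW : ∀ {a a' : ι → K}, HypPair QK a a' →
      ∃ b b', b ∈ pperp QK a a' ∧ b' ∈ pperp QK a a' ∧ HypPair QK b b' := by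
    intro a a' hp
    obtain ⟨b, hb, b', hb', hq⟩ := H5.exists_hypPair_mem (Q := QK) (S := pperp QK a a') (by
      rw [hp.inf_perp hhK.nondeg, finrank_bot]
      have := hp.finrank_pperp hhK.nondeg
      omega)
    exact ⟨b, b', hb, hb', hq⟩
  have hpt : ∀ a : ι → K, a ≠ 0 → QK a = 0 → ∃ c : F, G (baseVec e a) = c • baseVec e a := by
    intro a ha0 ha
    obtain ⟨a', hp⟩ := H5.exists_hypPair hhK.nondeg ha0 ha
    obtain ⟨b, b', hb, hb', hq⟩ := hW hp
    rw [mem_pperp] at hb hb'
    have h1 := hN a b ha hq.left hb.1 ha0 (baseVec e b')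
    have h2 := hN a b' ha hq.right hb'.1 ha0 (baseVec e b)
    simp only [polar_baseVec hQK, hb.1, hb'.1, hq.pair, polar_comm (⇑QK) b' b, map_zero, map_one,
      zero_smul, one_smul, zero_sub, map_neg] at h1 h2
    have h3 := congrArg (polar Q (baseVec e b')) (h1.symm.trans h2)
    simp only [polar_sub_right, polar_smul_right, polar_baseVec hQK, polar_comm (⇑QK) b' b,
      polar_comm (⇑QK) b' a, hb'.1, hq.pair, H5.polar_self', hq.right, map_zero, map_one, mul_zero,
      smul_eq_mul, mul_one, sub_zero] at h3
    rw [h3, zero_smul, zero_sub, neg_inj] at h1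
    exact ⟨_, h1⟩
  have hne : ∀ {a : ι → K}, a ≠ 0 → baseVec e a ≠ 0 := fun ha h =>
    ha (baseVec_injective e (h.trans (funext fun _ => (map_zero e).symm)))
  -- a hyperbolic pair and the vectors between it have the same scalar
  have hstep : ∀ {a a' b : ι → K}, HypPair QK a a' → b ∈ pperp QK a a' → QK b = 0 →
      ∀ {c' : F}, G (baseVec e a') = c' • baseVec e a' → G (baseVec e b) = c' • baseVec e b := by
    intro a a' b hp hb hbQ c' hc'
    rw [mem_pperp, polar_comm (⇑QK) a' b] at hb
    have h := hN a b hp.left hbQ hb.1 hp.ne_zero (baseVec e a')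
    rw [hc'] at h
    simpa only [polar_baseVec hQK, polar_smul_right, hp.pair, hb.2, map_zero, map_one, zero_smul,
      one_smul, sub_zero, smul_eq_mul, mul_zero, mul_one] using h
  have hpair : ∀ {a a' : ι → K}, HypPair QK a a' → ∀ {c c' : F},
      G (baseVec e a) = c • baseVec e a → G (baseVec e a') = c' • baseVec e a' → c = c' := by
    intro a a' hp c c' hc hc'
    obtain ⟨b, b', hb, hb', hq⟩ := hW hp
    have h1 := hstep hp hb hq.left hc'
    have h2 := hstep hp.symm (mem_pperp.2 ⟨(mem_pperp.1 hb).2, (mem_pperp.1 hb).1⟩) hq.left hc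
    exact smul_left_injective F (hne hq.ne_zero) (h2.symm.trans h1)
  obtain ⟨a, ha0, ha⟩ := H5.exists_singular hhK.nondeg (by omega)
  obtain ⟨a', hp⟩ := H5.exists_hypPair hhK.nondeg ha0 ha
  obtain ⟨c, hc⟩ := hpt a ha0 ha
  obtain ⟨c', hc'⟩ := hpt a' hp.symm.ne_zero hp.right
  obtain rfl := hpair hp hc hc'
  have hc0 : c ≠ 0 := fun h => hne ha0 (G.injective
    (hc.trans (by rw [h, zero_smul, map_zero])))
  -- the field part fixes the subfield
  have hτ : ∀ t : K, τ (e t) = e t := by
    intro t
    obtain ⟨b, b', hb, hb', hq⟩ := hW hp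
    have hgb := hstep hp hb hq.left hc'
    rw [mem_pperp, polar_comm (⇑QK) a' b] at hb
    have h := hT a b ha hq.left hb.1 ha0 t (baseVec e a')
    simp only [T, hc', polar_baseVec hQK, polar_smul_right, hp.pair, hb.2, map_zero, map_one,
      mul_zero, zero_smul, sub_zero, one_smul, smul_eq_mul, mul_one, map_add, hGs, hgb,
      smul_smul] at h
    have h' := smul_left_injective F (hne hq.ne_zero) (add_left_cancel h)
    rw [one_mul] at h'
    exact mul_right_cancel₀ hc0 (h'.trans (mul_comm _ _))
  -- all rational vectors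
  have hall : ∀ x : ι → K, G (baseVec e x) = c • baseVec e x := by
    have hw : ∀ w ∈ pperp QK a a', G (baseVec e w) = c • baseVec e w := by
      intro w hw
      obtain ⟨hs, -, hs1⟩ := hp.symm.singular_lift (mem_pperp.2 ⟨(mem_pperp.1 hw).2, (mem_pperp.1 hw).1⟩)
      set a'' := a' + (-QK w) • a + w with ha''
      have hp' : HypPair QK a a'' := ⟨ha, hs, hs1⟩
      obtain ⟨c'', hc''⟩ := hpt a'' hp'.symm.ne_zero hs
      obtain rfl := hpair hp' hc hc''
      rw [ha'', baseVec_add', baseVec_add', baseVec_smul, map_add, map_add, hGs, hτ, hc, hc',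
        smul_add, smul_add, smul_comm] at hc''
      exact add_left_cancel hc''
    intro x
    have hd := hp.decomp x
    set w := x - polar QK a' x • a - polar QK a x • a' with hwdef
    rw [show x = w + polar QK a' x • a + polar QK a x • a' by rw [hwdef]; abel]
    simp only [baseVec_add', baseVec_smul, map_add, hGs, hτ, hc, hc', hw w hd, smul_add, smul_smul,
      mul_comm c]
  refine ⟨c, τ, hτ, fun v => ?_⟩
  rw [← simEquiv_apply]
  conv_lhs => rw [pi_eq_sum_univ v, map_sum]
  conv_rhs => rw [pi_eq_sum_univ v, map_sum, Finset.smul_sum]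
  refine Finset.sum_congr rfl fun i _ => ?_
  rw [hGs, show (fun j : ι => if i = j then (1 : F) else 0) = baseVec e (Pi.single i (1 : K)) by
    funext j
    rcases eq_or_ne i j with rfl | h
    · simp [baseVec]
    · simp [baseVec, h, Ne.symm h], hall, coordSigma_smul, smul_comm]
  congr 2
  funext j
  simp only [baseVec, coordSigma_apply, hτ]

end Cfsg.Agent.H4.LocalBalance
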