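import Cfsg.Agent.H4.LocalBalance.Criterion
import Cfsg.Agent.H4.LocalBalance.FieldCent
import Cfsg.Agent.H4.Coset.EvenGen
import Cfsg.Agent.H5.ModelIso

/-!
The `p'`-core criterion for a standard field automorphism of an orthogonal group.
-/

set_option autoImplicit false

namespace Cfsg.Agent.H4.LocalBalance

open QuadraticMap hiding sq
open Module
open Cfsg.Agent.H5 (orth orth_map orth_ext orth_mul_apply refl refl_apply eich dick spin HypPair)

/-- An element fixing exactly the fixed field of `σ` is a power of `σ`. -/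
theorem mem_zpowers_of_fix {F : Type*} [Field F] [Finite F] {σ τ : F ≃+* F}
    (h : ∀ y, σ y = y → τ y = y) : τ ∈ Subgroup.zpowers σ := by
  haveI : Finite (F ≃+* F) := Finite.of_injective (fun e => (e : F → F)) DFunLike.coe_injective
  let G := Subgroup.zpowers σ
  let τ' : F →ₐ[FixedPoints.subfield G F] F :=
    { τ.toRingHom with
      commutes' := fun r => h r (r.2 ⟨σ, Subgroup.mem_zpowers σ⟩) }
  obtain ⟨g, hg⟩ := (FixedPoints.toAlgHom_bijective G F).2 τ'
  have : (g : F ≃+* F) = τ := RingEquiv.ext fun y => DFunLike.congr_fun hg y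
  exact this ▸ g.2

/-- An involution of `Ω` which is not a scalar. -/
theorem exists_involution {F V : Type*} [Field F] [Finite F] [AddCommGroup V] [Module F V]
    [FiniteDimensional F V] [Finite V] {Q : QuadraticForm F V} (hh : FormHyp Q) :
    ∃ k ∈ commutator (orth Q), k * k = 1 ∧
      ¬ ∃ d : F, ∀ v, (k : V ≃ₗ[F] V) v = d • v := by
  have hn := hh.seven_le
  obtain ⟨a, ha0, ha⟩ := H5.exists_singular hh.nondeg (by omega)
  obtain ⟨a', hp⟩ := H5.exists_hypPair hh.nondeg ha0 ha
  obtain ⟨b, hb, b', hb', hq⟩ := H5.exists_hypPair_mem (Q := Q) (S := H5.pperp Q a a') (by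
    rw [hp.inf_perp hh.nondeg, finrank_bot]
    have := hp.finrank_pperp hh.nondeg
    omega)
  rw [H5.mem_pperp] at hb hb'
  by_cases h2 : (2 : F) = 0
  · have hab : polar Q a b = 0 := hb.1
    refine ⟨eich Q a b, H5.eich_mem_commutator hh.nondeg (by omega) a b, ?_, ?_⟩
    · rw [H5.eich_mul ha hab hab, show b + b = (2 : F) • b by rw [two_smul], h2, zero_smul,
        H5.eich_zero]
    · rintro ⟨d, hd⟩
      have h1 := hd a
      rw [H5.eich_apply_self ha hab] at h1
      have hd1 : d = 1 := smul_left_injective F ha0 (by simpa using h1.symm)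
      have h3 := hd a'
      rw [hd1, one_smul, H5.eich_apply ha hab, hp.pair, polar_comm (⇑Q) b a', hb.2, one_smul,
        zero_smul, sub_zero, hq.left, zero_mul, zero_smul, sub_zero, add_eq_left] at h3
      exact hq.ne_zero h3
  · have hu : Q (a + a') = 1 := by rw [QuadraticMap.map_add (⇑Q), ha, hp.right, hp.pair]; ring
    have hw : Q (b + b') = 1 := by rw [QuadraticMap.map_add (⇑Q), hq.left, hq.right, hq.pair]; ring
    have hperp : polar Q (a + a') (b + b') = 0 := by
      simp [polar_add_left, polar_add_right, hb.1, hb.2, hb'.1, hb'.2]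
    have hcomm : refl Q (a + a') * refl Q (b + b') = refl Q (b + b') * refl Q (a + a') :=
      orth_ext fun x => by
        simp only [orth_mul_apply, refl_apply, polar_sub_right, polar_smul_right, hperp,
          polar_comm (⇑Q) (b + b') (a + a'), smul_eq_mul, mul_zero, sub_zero]
        module
    refine ⟨refl Q (a + a') * refl Q (b + b'),
      (H5.mem_commutator_iff hh.nondeg hh.std).2 ⟨?_, ?_⟩, ?_, ?_⟩
    · rw [hh.dick_hom, H5.dick_refl hh.nondeg (by rw [hu]; exact one_ne_zero),
        H5.dick_refl hh.nondeg (by rw [hw]; exact one_ne_zero)]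
      decide
    · rw [map_mul, H5.spin_refl (by rw [hu]; exact one_ne_zero),
        H5.spin_refl (by rw [hw]; exact one_ne_zero), hu, hw, H5.sqc_one, one_mul]
    · conv_lhs => arg 2; rw [hcomm]
      rw [mul_assoc, ← mul_assoc (refl Q (b + b')), H5.refl_mul_self, one_mul, H5.refl_mul_self]
    · rintro ⟨d, hd⟩
      have h1 := hd (a + a')
      rw [orth_mul_apply, H5.refl_apply_of_ortho (v := b + b') (x := a + a')
        (by rw [polar_comm]; exact hperp),
        H5.refl_apply_self (by rw [hu]; exact one_ne_zero)] at h1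
      obtain ⟨x, hx0, hx1, hx2⟩ : ∃ x, x ≠ 0 ∧ polar Q (a + a') x = 0 ∧ polar Q (b + b') x = 0 :=
        ⟨a - a', fun h => hp.not_mem (by rw [← sub_eq_zero.1 h]; exact Submodule.mem_span_singleton_self a),
          by simp [polar_add_left, polar_sub_right, polar_comm (⇑Q) a' a, hp.pair, H5.polar_self',
            ha, hp.right],
          by simp [polar_add_left, polar_sub_right, polar_comm (⇑Q) b a, polar_comm (⇑Q) b a',
            polar_comm (⇑Q) b' a, polar_comm (⇑Q) b' a', hb.1, hb.2, hb'.1, hb'.2]⟩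
      have h3 := hd x
      rw [orth_mul_apply, H5.refl_apply_of_ortho hx2, H5.refl_apply_of_ortho hx1] at h3
      have hd1 : d = 1 := smul_left_injective F hx0 (by simpa using h3.symm)
      rw [hd1, one_smul, neg_eq_iff_add_eq_zero, ← two_smul F, smul_eq_zero] at h1
      rcases h1 with h1 | h1
      · exact h2 h1
      · rw [h1, QuadraticMap.map_zero] at hu
        exact zero_ne_one hu

/-- Only the trivial element of `PΩ` gives a trivial inner automorphism. -/
theorem conj_injective_piQ {F V : Type*} [Field F] [Finite F] [AddCommGroup V] [Module F V]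
    [FiniteDimensional F V] [Finite V] {Q : QuadraticForm F V} (hh : FormHyp Q) :
    Function.Injective (MulAut.conj :
      commutator (orth Q) ⧸ Subgroup.center (commutator (orth Q)) →* _) := by
  have hn := hh.seven_le
  rw [← MonoidHom.ker_eq_bot_iff, eq_bot_iff]
  intro x hx
  obtain ⟨g, rfl⟩ := QuotientGroup.mk'_surjective _ x
  refine (QuotientGroup.eq_one_iff g).2 (H5.mem_center_of_perfect ?_ fun k => ?_)
  · apply Subgroup.map_injective (f := (commutator (orth Q)).subtype) Subtype.val_injective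
    rw [commutator_def (G := commutator (orth Q)), Subgroup.map_commutator,
      ← MonoidHom.range_eq_map, Subgroup.range_subtype,
      H5.commutator_eq_eichGroup hh.nondeg (by omega) hh.std,
      H5.eichGroup_perfect hh.nondeg (by omega)]
  · have h1 : MulAut.conj (QuotientGroup.mk' _ g) = 1 := MonoidHom.mem_ker.1 hx
    have h2 := DFunLike.congr_fun h1 (QuotientGroup.mk' _ k)
    rw [MulAut.conj_apply, MulAut.one_apply, mul_inv_eq_iff_eq_mul] at h2
    rw [← QuotientGroup.eq_one_iff, ← QuotientGroup.mk'_apply, map_commutatorElement,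
      commutatorElement_eq_one_iff_mul_comm]
    exact h2

theorem conj_injective_pomega {F : Type*} [Field F] [Finite F] {ι : Type} [Fintype ι] [DecidableEq ι]
    {Q : QuadraticForm F (ι → F)} {f : (ι → F) → F} (hf : ⇑Q = f) (hh : FormHyp Q) :
    Function.Injective (MulAut.conj : Cfsg.POmega F f →* MulAut (Cfsg.POmega F f)) := by
  haveI : Finite (ι → F) := Pi.finite
  intro x y h
  set E := H5.pomegaEquiv Q hf
  refine E.injective (conj_injective_piQ hh (MulEquiv.ext fun z => ?_))
  obtain ⟨w, rfl⟩ := E.surjective z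
  have h1 := congrArg E (DFunLike.congr_fun h w)
  simpa [MulAut.conj_apply] using h1

section field

variable {F : Type*} [Field F] [Fintype F] {ι : Type} [Fintype ι] [DecidableEq ι]
  {K : Type*} [Field K] [Fintype K] [Nontrivial (ι → K)]
  {e : K →+* F} {Q : QuadraticForm F (ι → F)} {QK : QuadraticForm K (ι → K)}

/-- Extension of scalars of isometries. -/
noncomputable def baseOrth (hhK : FormHyp QK) (hQK : ∀ x, Q (baseVec e x) = e (QK x)) :
    orth QK →* orth Q where
  toFun k := ⟨linSimEquiv (baseSim hQK ⟨orthToSim QK k, orthToSim_mem QK k⟩), fun v => by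
    haveI : Finite (ι → K) := Pi.finite
    haveI : Nontrivial (ι → F) := baseVec_single_ne_zero e
    rw [linSimEquiv_apply, linSim_app, simMult_baseSim hQK hhK.exists_ne,
      show simMult (orthToSim QK k) = 1 from simMult_eq hhK.exists_ne fun x => by
        rw [simSigma_orth, one_mul]; exact orth_map k x, map_one, one_mul]⟩
  map_one' := orth_ext fun v => by
    change ((baseSim hQK 1).1 : Equiv.Perm (ι → F)) v = v
    rw [map_one]; rfl
  map_mul' a b := orth_ext fun v => by
    change ((baseSim hQK (⟨orthToSim QK a, orthToSim_mem QK a⟩ *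
      ⟨orthToSim QK b, orthToSim_mem QK b⟩)).1 : Equiv.Perm (ι → F)) v = _
    rw [map_mul]; rfl

variable {f : (ι → F) → F} {fK : (ι → K) → K}

/-- The embedding of the group over the subfield. -/
noncomputable def baseOmega (hf : ⇑Q = f) (hhK : FormHyp QK)
    (hQK : ∀ x, Q (baseVec e x) = e (QK x)) :
    commutator (orth QK) →* MulAut (Cfsg.POmega F f) :=
  ((indHom Q hf).comp ((orthToSim Q).comp (baseOrth hhK hQK))).comp (commutator (orth QK)).subtype

theorem baseOmega_apply (hf : ⇑Q = f) (hhK : FormHyp QK) (hQK : ∀ x, Q (baseVec e x) = e (QK x))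
    (k : commutator (orth QK)) : baseOmega hf hhK hQK k =
      indHom Q hf (baseSim hQK ⟨orthToSim QK (k : orth QK), orthToSim_mem QK _⟩).1 :=
  congrArg (indHom Q hf) (Subtype.ext (Equiv.ext fun _ => rfl) :
    orthToSim Q (baseOrth hhK hQK (k : orth QK)) =
      (baseSim hQK ⟨orthToSim QK (k : orth QK), orthToSim_mem QK _⟩).1)

theorem baseOmega_eq_one_iff (hf : ⇑Q = f) (hh : FormHyp Q) (hhK : FormHyp QK)
    (hQK : ∀ x, Q (baseVec e x) = e (QK x)) (k : commutator (orth QK)) :
    baseOmega hf hhK hQK k = 1 ↔ simHom QK (orthToSim QK (k : orth QK)) = 1 := by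
  haveI : Finite (ι → K) := Pi.finite
  obtain ⟨x₀, hx₀⟩ := hhK.exists_ne
  obtain ⟨i, hi⟩ : ∃ i, x₀ i ≠ 0 := by
    by_contra! h0; exact hx₀ (by rw [show x₀ = 0 from funext h0, QuadraticMap.map_zero])
  set kS : linSim QK := ⟨orthToSim QK (k : orth QK), orthToSim_mem QK _⟩
  rw [baseOmega_apply, indHom_eq_one_iff Q hf hh, simHom_eq_one_iff hhK]
  constructor
  · rintro ⟨d, hd⟩
    refine ⟨(kS.1 : Equiv.Perm (ι → K)) x₀ i / x₀ i, fun x => baseVec_injective e ?_⟩
    have hed : d = e ((kS.1 : Equiv.Perm (ι → K)) x₀ i / x₀ i) := by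
      have h1 := congrFun (hd (baseVec e x₀)) i
      rw [baseSim_apply hQK] at h1
      simp only [baseVec, Pi.smul_apply, smul_eq_mul] at h1
      rw [map_div₀, h1, mul_div_assoc, div_self ((map_ne_zero e).2 hi), mul_one]
    change baseVec e ((kS.1 : Equiv.Perm (ι → K)) x) = _
    rw [← baseSim_apply hQK, hd, hed, baseVec_smul]
  · rintro ⟨d, hd⟩
    refine ⟨e d, fun v => ?_⟩
    refine lin_eq_of_baseVec (κ := ι) e (a := (linSimEquiv (baseSim hQK kS) : (ι → F) →ₗ[F] (ι → F)))
      (b := e d • LinearMap.id) (fun x => ?_) v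
    change ((baseSim hQK kS).1 : Equiv.Perm (ι → F)) (baseVec e x) = e d • baseVec e x
    rw [baseSim_apply, ← baseVec_smul]
    exact congrArg (baseVec e) (hd x)

/-- The `p'`-core criterion for a standard field automorphism. -/
theorem field_core_iff (hf : ⇑Q = f) (hh : FormHyp Q) (hhK : FormHyp QK) {σ : F ≃+* F}
    (he : ∀ y, σ y = y ↔ y ∈ e.range) (hQK : ∀ x, Q (baseVec e x) = e (QK x))
    (hQσ : ∀ v, Q (coordSigma ι σ v) = σ (Q v)) {D : Subgroup (MulAut (Cfsg.POmega F f))} [D.Normal]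
    (hD : Cfsg.Inn (Cfsg.POmega F f) ≤ D) {A : Subgroup (MulAut (Cfsg.POmega F f))}
    (hinn : ∀ k : Cfsg.POmega F f, MulAut.conj k ∈ A) {p : ℕ} [Fact p.Prime]
    (hord : orderOf σ = p) (hxA : indHom Q hf (stdSigma Q hQσ) ∈ A)
    (hxD : indHom Q hf (stdSigma Q hQσ) ∉ D)
    (hDC : ∀ d ∈ D ⊓ Subgroup.centralizer {indHom Q hf (stdSigma Q hQσ)},
      ∃ k : linSim QK, d = indHom Q hf (baseSim hQK k).1)
    (hlift : ∀ g ∈ Subgroup.centralizer {indHom Q hf (stdSigma Q hQσ)},
      (∀ k, g * baseOmega hf hhK hQK k = baseOmega hf hhK hQK k * g) → ∃ g₀, g = indHom Q hf g₀) :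
    Cfsg.pPrimeCore p ↥(A ⊓ Subgroup.centralizer {indHom Q hf (stdSigma Q hQσ)}) ≠ ⊥ ↔
      Nat.Coprime p (Nat.card ↥(MonoidHom.eqLocus
        (indHom Q hf (stdSigma Q hQσ)).toMonoidHom (MonoidHom.id (Cfsg.POmega F f)))) := by
  classical
  haveI : Finite (ι → F) := Pi.finite
  haveI : Finite (ι → K) := Pi.finite
  haveI : Finite (Cfsg.POmega F f) :=
    haveI : Finite ((ι → F) ≃ₗ[F] (ι → F)) :=
      Finite.of_injective (fun g => (g : (ι → F) → (ι → F))) DFunLike.coe_injective
    Finite.of_equiv _ (H5.pomegaEquiv Q hf).symm.toEquiv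
  set ψ := baseOmega hf hhK hQK
  have hSle : ψ.range ≤ Cfsg.Inn (Cfsg.POmega F f) ⊓
      Subgroup.centralizer {indHom Q hf (stdSigma Q hQσ)} := by
    rintro _ ⟨k, rfl⟩
    refine ⟨(indHom_mem_inn_iff Q hf hh _).2 ⟨1, baseOrth hhK hQK k, ?_, fun v => (one_smul F _).symm⟩,
      Subgroup.mem_centralizer_iff.2 fun z hz => ?_⟩
    · have h1 : baseOrth hhK hQK (k : orth QK) ∈ (commutator (orth QK)).map (baseOrth hhK hQK) :=
        Subgroup.mem_map_of_mem _ k.2
      exact Subgroup.commutator_mono le_top le_top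
        (le_of_eq (Subgroup.map_commutator ⊤ ⊤ (baseOrth hhK hQK)) h1)
    · rw [Set.mem_singleton_iff.1 hz, baseOmega_apply]
      simp only [← map_mul]
      congr 1
      refine Subtype.ext (Equiv.ext fun v => ?_)
      simp only [Subgroup.coe_mul, Equiv.Perm.mul_apply, stdSigma_apply]
      exact (baseSim_commute hQK he _ v).symm
  have hSn : ∀ h ∈ D ⊓ Subgroup.centralizer {indHom Q hf (stdSigma Q hQσ)}, ∀ s ∈ ψ.range,
      h * s * h⁻¹ ∈ ψ.range := by
    rintro h hh' _ ⟨k, rfl⟩
    obtain ⟨l, rfl⟩ := hDC h hh'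
    refine ⟨simConjOmega (isSemiSim l.1) k, ?_⟩
    simp only [ψ, baseOmega_apply, ← map_inv, ← map_mul, ← Subgroup.coe_inv, ← Subgroup.coe_mul]
    congr 2
  haveI : IsSimpleGroup ψ.range := by
    have hn := hhK.seven_le
    haveI := H5.isSimpleGroup_commutator_mod_center (Q := QK) hhK.nondeg (by omega)
    obtain ⟨E⟩ := nonempty_range_equiv ψ
      ((MulAut.conj : _ →* MulAut _).comp (piQ QK)) fun k => by
        rw [baseOmega_eq_one_iff hf hh hhK hQK, simHom_orthToSim]; rfl
    have hr : ((MulAut.conj : _ →* MulAut _).comp (piQ QK)).range =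
        (MulAut.conj : _ →* MulAut (commutator (orth QK) ⧸ Subgroup.center _)).range :=
      by rw [MonoidHom.range_comp, MonoidHom.range_eq_top.2 (QuotientGroup.mk'_surjective _),
        ← MonoidHom.range_eq_map]
    exact (E.trans ((MulEquiv.subgroupCongr hr).trans
      (MonoidHom.ofInjective (conj_injective_piQ hhK)).symm)).isSimpleGroup
  have hS2 : 2 ∣ Nat.card ψ.range := by
    obtain ⟨k, hk, hkk, hkd⟩ := exists_involution hhK
    have hne : ψ ⟨k, hk⟩ ≠ 1 := fun h => hkd (by
      obtain ⟨d, hd⟩ := (simHom_eq_one_iff hhK _).1 ((baseOmega_eq_one_iff hf hh hhK hQK _).1 h)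
      exact ⟨d, hd⟩)
    have : orderOf (⟨ψ ⟨k, hk⟩, ⟨k, hk⟩, rfl⟩ : ψ.range) = 2 := orderOf_eq_prime (by
      apply Subtype.ext
      rw [SubgroupClass.coe_pow, ← map_pow, show (⟨k, hk⟩ : commutator (orth QK)) ^ 2 = 1 from
        Subtype.ext (by rw [SubgroupClass.coe_pow, sq]; exact hkk), map_one]
      rfl) fun h => hne (congrArg Subtype.val h)
    exact this ▸ orderOf_dvd_natCard _
  refine core_iff (conj_injective_pomega hf hh) hD hinn hxA
    ((orderOf_stdSigma Q hf hh hQσ).trans hord) hxD ψ.range hSle hSn hS2 ?_ ?_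
  · intro g hg
    obtain ⟨k, rfl⟩ := hDC g ⟨hD hg.1, hg.2⟩
    set c := simMult k.1
    have hc : c ≠ 0 := (isSemiSim k.1).ne_zero
    let l : orth QK := ⟨(linSimEquiv (k * k)).trans (LinearEquiv.smulOfUnit (Units.mk0 c hc)⁻¹),
      fun v => by
        change QK (c⁻¹ • (k.1 : Equiv.Perm (ι → K)) ((k.1 : Equiv.Perm (ι → K)) v)) = QK v
        rw [qf_smul, linSim_app QK k, linSim_app QK k]
        field_simp
        simp [c]⟩
    have hl : l * l ∈ commutator (orth QK) := by
      rw [H5.mem_commutator_iff hhK.nondeg hhK.std, hhK.dick_hom, map_mul]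
      exact ⟨Int.units_mul_self _, Int.units_mul_self _⟩
    refine ⟨⟨l * l, hl⟩, ?_⟩
    rw [baseOmega_apply, ← map_pow, ← SubgroupClass.coe_pow, ← map_pow]
    refine indHom_eq_of_smul Q hf hh (d := e (c⁻¹ * c⁻¹)) fun v => ?_
    refine lin_eq_of_baseVec (κ := ι) e
      (a := (linSimEquiv (baseSim hQK ⟨orthToSim QK (l * l), orthToSim_mem QK _⟩) :
        (ι → F) →ₗ[F] (ι → F)))
      (b := e (c⁻¹ * c⁻¹) • (linSimEquiv (baseSim hQK (k ^ 4)) : (ι → F) →ₗ[F] (ι → F)))
      (fun x => ?_) v
    change ((baseSim hQK _).1 : Equiv.Perm (ι → F)) (baseVec e x) =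
      e (c⁻¹ * c⁻¹) • ((baseSim hQK (k ^ 4)).1 : Equiv.Perm (ι → F)) (baseVec e x)
    rw [baseSim_apply, baseSim_apply, ← baseVec_smul]
    congr 1
    change c⁻¹ • (linSimEquiv (k * k)) (c⁻¹ • (linSimEquiv (k * k)) x) = _
    rw [map_smul, smul_smul, show k ^ 4 = k * k * (k * k) by rw [← sq, ← sq, ← pow_mul]]
    rfl
  · intro g hg hgS
    obtain ⟨g₀, rfl⟩ := hlift g hg fun k => hgS _ ⟨k, rfl⟩
    obtain ⟨c, τ, hτ, hg₀⟩ := exists_scalar_field_of_commute hf hh hhK hQK g₀ fun k hk => by
      have := hgS _ ⟨⟨k, hk⟩, rfl⟩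
      rwa [baseOmega_apply] at this
    have hτσ : τ ∈ Submonoid.powers σ := by
      haveI : Finite (F ≃+* F) := Finite.of_injective (fun e => (e : F → F)) DFunLike.coe_injective
      exact mem_powers_iff_mem_zpowers.2 (mem_zpowers_of_fix fun y hy => by
        obtain ⟨a, rfl⟩ := (he y).1 hy
        exact hτ a)
    obtain ⟨j, rfl⟩ := (Submonoid.mem_powers_iff _ _).1 hτσ
    rw [indHom_eq_of_smul Q hf hh (g := g₀) (g' := stdSigma Q hQσ ^ j) (d := c) fun v => by
      rw [hg₀, stdSigma_pow_apply]; rfl, map_pow]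
    exact pow_mem (Subgroup.mem_zpowers _) j

end field

end Cfsg.Agent.H4.LocalBalance
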