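import Cfsg.Agent.H4.Triality.Pair
import Cfsg.Prelude.Def_LieTypeDatum

/-!
Invariance of the two sides of the local balance criterion under conjugation.
-/

set_option autoImplicit false

namespace Cfsg.Agent.H4.LocalBalance

theorem core_ne_bot_of_equiv {G G' : Type*} [Group G] [Group G'] (p : ℕ) (E : G ≃* G')
    (h : Cfsg.pPrimeCore p G ≠ ⊥) : Cfsg.pPrimeCore p G' ≠ ⊥ := by
  intro h'
  refine h (sSup_eq_bot.2 fun N hN => ?_)
  obtain ⟨hn, hc⟩ := hN
  have hle : N.map E.toMonoidHom ≤ Cfsg.pPrimeCore p G' := le_sSup ⟨hn.map _ E.surjective, by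
    rw [← Nat.card_congr (Subgroup.equivMapOfInjective N E.toMonoidHom E.injective).toEquiv]
    exact hc⟩
  rw [h', le_bot_iff] at hle
  exact (Subgroup.map_eq_bot_iff_of_injective N E.injective).1 hle

variable {K : Type*} [Group K]

/-- Both sides of the criterion at `x` and at a conjugate of `x`. -/
theorem criterion_conj {A : Subgroup (MulAut K)} (hinn : ∀ k : K, MulAut.conj k ∈ A)
    {x : MulAut K} (hxA : x ∈ A) (a : MulAut K) (p : ℕ) :
    (∀ k : K, MulAut.conj k ∈ A.map (MulAut.conj a).toMonoidHom) ∧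
      a * x * a⁻¹ ∈ A.map (MulAut.conj a).toMonoidHom ∧
      (Cfsg.pPrimeCore p ↥(A ⊓ Subgroup.centralizer {x}) ≠ ⊥ ↔
        Cfsg.pPrimeCore p ↥(A.map (MulAut.conj a).toMonoidHom ⊓
          Subgroup.centralizer {a * x * a⁻¹}) ≠ ⊥) ∧
      Nat.card ↥(MonoidHom.eqLocus x.toMonoidHom (MonoidHom.id K)) =
        Nat.card ↥(MonoidHom.eqLocus (a * x * a⁻¹).toMonoidHom (MonoidHom.id K)) := by
  refine ⟨fun k => ⟨MulAut.conj (a⁻¹ k), hinn _, ?_⟩, ⟨x, hxA, rfl⟩, ?_, ?_⟩
  · change a * MulAut.conj (a⁻¹ k) * a⁻¹ = _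
    rw [← conj_apply_aut]
    exact congrArg _ (a.apply_symm_apply k)
  · have hmap : (A ⊓ Subgroup.centralizer {x}).map (MulAut.conj a).toMonoidHom =
        A.map (MulAut.conj a).toMonoidHom ⊓ Subgroup.centralizer {a * x * a⁻¹} := by
      rw [Subgroup.map_inf _ _ _ (MulAut.conj a).injective]
      congr 1
      ext y
      simp only [Subgroup.mem_map, MulEquiv.coe_toMonoidHom, MulAut.conj_apply,
        Subgroup.mem_centralizer_iff, Set.mem_singleton_iff, forall_eq]
      constructor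
      · rintro ⟨z, hz, rfl⟩
        calc a * x * a⁻¹ * (a * z * a⁻¹) = a * (x * z) * a⁻¹ := by group
          _ = a * (z * x) * a⁻¹ := by rw [hz]
          _ = _ := by group
      · intro hy
        refine ⟨a⁻¹ * y * a, ?_, by group⟩
        calc x * (a⁻¹ * y * a) = a⁻¹ * (a * x * a⁻¹ * y) * a := by group
          _ = a⁻¹ * (y * (a * x * a⁻¹)) * a := by rw [hy]
          _ = _ := by group
    let E := (Subgroup.equivMapOfInjective (A ⊓ Subgroup.centralizer {x})
      (MulAut.conj a).toMonoidHom (MulAut.conj a).injective).trans (MulEquiv.subgroupCongr hmap)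
    exact ⟨core_ne_bot_of_equiv p E, core_ne_bot_of_equiv p E.symm⟩
  · refine Nat.card_congr (Equiv.subtypeEquiv a.toEquiv fun k => ?_)
    change x k = k ↔ (a * x * a⁻¹) (a k) = a k
    rw [MulAut.mul_apply, MulAut.mul_apply, a.apply_eq_iff_eq.symm]
    rw [show a⁻¹ (a k) = k from a.symm_apply_apply k]

/-- Both sides of the criterion at `x` and at its image under an isomorphism. -/
theorem criterion_congr {K' : Type*} [Group K'] (ψ : K ≃* K') {A : Subgroup (MulAut K)}
    (hinn : ∀ k : K, MulAut.conj k ∈ A) {x : MulAut K} (hxA : x ∈ A) (p : ℕ) :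
    (∀ k : K', MulAut.conj k ∈ A.map (MulAut.congr ψ).toMonoidHom) ∧
      MulAut.congr ψ x ∈ A.map (MulAut.congr ψ).toMonoidHom ∧
      (Cfsg.pPrimeCore p ↥(A ⊓ Subgroup.centralizer {x}) ≠ ⊥ ↔
        Cfsg.pPrimeCore p ↥(A.map (MulAut.congr ψ).toMonoidHom ⊓
          Subgroup.centralizer {MulAut.congr ψ x}) ≠ ⊥) ∧
      Nat.card ↥(MonoidHom.eqLocus x.toMonoidHom (MonoidHom.id K)) =
        Nat.card ↥(MonoidHom.eqLocus (MulAut.congr ψ x).toMonoidHom (MonoidHom.id K')) := by
  refine ⟨fun k => ⟨MulAut.conj (ψ.symm k), hinn _, MulEquiv.ext fun y => ?_⟩, ⟨x, hxA, rfl⟩, ?_, ?_⟩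
  · simp [MulAut.congr]
  · have hmap : (A ⊓ Subgroup.centralizer {x}).map (MulAut.congr ψ).toMonoidHom =
        A.map (MulAut.congr ψ).toMonoidHom ⊓ Subgroup.centralizer {MulAut.congr ψ x} := by
      rw [Subgroup.map_inf _ _ _ (MulAut.congr ψ).injective]
      congr 1
      ext y
      simp only [Subgroup.mem_map, MulEquiv.coe_toMonoidHom, Subgroup.mem_centralizer_iff,
        Set.mem_singleton_iff, forall_eq]
      constructor
      · rintro ⟨z, hz, rfl⟩
        rw [← map_mul, hz, map_mul]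
      · intro hy
        refine ⟨(MulAut.congr ψ).symm y, (MulAut.congr ψ).injective ?_,
          (MulAut.congr ψ).apply_symm_apply y⟩
        rw [map_mul, map_mul, (MulAut.congr ψ).apply_symm_apply, hy]
    let E := (Subgroup.equivMapOfInjective (A ⊓ Subgroup.centralizer {x})
      (MulAut.congr ψ).toMonoidHom (MulAut.congr ψ).injective).trans (MulEquiv.subgroupCongr hmap)
    exact ⟨core_ne_bot_of_equiv p E, core_ne_bot_of_equiv p E.symm⟩
  · refine Nat.card_congr (Equiv.subtypeEquiv ψ.toEquiv fun k => ?_)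
    change x k = k ↔ ψ (x (ψ.symm (ψ k))) = ψ k
    rw [ψ.symm_apply_apply, ψ.apply_eq_iff_eq]

end Cfsg.Agent.H4.LocalBalance
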