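import Cfsg.Agent.H4.Triality.Pair
import Cfsg.Prelude.Def_LieTypeDatum

/-!
Local balance for an outer automorphism of prime order whose centraliser has a simple normal
subgroup with cyclic centraliser: the `p'`-core criterion.
-/

set_option autoImplicit false

namespace Cfsg.Agent.H4.LocalBalance

variable {K : Type*} [Group K]

/-- Inner automorphisms centralising `x` correspond to the fixed points of `x`. -/
theorem card_inn_inf_centralizer (hconj : Function.Injective (MulAut.conj : K →* MulAut K))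
    (x : MulAut K) :
    Nat.card ↥(Cfsg.Inn K ⊓ Subgroup.centralizer {x}) =
      Nat.card ↥(MonoidHom.eqLocus x.toMonoidHom (MonoidHom.id K)) := by
  have h : (MonoidHom.eqLocus x.toMonoidHom (MonoidHom.id K)).map MulAut.conj =
      Cfsg.Inn K ⊓ Subgroup.centralizer {x} := by
    ext β
    simp only [Subgroup.mem_map, Subgroup.mem_inf, Subgroup.mem_centralizer_iff,
      Set.mem_singleton_iff, forall_eq]
    constructor
    · rintro ⟨k, hk, rfl⟩
      refine ⟨⟨k, rfl⟩, ?_⟩
      have h1 := conj_apply_aut x k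
      rw [show x k = k from hk, eq_mul_inv_iff_mul_eq] at h1
      exact h1.symm
    · rintro ⟨⟨k, rfl⟩, hc⟩
      refine ⟨k, hconj ?_, rfl⟩
      change MulAut.conj (x k) = MulAut.conj k
      rw [conj_apply_aut, hc, mul_inv_cancel_right]
  rw [← h]
  exact (Nat.card_congr (Subgroup.equivMapOfInjective _ _ hconj).toEquiv).symm

/-- The `p'`-core criterion for a subgroup invariant under the centraliser. -/
theorem core_iff_of_invariant [Finite K] (hconj : Function.Injective (MulAut.conj : K →* MulAut K))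
    {A : Subgroup (MulAut K)} (hinn : ∀ k : K, MulAut.conj k ∈ A) {x : MulAut K} {p : ℕ}
    [Fact p.Prime] (hord : orderOf x = p) (S : Subgroup (MulAut K))
    (hSle : S ≤ Cfsg.Inn K ⊓ Subgroup.centralizer {x}) [Nontrivial S]
    (hinv : ∀ g ∈ A ⊓ Subgroup.centralizer {x}, ∀ s ∈ S, g * s * g⁻¹ ∈ S)
    (hmin : ∀ M : Subgroup S, M.Normal → M ≠ ⊥ →
      p ∣ Nat.card ↥(Cfsg.Inn K ⊓ Subgroup.centralizer {x}) → p ∣ Nat.card M)
    (hcent : ∀ g ∈ A ⊓ Subgroup.centralizer {x}, (∀ s ∈ S, g * s = s * g) →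
      g ∈ Subgroup.zpowers x) :
    Cfsg.pPrimeCore p ↥(A ⊓ Subgroup.centralizer {x}) ≠ ⊥ ↔
      Nat.Coprime p (Nat.card ↥(MonoidHom.eqLocus x.toMonoidHom (MonoidHom.id K))) := by
  haveI : Finite (MulAut K) :=
    Finite.of_injective (fun α => (α : K → K)) DFunLike.coe_injective
  have hp : p.Prime := Fact.out
  rw [← card_inn_inf_centralizer hconj]
  have hinnA : Cfsg.Inn K ≤ A := by
    rintro _ ⟨k, rfl⟩
    exact hinn k
  have hSC : S ≤ A ⊓ Subgroup.centralizer {x} := hSle.trans (inf_le_inf_right _ hinnA)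
  set C := A ⊓ Subgroup.centralizer {x}
  constructor
  · intro hne
    obtain ⟨N, ⟨hNn, hNc⟩, hN⟩ : ∃ N ∈ {N : Subgroup C | N.Normal ∧ (Nat.card N).Coprime p},
        N ≠ ⊥ := by
      by_contra! h
      exact hne (sSup_eq_bot.2 h)
    by_contra hcop
    have hdvd : p ∣ Nat.card ↥(Cfsg.Inn K ⊓ Subgroup.centralizer {x}) :=
      not_not.1 fun h => hcop (hp.coprime_iff_not_dvd.2 h)
    have hNS : ∀ n ∈ N, ∀ s ∈ S, (n : MulAut K) * s = s * n := by
      let M : Subgroup S := N.comap (Subgroup.inclusion hSC)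
      have hM : M.Normal := hNn.comap _
      suffices h : M = ⊥ by
        intro n hn s hs
        have hn' : (n : MulAut K) * s * (n : MulAut K)⁻¹ * s⁻¹ ∈ S :=
          mul_mem (hinv _ n.2 s hs) (inv_mem hs)
        have hmem : (⟨_, hn'⟩ : S) ∈ M := by
          rw [Subgroup.mem_comap]
          have h1 := mul_mem hn (hNn.conj_mem _ (inv_mem hn) ⟨s, hSC hs⟩)
          convert h1 using 1
          exact Subtype.ext (by simp [mul_assoc])
        rw [h, Subgroup.mem_bot, Subtype.ext_iff, Subgroup.coe_one, mul_inv_eq_one,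
          mul_inv_eq_iff_eq_mul] at hmem
        exact hmem
      by_contra hMne
      have hle : Nat.card M ∣ Nat.card N := by
        refine Subgroup.card_dvd_of_injective
          (((Subgroup.inclusion hSC).comp M.subtype).codRestrict N fun s => s.2)
          fun a b hab => Subtype.ext (Subgroup.inclusion_injective hSC (congrArg Subtype.val hab))
      exact hp.not_dvd_one (hNc.gcd_eq_one ▸ Nat.dvd_gcd ((hmin M hM hMne hdvd).trans hle) dvd_rfl)
    refine hN ((Subgroup.eq_bot_iff_forall N).2 fun n hn => ?_)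
    have hz := hcent _ n.2 fun s hs => hNS n hn s hs
    refine orderOf_eq_one_iff.1 (Nat.eq_one_of_dvd_coprimes hNc ?_ ?_)
    · exact Subgroup.orderOf_dvd_natCard N hn
    · rw [← orderOf_submonoid n, ← hord]
      exact orderOf_dvd_of_mem_zpowers hz
  · intro hcop
    set N := (Cfsg.Inn K ⊓ Subgroup.centralizer {x}).subgroupOf C with hNdef
    have hNle : Cfsg.Inn K ⊓ Subgroup.centralizer {x} ≤ C := inf_le_inf_right _ hinnA
    have hNn : N.Normal := ⟨fun n hn g => by
      rw [hNdef, Subgroup.mem_subgroupOf] at hn ⊢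
      exact ⟨(inferInstance : (Cfsg.Inn K).Normal).conj_mem _ hn.1 _,
        Subgroup.mul_mem _ (Subgroup.mul_mem _ g.2.2 hn.2) (Subgroup.inv_mem _ g.2.2)⟩⟩
    have hle : N ≤ Cfsg.pPrimeCore p C := le_sSup ⟨hNn, by
      rw [hNdef, Nat.card_congr (Subgroup.subgroupOfEquivOfLe hNle).toEquiv, Nat.coprime_comm]
      exact hcop⟩
    intro hbot
    obtain ⟨s, hs⟩ := exists_ne (1 : S)
    have : (⟨s.1, hSC s.2⟩ : C) ∈ (⊥ : Subgroup C) := hbot ▸ hle (hSle s.2)
    exact hs (Subtype.ext (congrArg Subtype.val (Subgroup.mem_bot.1 this) : _))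


/-- The `p'`-core criterion. -/
theorem core_iff [Finite K] (hconj : Function.Injective (MulAut.conj : K →* MulAut K))
    {D : Subgroup (MulAut K)} [D.Normal] (hD : Cfsg.Inn K ≤ D) {A : Subgroup (MulAut K)}
    (hinn : ∀ k : K, MulAut.conj k ∈ A) {x : MulAut K} (hxA : x ∈ A) {p : ℕ} [Fact p.Prime]
    (hord : orderOf x = p) (hxD : x ∉ D) (S : Subgroup (MulAut K))
    (hSle : S ≤ Cfsg.Inn K ⊓ Subgroup.centralizer {x})
    (hSn : ∀ h ∈ D ⊓ Subgroup.centralizer {x}, ∀ s ∈ S, h * s * h⁻¹ ∈ S)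
    [IsSimpleGroup S] (hS2 : 2 ∣ Nat.card S)
    (hpow : ∀ g ∈ Cfsg.Inn K ⊓ Subgroup.centralizer {x}, g ^ 4 ∈ S)
    (hcent : ∀ g ∈ Subgroup.centralizer {x}, (∀ s ∈ S, g * s = s * g) → g ∈ Subgroup.zpowers x) :
    Cfsg.pPrimeCore p ↥(A ⊓ Subgroup.centralizer {x}) ≠ ⊥ ↔
      Nat.Coprime p (Nat.card ↥(MonoidHom.eqLocus x.toMonoidHom (MonoidHom.id K))) := by
  haveI : Finite (MulAut K) :=
    Finite.of_injective (fun α => (α : K → K)) DFunLike.coe_injective
  have hp : p.Prime := Fact.out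
  have hzD : ∀ g ∈ D, g ∈ Subgroup.zpowers x → g = 1 := fun g hg hz => by
    by_contra hne
    obtain ⟨k, hk⟩ := Subgroup.mem_zpowers_iff.1 hz
    refine hxD ?_
    have hgo : orderOf g = p := ((hp.eq_one_or_self_of_dvd _
      (hord ▸ orderOf_dvd_of_mem_zpowers hz)).resolve_left fun h => hne (orderOf_eq_one_iff.1 h))
    have : Subgroup.zpowers g = Subgroup.zpowers x :=
      Subgroup.eq_of_le_of_card_ge (Subgroup.zpowers_le.2 hz)
        (by rw [Nat.card_zpowers, Nat.card_zpowers, hgo, hord])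
    exact (Subgroup.zpowers_le.2 hg) (this ▸ Subgroup.mem_zpowers x)
  -- `S` is invariant under the whole centraliser of `x`
  have hinv : ∀ g ∈ Subgroup.centralizer {x}, ∀ s ∈ S, g * s * g⁻¹ ∈ S := by
    intro g hg
    set T := S.map (MulAut.conj g).toMonoidHom with hT
    have hTle : T ≤ D ⊓ Subgroup.centralizer {x} := by
      rintro _ ⟨s, hs, rfl⟩
      exact ⟨(inferInstance : D.Normal).conj_mem s (hD (hSle hs).1) g,
        Subgroup.mul_mem _ (Subgroup.mul_mem _ hg (hSle hs).2) (Subgroup.inv_mem _ hg)⟩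
    have hTn : ∀ h ∈ D ⊓ Subgroup.centralizer {x}, ∀ t ∈ T, h * t * h⁻¹ ∈ T := by
      rintro h hh _ ⟨s, hs, rfl⟩
      refine ⟨(g⁻¹ * h * g) * s * (g⁻¹ * h * g)⁻¹, hSn _ ⟨?_, ?_⟩ s hs, ?_⟩
      · simpa using (inferInstance : D.Normal).conj_mem h hh.1 g⁻¹
      · exact Subgroup.mul_mem _ (Subgroup.mul_mem _ (Subgroup.inv_mem _ hg) hh.2) hg
      · simp [mul_assoc]
    have hSD : S ≤ D ⊓ Subgroup.centralizer {x} := hSle.trans (inf_le_inf_right _ hD)
    have hN : (T.subgroupOf S).Normal := ⟨fun s hs a => by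
      rw [Subgroup.mem_subgroupOf] at hs ⊢
      exact hTn _ (hSD a.2) _ hs⟩
    rcases hN.eq_bot_or_eq_top with h | h
    · exfalso
      rw [Subgroup.subgroupOf_eq_bot] at h
      have hcomm : ∀ t ∈ T, ∀ s ∈ S, t * s = s * t := fun t ht s hs => by
        have h1 : t * s * t⁻¹ * s⁻¹ ∈ T ⊓ S := by
          refine ⟨?_, S.mul_mem (hSn t (hTle ht) s hs) (S.inv_mem hs)⟩
          rw [mul_assoc, mul_assoc]
          exact mul_mem ht (by simpa [mul_assoc] using hTn s (hSD hs) t⁻¹ (inv_mem ht))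
        rw [disjoint_iff.1 h, Subgroup.mem_bot, mul_inv_eq_one, mul_inv_eq_iff_eq_mul] at h1
        exact h1
      obtain ⟨s, hs⟩ := exists_ne (1 : S)
      have ht : MulAut.conj g s.1 ∈ T := ⟨s.1, s.2, rfl⟩
      have := hzD _ (hTle ht).1 (hcent _ (hTle ht).2 (hcomm _ ht))
      exact hs (Subtype.ext ((MulAut.conj g).injective (this.trans (map_one _).symm)))
    · rw [Subgroup.subgroupOf_eq_top] at h
      have he : S = T := Subgroup.eq_of_le_of_card_ge h (le_of_eq
        (Nat.card_congr (Subgroup.equivMapOfInjective S _ (MulAut.conj g).injective).toEquiv).symm)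
      intro s hs
      rw [he]
      exact ⟨s, hs, rfl⟩
  refine core_iff_of_invariant hconj hinn hord S hSle (fun g hg => hinv g hg.2) ?_
    (fun g hg => hcent g hg.2)
  intro M hM hne hdvd
  rw [(hM.eq_bot_or_eq_top).resolve_left hne, Subgroup.card_top]
  obtain ⟨g, hg⟩ := exists_prime_orderOf_dvd_card' p hdvd
  rcases eq_or_ne p 2 with rfl | h2
  · exact hS2
  have h4 : (4 : ℕ).Coprime (orderOf g) := by
    rw [hg, Nat.coprime_comm, hp.coprime_iff_not_dvd]
    intro hd
    exact h2 ((Nat.prime_dvd_prime_iff_eq hp Nat.prime_two).1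
      (hp.dvd_of_dvd_pow (show p ∣ 2 ^ 2 from hd)))
  obtain ⟨j, hj⟩ := exists_pow_eq_self_of_coprime h4
  have hgmem : (g : MulAut K) ∈ S := by
    rw [← hj]
    exact pow_mem (hpow _ g.2) j
  rw [← hg, ← orderOf_submonoid g]
  exact (Subgroup.orderOf_mk (H := S) _ hgmem) ▸ orderOf_dvd_natCard (⟨_, hgmem⟩ : S)

end Cfsg.Agent.H4.LocalBalance
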