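import Cfsg.Agent.H4.LocalBalance.GraphNonsquare
import Cfsg.Agent.H4.Coset.EvenGen
import Mathlib.Algebra.QuadraticAlgebra.NormDeterminant
import Mathlib.RingTheory.Norm.Transitivity

/-!
An element of prime order induced by an improper similarity is an involution, and the largest normal
subgroup of odd order of its centraliser is trivial.
-/

set_option autoImplicit false

namespace Cfsg.Agent.H4.LocalBalance

open QuadraticMap hiding sq
open Module
open Cfsg.Agent.H5 (orth orth_map orth_ext orth_mul_apply dick spin)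

variable {F : Type*} [Field F] [Finite F] {ι : Type} [Fintype ι] [DecidableEq ι]

theorem pPrimeCore_eq_bot {G : Type*} [Group G] (p : ℕ)
    (h : ∀ N : Subgroup G, N.Normal → (Nat.card N).Coprime p → N = ⊥) : Cfsg.pPrimeCore p G = ⊥ :=
  sSup_eq_bot.2 fun N hN => h N hN.1 hN.2

omit [Finite F] in
/-- The determinant of a square root of a non-square scalar. -/
theorem det_of_sq_nonsquare {n : ℕ} (hr : finrank F (ι → F) = 2 * n) {lam : F} (hlam : ¬ IsSquare lam)
    (G : (ι → F) ≃ₗ[F] (ι → F)) (hGG : ∀ v, G (G v) = lam • v) :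
    LinearMap.det (G : (ι → F) →ₗ[F] (ι → F)) = (-lam) ^ n := by
  haveI : Fact (∀ t : F, t ^ 2 ≠ lam + 0 * t) := ⟨fun t ht => hlam ⟨t, by
    rw [zero_mul, add_zero] at ht; rw [← ht, sq]⟩⟩
  let θ : QuadraticAlgebra F lam 0 →ₐ[F] Module.End F (ι → F) :=
    QuadraticAlgebra.lift ⟨(G : (ι → F) →ₗ[F] (ι → F)), LinearMap.ext fun v => by
      simpa [Module.End.mul_apply] using hGG v⟩
  letI : Module (QuadraticAlgebra F lam 0) (ι → F) := Module.compHom _ θ.toRingHom
  have hsm : ∀ (z : QuadraticAlgebra F lam 0) (v : ι → F), z • v = z.re • v + z.im • G v := fun z v => by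
    change θ z v = _
    simp [θ]
  haveI : IsScalarTower F (QuadraticAlgebra F lam 0) (ι → F) := ⟨fun t z v => by
    rw [hsm, hsm, smul_add, smul_smul, smul_smul]; simp⟩
  haveI : Module.Finite (QuadraticAlgebra F lam 0) (ι → F) :=
    Module.Finite.of_restrictScalars_finite F _ _
  have hrk : finrank (QuadraticAlgebra F lam 0) (ι → F) = n := by
    have h1 := Module.finrank_mul_finrank F (QuadraticAlgebra F lam 0) (ι → F)
    rw [QuadraticAlgebra.finrank_eq_two, hr] at h1
    omega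
  set w : QuadraticAlgebra F lam 0 := ⟨0, 1⟩
  have hG : (G : (ι → F) →ₗ[F] (ι → F)) =
      (w • (LinearMap.id : (ι → F) →ₗ[QuadraticAlgebra F lam 0] (ι → F))).restrictScalars F :=
    LinearMap.ext fun v => by simp [hsm, w]
  rw [hG, LinearMap.det_restrictScalars, LinearMap.det_smul, LinearMap.det_id, mul_one, hrk, map_pow,
    Algebra.norm_apply]
  congr 1
  have h1 := QuadraticAlgebra.det_toLinearMap_eq_norm w
  rw [show Algebra.lmul F (QuadraticAlgebra F lam 0) w =
    DistribSMul.toLinearMap F (QuadraticAlgebra F lam 0) w from LinearMap.ext fun z => rfl, h1]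
  simp [w, QuadraticAlgebra.norm_def]

omit [Finite F] in
/-- The determinant of an involution negating the form. -/
theorem det_of_anti_involution {Q : QuadraticForm F (ι → F)} (hQ : (polarBilin Q).Nondegenerate) {n : ℕ}
    (hr : finrank F (ι → F) = 2 * n) (h2 : (2 : F) ≠ 0) (h : (ι → F) ≃ₗ[F] (ι → F))
    (hh : ∀ v, h (h v) = v) (hQh : ∀ v, Q (h v) = -Q v) :
    LinearMap.det (h : (ι → F) →ₗ[F] (ι → F)) = (-1) ^ n := by
  set P := LinearMap.eqLocus (h : (ι → F) →ₗ[F] (ι → F)) LinearMap.id with hP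
  set M := LinearMap.eqLocus (h : (ι → F) →ₗ[F] (ι → F)) (-LinearMap.id) with hM
  have hPm : ∀ v, v ∈ P ↔ h v = v := fun v => Iff.rfl
  have hMm : ∀ v, v ∈ M ↔ h v = -v := fun v => Iff.rfl
  have hc : IsCompl P M := by
    refine ⟨disjoint_iff.2 ((Submodule.eq_bot_iff _).2 ?_), codisjoint_iff.2 (eq_top_iff.2 ?_)⟩
    · rintro v ⟨h1, h3⟩
      have : (2 : F) • v = 0 := by
        rw [two_smul, add_eq_zero_iff_eq_neg, ← (hMm v).1 h3, (hPm v).1 h1]
      exact (smul_eq_zero.1 this).resolve_left h2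
    · intro v _
      rw [show v = (2 : F)⁻¹ • (v + h v) + (2 : F)⁻¹ • (v - h v) by
        rw [← smul_add, add_add_sub_cancel, ← two_smul F, smul_smul, inv_mul_cancel₀ h2, one_smul]]
      refine add_mem (Submodule.mem_sup_left (Submodule.smul_mem _ _ ((hPm _).2 ?_)))
        (Submodule.mem_sup_right (Submodule.smul_mem _ _ ((hMm _).2 ?_)))
      · rw [map_add, hh, add_comm]
      · rw [map_sub, hh, neg_sub]
  have hsing : ∀ v, Q (h v) = Q v → Q v = 0 := fun v hv => by
    rw [hQh, neg_eq_iff_add_eq_zero, ← two_mul] at hv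
    exact (mul_eq_zero.1 hv).resolve_left h2
  have hPs : ∀ v ∈ P, Q v = 0 := fun v hv => hsing v (by rw [(hPm v).1 hv])
  have hMs : ∀ v ∈ M, Q v = 0 := fun v hv => hsing v (by rw [(hMm v).1 hv, QuadraticMap.map_neg])
  have hP2 := two_mul_finrank_le hQ hPs
  have hM2 := two_mul_finrank_le hQ hMs
  have hsum := Submodule.finrank_add_eq_of_isCompl hc
  have hMn : finrank F M = n := by omega
  have hconj : (h : (ι → F) →ₗ[F] (ι → F)) =
      (Submodule.prodEquivOfIsCompl P M hc : (P × M) →ₗ[F] (ι → F)) ∘ₗ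
        (LinearMap.prodMap LinearMap.id ((-1 : F) • LinearMap.id)) ∘ₗ
          ((Submodule.prodEquivOfIsCompl P M hc).symm : (ι → F) →ₗ[F] (P × M)) := by
    refine LinearMap.ext fun v => ?_
    obtain ⟨⟨a, b⟩, rfl⟩ := (Submodule.prodEquivOfIsCompl P M hc).surjective v
    simp [Submodule.coe_prodEquivOfIsCompl', (hPm _).1 a.2, (hMm _).1 b.2]
  rw [hconj, LinearMap.det_conj, LinearMap.det_prodMap, LinearMap.det_id, LinearMap.det_smul,
    LinearMap.det_id, one_mul, mul_one, hMn]

variable {Q : QuadraticForm F (ι → F)} {f : (ι → F) → F} {n : ℕ}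

/-- The order of an element induced by an improper similarity. -/
theorem eq_two_of_improper [Nontrivial (ι → F)] (hf : ⇑Q = f) (hh : FormHyp Q) (hE : EvenForm Q n)
    (g : linSim Q) (hg : ¬ IsProper n g) {p : ℕ} (hp : p.Prime)
    (hord : orderOf (indHom Q hf g.1) = p) : p = 2 := by
  haveI : Finite (ι → F) := Pi.finite
  by_contra hne
  obtain ⟨j, hj⟩ := hp.odd_of_ne_two hne
  obtain ⟨lam, hlam⟩ := (indHom_eq_one_iff Q hf hh (g.1 ^ p)).1 (by
    rw [map_pow, ← hord, pow_orderOf_eq_one])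
  have h1 : g.1 ^ p ∈ properSim hE := smul_mem_properSim hE (g := 1) (d := lam) (one_mem _) fun v => by
    simpa using hlam v
  have h3 : (g.1 ^ 2) ^ j ∈ properSim hE := pow_mem (by
    rw [sq]
    exact (mem_properSim hE (g := g * g)).2 ((isProper_mul_iff hE g g).2 Iff.rfl)) j
  rw [hj, pow_succ, pow_mul, Subgroup.mul_mem_cancel_left _ h3] at h1
  exact hg ((mem_properSim hE).1 h1)

/-- The centraliser of a graph involution. -/
theorem graph_core_eq_bot [Nontrivial (ι → F)] {r : ℕ} [Fact r.Prime] [CharP F r] (hf : ⇑Q = f)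
    (hh : FormHyp Q) (hE : EvenForm Q n) (hn : 4 ≤ n) {A : Subgroup (MulAut (Cfsg.POmega F f))}
    (hinn : ∀ y : Cfsg.POmega F f, MulAut.conj y ∈ A) {p : ℕ} [Fact p.Prime] (hpr : p ≠ r)
    (g : linSim Q) (hg : ¬ IsProper n g) {x : MulAut (Cfsg.POmega F f)}
    (hx : x = indHom Q hf g.1) (hord : orderOf x = p)
    (hlift : ∀ d ∈ Subgroup.centralizer {x}, ∃ g₀, d = indHom Q hf g₀) :
    Cfsg.pPrimeCore p ↥(A ⊓ Subgroup.centralizer {x}) = ⊥ := by
  haveI : Finite (ι → F) := Pi.finite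
  obtain rfl := eq_two_of_improper hf hh hE g hg Fact.out (hx ▸ hord)
  have h2 : (2 : F) ≠ 0 := fun h => hpr
    (((Nat.prime_dvd_prime_iff_eq (Fact.out : r.Prime) Nat.prime_two).1
      ((CharP.cast_eq_zero_iff F r 2).1 (by exact_mod_cast h))).symm)
  refine pPrimeCore_eq_bot 2 fun N hNn hNc => ?_
  haveI := hNn
  have hN : Odd (Nat.card N) := Nat.coprime_two_right.1 hNc
  set G := linSimEquiv g with hG
  obtain ⟨lam, hlam⟩ := (indHom_eq_one_iff Q hf hh (g.1 * g.1)).1 (by
    rw [map_mul, ← hx, ← sq, ← hord, pow_orderOf_eq_one])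
  have hGG : ∀ v, G (G v) = lam • v := hlam
  set c := simMult g.1
  have hc : ∀ v, Q (G v) = c * Q v := linSim_app Q g
  have hc0 : c ≠ 0 := (isSemiSim g.1).ne_zero
  have hlc : lam ^ 2 = c ^ 2 := by
    obtain ⟨v, hv⟩ := hE.exists_ne
    have h1 := congrArg Q (hGG v)
    rw [hc, hc, qf_smul, ← mul_assoc, ← sq] at h1
    exact (mul_right_cancel₀ hv h1).symm
  have hlam0 : lam ≠ 0 := fun h => hc0 (by
    rw [h, zero_pow two_ne_zero] at hlc; exact pow_eq_zero_iff two_ne_zero |>.1 hlc.symm)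
  by_cases hsq : IsSquare lam
  · obtain ⟨μ, hμ⟩ := hsq
    have hμ0 : μ ≠ 0 := fun h => hlam0 (by rw [hμ, h, mul_zero])
    set h₀ := G.trans (LinearEquiv.smulOfUnit (Units.mk0 μ hμ0)⁻¹) with hh₀
    have hh₀v : ∀ v, h₀ v = μ⁻¹ • G v := fun v => rfl
    have hh₀i : ∀ v, h₀ (h₀ v) = v := fun v => by
      rw [hh₀v, hh₀v, map_smul, hGG, smul_smul, smul_smul, hμ]
      field_simp
      exact one_smul F v
    have hgv : ∀ v, (g.1 : Equiv.Perm (ι → F)) v = μ • h₀ v := fun v => by
      rw [hh₀v, smul_smul, mul_inv_cancel₀ hμ0, one_smul, hG, linSimEquiv_apply]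
    rcases sq_eq_sq_iff_eq_or_eq_neg.1 hlc.symm with hcl | hcl
    · let k : orth Q := ⟨h₀, fun v => by
        rw [hh₀v, qf_smul, hc, hcl, hμ]; field_simp⟩
      refine odd_normal_eq_bot_isometry hf hh hE hn h2 hinn (k := k) (orth_ext fun v => ?_) ?_
        (hx.trans (indHom_eq_of_smul Q hf hh (d := μ) fun v => by
          rw [orthToSim_apply]; exact hgv v)) N hN hlift
      · rw [orth_mul_apply]; exact hh₀i v
      · refine (Int.units_eq_one_or _).resolve_left fun hd => hg ?_
        exact (isProper_smul_iff hE g k hgv).2 hd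
    · exfalso
      refine hg ⟨fun _ => ?_, fun h => absurd h h2⟩
      have hdet := det_of_anti_involution hE.nondeg hE.rank h2 h₀ hh₀i fun v => by
        rw [hh₀v, qf_smul, hc, hcl, hμ]; field_simp
      rw [det_of_smul (linSimEquiv g) (h₀ : (ι → F) →ₗ[F] (ι → F)) (c := μ) fun v => by
          rw [linSimEquiv_apply]; exact hgv v, hdet, hE.rank, pow_mul, ← mul_pow]
      change _ = c ^ n
      rw [hcl, hμ]
      ring
  · have hdet := det_of_sq_nonsquare hE.rank hsq G hGG
    rcases sq_eq_sq_iff_eq_or_eq_neg.1 hlc.symm with hcl | hcl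
    · have hodd : Odd n := by
        by_contra hev
        refine hg ⟨fun _ => ?_, fun h => absurd h h2⟩
        rw [hdet, (Nat.not_odd_iff_even.1 hev).neg_pow]
        exact congrArg (· ^ n) hcl.symm
      have hn5 : 5 ≤ n := by obtain ⟨j, hj⟩ := hodd; omega
      refine odd_normal_eq_bot_nonsquare hf hh hE hn5 hodd h2 hinn g hsq hlam (fun v => ?_) hx N hN
        hlift
      rw [← linSimEquiv_apply, ← hG, hc, hcl]
    · exfalso
      refine hg ⟨fun _ => ?_, fun h => absurd h h2⟩
      rw [hdet]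
      exact congrArg (· ^ n) hcl.symm

end Cfsg.Agent.H4.LocalBalance
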