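import Cfsg.Agent.H4.LocalBalance.GraphSquare
import Mathlib.Algebra.QuadraticAlgebra.Basic
import Mathlib.RingTheory.Finiteness.Basic
import Mathlib.LinearAlgebra.Dimension.Constructions

/-!
A graph involution with non-square multiplier: a quadratic form over the quadratic extension, and no
normal subgroup of odd order in the centraliser.
-/

set_option autoImplicit false

namespace Cfsg.Agent.H4.LocalBalance

open QuadraticMap hiding sq
open Module
open Cfsg.Agent.H5 (orth orth_map orth_ext orth_mul_apply eich dick spin)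

variable {F : Type*} [Field F] [Finite F] {ι : Type} [Fintype ι] [DecidableEq ι]
  {Q : QuadraticForm F (ι → F)} {f : (ι → F) → F} {n : ℕ}

set_option maxHeartbeats 1000000 in
/-- The case of a non-square multiplier. -/
theorem odd_normal_eq_bot_nonsquare (hf : ⇑Q = f) (hh : FormHyp Q) (hE : EvenForm Q n) (hn : 5 ≤ n)
    (hodd : Odd n) (h2 : (2 : F) ≠ 0) {A : Subgroup (MulAut (Cfsg.POmega F f))}
    (hinn : ∀ y : Cfsg.POmega F f, MulAut.conj y ∈ A) (g : linSim Q) {lam : F}
    (hlam : ¬ IsSquare lam)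
    (hgg : ∀ v, (g.1 : Equiv.Perm (ι → F)) ((g.1 : Equiv.Perm (ι → F)) v) = lam • v)
    (hQg : ∀ v, Q ((g.1 : Equiv.Perm (ι → F)) v) = lam * Q v) {x : MulAut (Cfsg.POmega F f)}
    (hx : x = indHom Q hf g.1) (N : Subgroup ↥(A ⊓ Subgroup.centralizer {x})) [N.Normal]
    (hN : Odd (Nat.card N))
    (hlift : ∀ d ∈ Subgroup.centralizer {x}, ∃ g₀, d = indHom Q hf g₀) : N = ⊥ := by
  classical
  haveI : Finite (ι → F) := Pi.finite
  haveI := hE.nontrivial
  have hl0 : lam ≠ 0 := fun h => hlam (h ▸ IsSquare.zero)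
  set G := linSimEquiv g with hG
  have hGG : ∀ v, G (G v) = lam • v := hgg
  have hBg : ∀ u v, polar Q (G u) (G v) = lam * polar Q u v := fun u v => by
    simp only [polar, ← map_add G]
    simp only [hG, linSimEquiv_apply, hQg, mul_sub]
  have hsa : ∀ u v, polar Q (G u) v = polar Q u (G v) := fun u v => by
    have h1 := hBg u (G v)
    rw [hGG, polar_smul_right, smul_eq_mul] at h1
    exact mul_left_cancel₀ hl0 h1
  -- the quadratic extension and its action
  haveI : Fact (∀ t : F, t ^ 2 ≠ lam + 0 * t) := ⟨fun t ht => hlam ⟨t, by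
    rw [zero_mul, add_zero] at ht; rw [← ht, sq]⟩⟩
  haveI : Finite (QuadraticAlgebra F lam 0) :=
    Finite.of_injective (fun z : QuadraticAlgebra F lam 0 => (z.re, z.im))
      fun a b h => QuadraticAlgebra.ext (congrArg Prod.fst h) (congrArg Prod.snd h)
  let θ : QuadraticAlgebra F lam 0 →ₐ[F] Module.End F (ι → F) :=
    QuadraticAlgebra.lift ⟨(G : (ι → F) →ₗ[F] (ι → F)), LinearMap.ext fun v => by
      simpa [Module.End.mul_apply] using hGG v⟩
  letI : Module (QuadraticAlgebra F lam 0) (ι → F) := Module.compHom _ θ.toRingHom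
  have hsm : ∀ (z : QuadraticAlgebra F lam 0) (v : ι → F), z • v = z.re • v + z.im • G v := fun z v => by
    change θ z v = _
    simp [θ]
  haveI : IsScalarTower F (QuadraticAlgebra F lam 0) (ι → F) := ⟨fun t z v => by
    rw [hsm, hsm, smul_add, smul_smul, smul_smul]; simp⟩
  haveI : Module.Finite (QuadraticAlgebra F lam 0) (ι → F) :=
    Module.Finite.of_restrictScalars_finite F _ _
  -- the form over the extension
  let b : (ι → F) → (ι → F) → QuadraticAlgebra F lam 0 := fun u v =>
    ⟨polar Q u v / 2, polar Q (G u) v / (2 * lam)⟩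
  have hb1 : ∀ u₁ u₂ v, b (u₁ + u₂) v = b u₁ v + b u₂ v := fun u₁ u₂ v => by
    refine QuadraticAlgebra.ext ?_ ?_
    · simp [b, polar_add_left, add_div]
    · simp [b, map_add, polar_add_left, add_div]
  have hb2 : ∀ (z : QuadraticAlgebra F lam 0) u v, b (z • u) v = z * b u v := fun z u v => by
    refine QuadraticAlgebra.ext ?_ ?_
    · simp only [b, hsm, polar_add_left, polar_smul_left, smul_eq_mul, QuadraticAlgebra.re_mul]
      field_simp
    · simp only [b, hsm, map_add, map_smul, hGG, polar_add_left, polar_smul_left, smul_eq_mul,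
        QuadraticAlgebra.im_mul]
      field_simp
      ring
  have hbs : ∀ u v, b u v = b v u := fun u v => by
    refine QuadraticAlgebra.ext ?_ ?_
    · simp only [b]; rw [polar_comm]
    · simp only [b]; rw [hsa, polar_comm]
  let bil : LinearMap.BilinMap (QuadraticAlgebra F lam 0) (ι → F) (QuadraticAlgebra F lam 0) :=
    LinearMap.mk₂ _ b hb1 hb2 (fun u v₁ v₂ => by rw [hbs, hb1, hbs v₁, hbs v₂])
      (fun z u v => by rw [hbs, hb2, hbs v]; rfl)
  let QL : QuadraticForm (QuadraticAlgebra F lam 0) (ι → F) := bil.toQuadraticMap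
  have hQL : ∀ v, QL v = b v v := fun v => rfl
  have hre : ∀ v, (QL v).re = Q v := fun v => by
    rw [hQL]; simp only [b, H5.polar_self']; field_simp
  have hpol : ∀ u v, polar QL u v = b u v + b v u := fun u v => by
    exact LinearMap.BilinMap.polar_toQuadraticMap u v
  have hpre : ∀ u v, (polar QL u v).re = polar Q u v := fun u v => by
    rw [hpol, ← hbs u v, QuadraticAlgebra.re_add]; simp only [b]; field_simp; ring
  have hnd : (polarBilin QL).Nondegenerate := by
    have h1 : ∀ u, (∀ v, polar QL u v = 0) → u = 0 := fun u hu =>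
      eq_zero_of_polar hE.nondeg fun v => by
        rw [← hpre, hu]; rfl
    exact ⟨h1, fun u hu => h1 u fun v => by rw [polar_comm]; exact hu v⟩
  have hrk : finrank (QuadraticAlgebra F lam 0) (ι → F) = n := by
    have h1 := Module.finrank_mul_finrank F (QuadraticAlgebra F lam 0) (ι → F)
    rw [QuadraticAlgebra.finrank_eq_two, hE.rank] at h1
    omega
  have h2L : (2 : QuadraticAlgebra F lam 0) ≠ 0 := fun h => h2 (by
    have h1 : algebraMap F (QuadraticAlgebra F lam 0) 2 = 0 := by rw [map_ofNat]; exact h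
    exact (map_eq_zero_iff _ (algebraMap F (QuadraticAlgebra F lam 0)).injective).1 h1)
  -- isometries over the extension
  let E : orth QL →* orth Q :=
    { toFun := fun k => ⟨(k : (ι → F) ≃ₗ[QuadraticAlgebra F lam 0] (ι → F)).restrictScalars F,
        fun v => by rw [← hre v, ← hre]; exact congrArg QuadraticAlgebra.re (orth_map k v)⟩
      map_one' := orth_ext fun v => rfl
      map_mul' := fun k l => orth_ext fun v => rfl }
  have hEap : ∀ (k : orth QL) v, (E k : (ι → F) ≃ₗ[F] (ι → F)) v =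
      (k : (ι → F) ≃ₗ[QuadraticAlgebra F lam 0] (ι → F)) v := fun k v => rfl
  have hGsm : ∀ v, G v = (⟨0, 1⟩ : QuadraticAlgebra F lam 0) • v := fun v => by
    rw [hsm]; simp
  have hEG : ∀ (k : orth QL) v, (E k : (ι → F) ≃ₗ[F] (ι → F)) (G v) =
      G ((E k : (ι → F) ≃ₗ[F] (ι → F)) v) := fun k v => by
    rw [hEap, hEap, hGsm, hGsm, map_smul]
  have hEsurj : ∀ k : orth Q, (∀ v, (k : (ι → F) ≃ₗ[F] (ι → F)) (G v) =
      G ((k : (ι → F) ≃ₗ[F] (ι → F)) v)) → k ∈ E.range := fun k hk => by
    let kl : (ι → F) ≃ₗ[QuadraticAlgebra F lam 0] (ι → F) :=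
      { (k : (ι → F) ≃ₗ[F] (ι → F)).toAddEquiv with
        map_smul' := fun z v => by
          change (k : (ι → F) ≃ₗ[F] (ι → F)) (z • v) = z • (k : (ι → F) ≃ₗ[F] (ι → F)) v
          rw [hsm, hsm, map_add, map_smul, map_smul, hk] }
    refine ⟨⟨kl, fun v => ?_⟩, orth_ext fun v => rfl⟩
    change b ((k : (ι → F) ≃ₗ[F] (ι → F)) v) ((k : (ι → F) ≃ₗ[F] (ι → F)) v) = b v v
    refine QuadraticAlgebra.ext ?_ ?_
    · simp only [b]; rw [H5.orth_polar]
    · simp only [b]; rw [← hk, H5.orth_polar]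
  have hEinj : Function.Injective E := fun k l h => orth_ext fun v => by rw [← hEap, h, hEap]
  have hinnA : Cfsg.Inn (Cfsg.POmega F f) ≤ A := by rintro _ ⟨y, rfl⟩; exact hinn y
  let φ : commutator (orth QL) →* semiSimGroup Q :=
    (orthToSim Q).comp (E.comp (commutator (orth QL)).subtype)
  have hφl : ∀ l, φ l ∈ linSim Q := fun l => orthToSim_mem _ _
  let ψ : commutator (orth QL) →* MulAut (Cfsg.POmega F f) := (indHom Q hf).comp φ
  have hψinj : Function.Injective ψ := by
    rw [injective_iff_map_eq_one]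
    intro l hl
    obtain ⟨c, hc⟩ := (indHom_eq_one_iff Q hf hh _).1 hl
    refine Subtype.ext (eq_one_of_scalar_commutator h2L hnd (by rw [hrk]; exact hodd) l.2
      ⟨algebraMap F _ c, fun v => ?_⟩)
    rw [algebraMap_smul]
    exact hc v
  have hΩ : (commutator (orth QL)).map E = ⁅E.range, E.range⁆ := by
    rw [commutator_def (orth QL), Subgroup.map_commutator, ← MonoidHom.range_eq_map]
  have hψle : ψ.range ≤ A ⊓ Subgroup.centralizer {x} := by
    rintro _ ⟨l, rfl⟩
    refine ⟨hinnA ((indHom_mem_inn_iff Q hf hh _).2 ⟨1, E (l : orth QL), ?_, fun v =>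
      (one_smul F _).symm⟩), Subgroup.mem_centralizer_iff.2 fun z hz => ?_⟩
    · exact Subgroup.commutator_mono le_top le_top
        (le_of_eq (Subgroup.map_commutator ⊤ ⊤ E) (Subgroup.mem_map_of_mem _ l.2))
    · rw [Set.mem_singleton_iff.1 hz, hx]
      simp only [ψ, φ, MonoidHom.comp_apply, ← map_mul]
      congr 1
      refine Subtype.ext (Equiv.ext fun v => ?_)
      simp only [Subgroup.coe_mul, Equiv.Perm.mul_apply, orthToSim_apply]
      exact (hEG l v).symm
  rw [Subgroup.eq_bot_iff_forall]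
  intro y hy
  obtain ⟨g₁, hg₁⟩ := hlift y.1 y.2.2
  set G₁ := simEquiv g₁ with hG₁
  obtain ⟨d, hd⟩ : ∃ d : F, ∀ v, G (G₁ v) = d • G₁ (G v) := by
    have h1 : x * y.1 = y.1 * x := Subgroup.mem_centralizer_iff.1 y.2.2 x rfl
    simp only [hg₁] at h1
    rw [hx, ← map_mul, ← map_mul] at h1
    obtain ⟨d, hd'⟩ := exists_smul_of_indHom_eq Q hf hh h1
    exact ⟨d, fun v => by simpa [hG, hG₁, linSimEquiv_apply, simEquiv_apply] using hd' v⟩
  -- the conjugate of an element of the image is in the image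
  have hconjE : E.range.map (simConj (isSemiSim g₁)).toMonoidHom ≤ E.range := by
    rintro _ ⟨_, ⟨k, rfl⟩, rfl⟩
    refine hEsurj _ fun v => ?_
    obtain ⟨u, rfl⟩ := G₁.surjective v
    rw [MulEquiv.coe_toMonoidHom, hd, map_smul, simConj_apply, simConj_apply, hEG, ← hd]
  have hnorm : ∀ l, y.1 * ψ l * y.1⁻¹ ∈ ψ.range := fun l => by
    have hmem : simConj (isSemiSim g₁) (E (l : orth QL)) ∈ (commutator (orth QL)).map E := by
      have h1 := Subgroup.mem_map_of_mem (simConj (isSemiSim g₁)).toMonoidHom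
        (hΩ.le (Subgroup.mem_map_of_mem E l.2))
      rw [Subgroup.map_commutator] at h1
      exact hΩ.ge (Subgroup.commutator_mono hconjE hconjE h1)
    obtain ⟨l', hl', hl'e⟩ := hmem
    refine ⟨⟨l', hl'⟩, ?_⟩
    rw [hg₁, eq_mul_inv_iff_mul_eq]
    simp only [ψ, φ, MonoidHom.comp_apply, ← map_mul]
    congr 1
    refine Subtype.ext (Equiv.ext fun v => ?_)
    simp only [Subgroup.coe_mul, Equiv.Perm.mul_apply, orthToSim_apply, Subgroup.coe_subtype,
      ← simEquiv_apply g₁]
    rw [hl'e, simConj_apply]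
  have hyψ := commute_of_odd_normal N hN ψ hψinj hψle
    (fun M hM hMo => by
      haveI := hM
      exact eq_bot_of_odd_normal_commutator h2L hnd (by rw [hrk]; omega) (by rw [hrk]; exact hodd) M hMo)
    hy hnorm
  have hgφ := commute_of_perfect (commutator_omega_eq_top hnd (by rw [hrk]; omega)) φ hφl g₁ fun l => by
    have h1 := hyψ l
    rw [hg₁] at h1
    simp only [ψ, MonoidHom.comp_apply, ← map_mul] at h1
    obtain ⟨d, hd'⟩ := exists_smul_of_indHom_eq Q hf hh h1
    exact ⟨d, fun v => by simpa using hd' v⟩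
  obtain ⟨z, hz⟩ := exists_smul_of_commute_eich hnd (by rw [hrk]; omega) G₁ fun a c ha hc hac v => by
    exact hgφ ⟨eich QL a c, H5.eich_mem_commutator hnd (by rw [hrk]; omega) a c⟩ v
  have hG₁' : ∀ v, G₁ v = z.re • v + z.im • G v := fun v => by rw [hz, hsm]
  have hy1 : ∀ {β : MulAut (Cfsg.POmega F f)}, β * β = 1 → y.1 = β → y = 1 := fun hβ hyb =>
    eq_one_of_mul_self hN hy (Subtype.ext (by rw [Subgroup.coe_mul, hyb]; exact hβ))
  by_cases him : z.im = 0
  · refine hy1 (β := 1) (one_mul 1) ?_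
    rw [hg₁, indHom_eq_one_iff Q hf hh]
    exact ⟨z.re, fun v => by rw [← simEquiv_apply, ← hG₁, hG₁', him, zero_smul, add_zero]⟩
  by_cases hre0 : z.re = 0
  · refine hy1 (β := x) ?_ ?_
    · rw [hx, ← map_mul, indHom_eq_one_iff Q hf hh]
      exact ⟨lam, fun v => hgg v⟩
    · rw [hg₁, hx]
      exact indHom_eq_of_smul Q hf hh fun v => by
        rw [← simEquiv_apply, ← hG₁, hG₁', hre0, zero_smul, zero_add, hG, linSimEquiv_apply]
  exfalso
  have hσ : simSigma g₁ = RingEquiv.refl F := simSigma_eq fun t v => by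
    rw [← simEquiv_apply, ← simEquiv_apply, ← hG₁, hG₁', hG₁', map_smul, RingEquiv.refl_apply,
      smul_add, smul_comm, smul_comm t z.im]
  set c := simMult g₁
  set κ := (c - z.re ^ 2 - lam * z.im ^ 2) / (2 * z.re * z.im) with hκ
  have hall : ∀ u, G u = κ • u := fun u => by
    rw [← sub_eq_zero]
    refine eq_zero_of_polar hE.nondeg fun v => ?_
    have h1 := (isSemiSim g₁).polar_map u v
    rw [hσ, RingEquiv.refl_apply, ← hG₁, hG₁', hG₁'] at h1
    simp only [polar_add_left, polar_add_right, polar_smul_left, polar_smul_right, smul_eq_mul] at h1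
    rw [hBg, ← hsa] at h1
    rw [polar_sub_left, polar_smul_left, smul_eq_mul, hκ]
    field_simp
    linear_combination h1
  obtain ⟨w, hw⟩ := exists_ne (0 : ι → F)
  have h1 := hGG w
  rw [hall, hall, smul_smul] at h1
  exact hlam ⟨κ, (smul_left_injective F hw h1).symm⟩

end Cfsg.Agent.H4.LocalBalance
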