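import Cfsg.Agent.H4.LocalBalance.OddNormal
import Cfsg.Agent.H4.Coset.Proper

/-!
A graph involution with square multiplier: the centraliser has no normal subgroup of odd order.
-/

set_option autoImplicit false

namespace Cfsg.Agent.H4.LocalBalance

open QuadraticMap hiding sq
open Module
open Cfsg.Agent.H5 (orth orth_map orth_ext orth_mul_apply refl eich dick spin sqc)

/-- A normal subgroup of odd order of `C` centralises a subgroup without odd normal subgroups. -/
theorem commute_of_odd_normal {G P : Type*} [Group G] [Group P] {C : Subgroup G} (N : Subgroup C)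
    [N.Normal] (hN : Odd (Nat.card N)) (ψ : P →* G) (hinj : Function.Injective ψ)
    (hle : ψ.range ≤ C) (hP : ∀ M : Subgroup P, M.Normal → Odd (Nat.card M) → M = ⊥) {x : C}
    (hx : x ∈ N) (hnorm : ∀ k, (x : G) * ψ k * (x : G)⁻¹ ∈ ψ.range) (k : P) :
    (x : G) * ψ k = ψ k * x := by
  let ψC : P →* C := ψ.codRestrict C fun k => hle ⟨k, rfl⟩
  set M := N.comap ψC
  have hM : M = ⊥ := hP M (‹N.Normal›.comap _) (hN.of_dvd_nat (Subgroup.card_dvd_of_injective
    ((ψC.comp M.subtype).codRestrict N fun s => s.2) fun a b hab => Subtype.ext (hinj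
      (congrArg (fun s : N => (s.1 : G)) hab))))
  obtain ⟨l, hl⟩ := hnorm k
  have hmem : l * k⁻¹ ∈ M := by
    rw [Subgroup.mem_comap]
    have h1 := mul_mem hx (‹N.Normal›.conj_mem _ (inv_mem hx) (ψC k))
    convert h1 using 1
    refine Subtype.ext ?_
    simp [ψC, hl, mul_assoc]
  rw [hM, Subgroup.mem_bot, mul_inv_eq_one] at hmem
  rwa [hmem, eq_mul_inv_iff_mul_eq, eq_comm] at hl

/-- `Ω` is perfect as a group. -/
theorem commutator_omega_eq_top {F V : Type*} [Field F] [Finite F] [AddCommGroup V] [Module F V]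
    [Finite V] [FiniteDimensional F V] {Q : QuadraticForm F V} (hQ : (polarBilin Q).Nondegenerate)
    (hn : 5 ≤ finrank F V) : commutator (commutator (orth Q)) = ⊤ := by
  apply Subgroup.map_injective (commutator (orth Q)).subtype_injective
  rw [commutator_def (commutator (orth Q)), Subgroup.map_commutator, ← MonoidHom.range_eq_map,
    Subgroup.range_subtype, H5.commutator_perfect hQ hn]

/-- All pairs of invariants occur. -/
theorem exists_orth_signs {F V : Type*} [Field F] [Finite F] [AddCommGroup V] [Module F V] [Finite V]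
    [FiniteDimensional F V] {Q : QuadraticForm F V} (h2 : (2 : F) ≠ 0)
    (hQ : (polarBilin Q).Nondegenerate) (hn : 2 ≤ finrank F V) (d t : ℤˣ) :
    ∃ k : orth Q, dick k = d ∧ spin Q k = t := by
  obtain ⟨ν, hν⟩ := H5.exists_not_isSquare h2
  obtain ⟨a, ha⟩ := H5.exists_norm_eq h2 hQ hn 1
  obtain ⟨b, hb⟩ := H5.exists_norm_eq h2 hQ hn ν
  have ha0 : Q a ≠ 0 := by rw [ha]; exact one_ne_zero
  have hb0 : Q b ≠ 0 := by rw [hb]; exact fun h0 => hν (h0 ▸ IsSquare.zero)
  have hsa : spin Q (refl Q a) = 1 := by rw [H5.spin_refl ha0, ha, H5.sqc_one]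
  have hsb : spin Q (refl Q b) = -1 := by rw [H5.spin_refl hb0, hb, H5.sqc_eq_neg_one_iff.2 hν]
  rcases Int.units_eq_one_or d with rfl | rfl <;> rcases Int.units_eq_one_or t with rfl | rfl
  · exact ⟨1, H5.dick_one, map_one _⟩
  · refine ⟨refl Q a * refl Q b, ?_, by rw [map_mul, hsa, hsb, one_mul]⟩
    rw [H5.dick_refl_mul hQ ha0, H5.dick_refl hQ hb0]; decide
  · exact ⟨_, H5.dick_refl hQ ha0, hsa⟩
  · exact ⟨_, H5.dick_refl hQ hb0, hsb⟩

theorem extHom_apply_mem {F V : Type*} [Field F] [AddCommGroup V] [Module F V] [FiniteDimensional F V]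
    {Q : QuadraticForm F V} (hQ : (polarBilin Q).Nondegenerate) {W : Submodule F V}
    (hW : W ⊓ H5.perp Q W = ⊥) (k : orth (Q.restrict W)) {w : V} (hw : w ∈ W) :
    (extHom hQ hW k : V ≃ₗ[F] V) w = ((k : W ≃ₗ[F] W) ⟨w, hw⟩ : V) :=
  extHom_apply hQ hW k ⟨w, hw⟩

variable {F : Type*} [Field F] [Finite F] {ι : Type} [Fintype ι] [DecidableEq ι]
  {Q : QuadraticForm F (ι → F)} {f : (ι → F) → F} {n : ℕ}

/-- The fixed space of an isometry. -/
def fixSpace (k : orth Q) : Submodule F (ι → F) :=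
  LinearMap.eqLocus ((k : (ι → F) ≃ₗ[F] (ι → F)) : (ι → F) →ₗ[F] (ι → F)) LinearMap.id

theorem mem_fixSpace {k : orth Q} {v : ι → F} :
    v ∈ fixSpace k ↔ (k : (ι → F) ≃ₗ[F] (ι → F)) v = v := Iff.rfl

/-- The eigenspaces of an involution in odd characteristic. -/
theorem involution_spaces (h2 : (2 : F) ≠ 0) (hQ : (polarBilin Q).Nondegenerate) {k : orth Q}
    (hk : k * k = 1) :
    fixSpace k ⊓ H5.perp Q (fixSpace k) = ⊥ ∧
      ∀ v, v ∈ H5.perp Q (fixSpace k) ↔ (k : (ι → F) ≃ₗ[F] (ι → F)) v = -v := by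
  have hkk : ∀ v, (k : (ι → F) ≃ₗ[F] (ι → F)) ((k : (ι → F) ≃ₗ[F] (ι → F)) v) = v := fun v => by
    rw [← orth_mul_apply, hk]; rfl
  have hplus : ∀ v, v + (k : (ι → F) ≃ₗ[F] (ι → F)) v ∈ fixSpace k := fun v => by
    rw [mem_fixSpace, map_add, hkk, add_comm]
  have hbot : fixSpace k ⊓ H5.perp Q (fixSpace k) = ⊥ := by
    rw [Submodule.eq_bot_iff]
    rintro w ⟨hw, hw'⟩
    refine eq_zero_of_polar hQ fun v => ?_
    have h1 : polar Q w (v + (k : (ι → F) ≃ₗ[F] (ι → F)) v) = 0 := by
      rw [polar_comm]; exact H5.mem_perp.1 hw' _ (hplus v)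
    have h3 := H5.orth_polar k w v
    rw [mem_fixSpace.1 hw] at h3
    rw [polar_add_right, h3, ← two_mul] at h1
    exact (mul_eq_zero.1 h1).resolve_left h2
  refine ⟨hbot, fun v => ⟨fun hv => ?_, fun hv => H5.mem_perp.2 fun w hw => ?_⟩⟩
  · have hk' : (k : (ι → F) ≃ₗ[F] (ι → F)) v ∈ H5.perp Q (fixSpace k) := by
      refine H5.mem_perp.2 fun w hw => ?_
      rw [← mem_fixSpace.1 hw, H5.orth_polar]
      exact H5.mem_perp.1 hv w hw
    have h1 : v + (k : (ι → F) ≃ₗ[F] (ι → F)) v = 0 :=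
      (Submodule.eq_bot_iff _).1 hbot _ ⟨hplus v, add_mem hv hk'⟩
    exact (neg_eq_iff_add_eq_zero.2 h1).symm
  · have h3 := H5.orth_polar k w v
    rw [mem_fixSpace.1 hw, hv, polar_neg_right] at h3
    have : (2 : F) * polar Q w v = 0 := by linear_combination -h3
    exact (mul_eq_zero.1 this).resolve_left h2

/-- Commuting with an involution up to a scalar, and of odd order modulo scalars, is commuting. -/
theorem commute_involution (h2 : (2 : F) ≠ 0) [Nontrivial (ι → F)] {k : orth Q} (hk : k * k = 1)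
    (g : semiSimGroup Q) {N : ℕ} (hN : Odd N) {lam : F}
    (hgN : ∀ v, ((g ^ N : semiSimGroup Q) : Equiv.Perm (ι → F)) v = lam • v)
    (hg : ∃ d : F, ∀ v, (g : Equiv.Perm (ι → F)) ((k : (ι → F) ≃ₗ[F] (ι → F)) v) =
      d • (k : (ι → F) ≃ₗ[F] (ι → F)) ((g : Equiv.Perm (ι → F)) v)) (v : ι → F) :
    (g : Equiv.Perm (ι → F)) ((k : (ι → F) ≃ₗ[F] (ι → F)) v) =
      (k : (ι → F) ≃ₗ[F] (ι → F)) ((g : Equiv.Perm (ι → F)) v) := by
  obtain ⟨d, hd⟩ := hg
  obtain ⟨w, hw⟩ := exists_ne (0 : ι → F)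
  have hkk : ∀ v, (k : (ι → F) ≃ₗ[F] (ι → F)) ((k : (ι → F) ≃ₗ[F] (ι → F)) v) = v := fun v => by
    rw [← orth_mul_apply, hk]; rfl
  have hdd : d * d = 1 := by
    have h1 := hd ((k : (ι → F) ≃ₗ[F] (ι → F)) w)
    rw [hkk, hd w, map_smul, hkk, smul_smul] at h1
    exact smul_left_injective F (fun h0 => hw ((simEquiv g).injective
      ((simEquiv_apply g w).trans h0 |>.trans (map_zero _).symm))) (h1.symm.trans (one_smul F _).symm)
  rcases mul_self_eq_one_iff.1 hdd with rfl | rfl
  · rw [hd, one_smul]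
  exfalso
  have hit : ∀ (i : ℕ) v, ((g ^ i : semiSimGroup Q) : Equiv.Perm (ι → F))
      ((k : (ι → F) ≃ₗ[F] (ι → F)) v) =
        (-1 : F) ^ i • (k : (ι → F) ≃ₗ[F] (ι → F)) (((g ^ i : semiSimGroup Q) : Equiv.Perm (ι → F)) v) := by
    intro i
    induction i with
    | zero => intro v; simp
    | succ i ih =>
      intro v
      rw [pow_succ', Subgroup.coe_mul, Equiv.Perm.mul_apply, Equiv.Perm.mul_apply, ih,
        ← simEquiv_apply, (isSemiSim g).map_smul, simEquiv_apply, hd, smul_smul, map_pow, map_neg,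
        map_one, ← pow_succ]
  have h1 := hit N w
  rw [hgN, hgN, map_smul, hN.neg_one_pow, neg_one_smul] at h1
  have h3 : (2 : F) • lam • (k : (ι → F) ≃ₗ[F] (ι → F)) w = 0 := by
    rw [two_smul, add_eq_zero_iff_eq_neg]; exact h1
  have hlam : lam ≠ 0 := fun h0 => hw (by
    have := hgN w
    rw [h0, zero_smul, ← simEquiv_apply] at this
    exact (simEquiv (g ^ N)).injective (this.trans (map_zero _).symm))
  rw [smul_eq_zero, or_iff_right h2, smul_eq_zero, or_iff_right hlam] at h3
  exact hw ((k : (ι → F) ≃ₗ[F] (ι → F)).injective (h3.trans (map_zero _).symm))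

set_option maxHeartbeats 1000000 in
/-- The case of a fixed space of large dimension. -/
theorem odd_normal_eq_bot_square (hf : ⇑Q = f) (hh : FormHyp Q) (hE : EvenForm Q n) (hn : 4 ≤ n)
    (h2 : (2 : F) ≠ 0) {A : Subgroup (MulAut (Cfsg.POmega F f))}
    (hinn : ∀ y : Cfsg.POmega F f, MulAut.conj y ∈ A) {k : orth Q} (hk : k * k = 1)
    (hd : dick k = -1) (hbig : n ≤ finrank F (fixSpace k)) {x : MulAut (Cfsg.POmega F f)}
    (hx : x = indHom Q hf (orthToSim Q k))
    (N : Subgroup ↥(A ⊓ Subgroup.centralizer {x})) [N.Normal] (hN : Odd (Nat.card N))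
    (hlift : ∀ d ∈ Subgroup.centralizer {x}, ∃ g₀, d = indHom Q hf g₀) :
    N = ⊥ := by
  classical
  haveI : Finite (ι → F) := Pi.finite
  haveI := hE.nontrivial
  have hQ := hE.nondeg
  obtain ⟨hW, hperp⟩ := involution_spaces h2 hQ hk
  set W := fixSpace k with hWdef
  set W' := H5.perp Q W with hW'def
  have hW' : W' ⊓ H5.perp Q W' = ⊥ := by rw [hW'def, H5.perp_perp hQ, inf_comm]; exact hW
  have hWW' : H5.perp Q W' = W := by rw [hW'def, H5.perp_perp hQ]
  have hQW := H5.restrict_nondegenerate hW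
  have hQW' := H5.restrict_nondegenerate hW'
  have hq2 : Nat.card F ≠ 2 := fun hc => h2 (by
    haveI := Fintype.ofFinite F
    have := Nat.cast_card_eq_zero F
    rw [← Nat.card_eq_fintype_card, hc] at this
    exact_mod_cast this)
  have hsum : finrank F W + finrank F W' = 2 * n := by
    have := H5.finrank_perp_add hQ W
    rw [hE.rank] at this
    rw [hW'def]
    omega
  -- the invariants of `k`
  have hbodd : Odd (finrank F W') := by
    have hkext : k = extHom hQ hW' (negOrth (Q.restrict W')) := orth_ext fun v => by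
      obtain ⟨u, hu, w, hw, rfl⟩ := H5.exists_split hQ hW' v
      rw [map_add, map_add, show u = ((⟨u, hu⟩ : W') : ι → F) from rfl, extHom_apply,
        extHom_apply_perp hQ hW' _ hw, negOrth_apply, Submodule.coe_neg]
      rw [(hperp u).1 hu, mem_fixSpace.1 (hWW' ▸ hw : w ∈ W)]
    have hdet := H5.det_eq_dick hQW' (g := negOrth (Q.restrict W')) (by
      rw [H5.reflGroup_eq_top hQW' (Or.inl hq2)]; trivial)
    rw [← (dick_spin_extHom hQ hW' hq2 _).1, ← hkext, hd,
      show ((negOrth (Q.restrict W') : W' ≃ₗ[F] W') : W' →ₗ[F] W') = (-1 : F) • LinearMap.id from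
        LinearMap.ext fun v => by simp [negOrth_apply], LinearMap.det_smul, LinearMap.det_id,
      mul_one] at hdet
    simp only [Units.val_neg, Units.val_one, Int.cast_neg, Int.cast_one] at hdet
    exact (neg_one_pow_eq_neg_one_iff_odd (fun h => h2 (by linear_combination -h))).1 hdet
  have haodd : Odd (finrank F W) := by
    obtain ⟨j, hj⟩ := hbodd
    exact ⟨n - j - 1, by omega⟩
  have ha5 : 5 ≤ finrank F W := by
    obtain ⟨j, hj⟩ := haodd
    omega
  have hW'0 : ∃ u ∈ W', u ≠ 0 := Submodule.exists_mem_ne_zero_of_ne_bot fun h => by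
    rw [h, finrank_bot] at hbodd; exact absurd hbodd (by decide)
  obtain ⟨w₁, hw₁⟩ := H5.exists_norm_eq h2 hQW (by omega) (1 : F)
  have hw₁' : Q (w₁ : ι → F) = 1 := hw₁
  have hinnA : Cfsg.Inn (Cfsg.POmega F f) ≤ A := by rintro _ ⟨y, rfl⟩; exact hinn y
  -- isometries commuting with `k` act in the centraliser
  have hcomm : ∀ l : orth Q, l * k = k * l → indHom Q hf (orthToSim Q l) ∈ Subgroup.centralizer {x} :=
    fun l hl => Subgroup.mem_centralizer_iff.2 fun z hz => by
      rw [Set.mem_singleton_iff.1 hz, hx, ← map_mul, ← map_mul, ← map_mul, ← map_mul, hl]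
  have hWk : ∀ l : orth (Q.restrict W), extHom hQ hW l * k = k * extHom hQ hW l := fun l => orth_ext fun v => by
    obtain ⟨w, hw, u, hu, rfl⟩ := H5.exists_split hQ hW v
    rw [orth_mul_apply, orth_mul_apply, map_add, map_add, map_add, mem_fixSpace.1 hw, (hperp u).1 hu,
      map_neg, extHom_apply_mem hQ hW _ hw, extHom_apply_perp hQ hW _ hu, map_add,
      mem_fixSpace.1 (SetLike.coe_mem _), (hperp u).1 hu]
  have hW'k : ∀ l : orth (Q.restrict W'), extHom hQ hW' l * k = k * extHom hQ hW' l := fun l => orth_ext fun v => by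
    obtain ⟨u, hu, w, hw, rfl⟩ := H5.exists_split hQ hW' v
    rw [orth_mul_apply, orth_mul_apply, map_add, map_add, map_add, mem_fixSpace.1 (hWW' ▸ hw : w ∈ W),
      (hperp u).1 hu, map_neg, extHom_apply_mem hQ hW' _ hu, extHom_apply_perp hQ hW' _ hw, map_add,
      (hperp _).1 (SetLike.coe_mem _), mem_fixSpace.1 (hWW' ▸ hw : w ∈ W)]
  let φ : commutator (orth (Q.restrict W)) →* semiSimGroup Q :=
    (orthToSim Q).comp ((extHom hQ hW).comp (commutator (orth (Q.restrict W))).subtype)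
  have hφl : ∀ l, φ l ∈ linSim Q := fun l => orthToSim_mem _ _
  let ψ : commutator (orth (Q.restrict W)) →* MulAut (Cfsg.POmega F f) := (indHom Q hf).comp φ
  have hψinj : Function.Injective ψ := by
    rw [injective_iff_map_eq_one]
    intro l hl
    obtain ⟨c, hc⟩ := (indHom_eq_one_iff Q hf hh _).1 hl
    obtain ⟨u, hu, hu0⟩ := hW'0
    have h1 := hc u
    simp only [φ, MonoidHom.comp_apply, Subgroup.coe_subtype, orthToSim_apply,
      extHom_apply_perp hQ hW _ hu] at h1
    have hc1 : c = 1 := (smul_left_injective F hu0 ((one_smul F u).trans h1)).symm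
    refine Subtype.ext (orth_ext fun w => Subtype.ext ?_)
    have h3 := hc w
    simp only [φ, MonoidHom.comp_apply, Subgroup.coe_subtype, orthToSim_apply, extHom_apply, hc1,
      one_smul] at h3
    exact h3
  have hψle : ψ.range ≤ (A ⊓ Subgroup.centralizer {x}) := by
    rintro _ ⟨l, rfl⟩
    refine ⟨hinnA ((indHom_mem_inn_iff Q hf hh _).2 ⟨1, extHom hQ hW (l : orth (Q.restrict W)), ?_, fun v =>
      (one_smul F _).symm⟩), hcomm _ (hWk _)⟩
    exact Subgroup.commutator_mono le_top le_top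
      (le_of_eq (Subgroup.map_commutator ⊤ ⊤ (extHom hQ hW)) (Subgroup.mem_map_of_mem _ l.2))
  -- the isometries of the fixed space inside the centraliser
  let Φ : orth (Q.restrict W') →* MulAut (Cfsg.POmega F f) :=
    (indHom Q hf).comp ((orthToSim Q).comp (extHom hQ hW'))
  have hΦinj : Function.Injective Φ := by
    rw [injective_iff_map_eq_one]
    intro l hl
    obtain ⟨c, hc⟩ := (indHom_eq_one_iff Q hf hh _).1 hl
    have hw : (w₁ : ι → F) ∈ H5.perp Q W' := by rw [hWW']; exact w₁.2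
    have h1 := hc w₁
    simp only [MonoidHom.comp_apply, orthToSim_apply, extHom_apply_perp hQ hW' _ hw] at h1
    have hc1 : c = 1 := (smul_left_injective F
      (fun h => one_ne_zero (hw₁'.symm.trans (by rw [h, QuadraticMap.map_zero])))
      ((one_smul F _).trans h1)).symm
    refine orth_ext fun u => Subtype.ext ?_
    have h3 := hc u
    simp only [MonoidHom.comp_apply, orthToSim_apply, extHom_apply, hc1, one_smul] at h3
    exact h3
  set H := (N.map (A ⊓ Subgroup.centralizer {x}).subtype).comap Φ with hHdef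
  have hHn : H.Normal := ⟨fun h hh' l => by
    obtain ⟨l', hdl, hsl⟩ := exists_orth_signs h2 hQW (by omega) (dick l) (spin (Q.restrict W') l)
    set m := extHom hQ hW l' * extHom hQ hW' l with hm
    obtain ⟨hd1, hs1⟩ := dick_spin_extHom hQ hW hq2 l'
    obtain ⟨hd2, hs2⟩ := dick_spin_extHom hQ hW' hq2 l
    have hmΩ : m ∈ commutator (orth Q) := by
      rw [H5.mem_commutator_iff hQ hE.std, hm, hE.dick_hom, map_mul, hd1, hd2, hs1, hs2, hdl, hsl,
        Int.units_mul_self, Int.units_mul_self]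
      exact ⟨rfl, rfl⟩
    have hmk : m * k = k * m := by
      rw [hm, mul_assoc, hW'k, ← mul_assoc, hWk, mul_assoc]
    have hmC : indHom Q hf (orthToSim Q m) ∈ (A ⊓ Subgroup.centralizer {x}) :=
      ⟨hinnA ((indHom_mem_inn_iff Q hf hh _).2 ⟨1, m, hmΩ, fun v => (one_smul F _).symm⟩), hcomm m hmk⟩
    obtain ⟨y, hy, hye⟩ := hh'
    refine ⟨⟨_, hmC⟩ * y * ⟨_, hmC⟩⁻¹, ‹N.Normal›.conj_mem y hy _, ?_⟩
    rw [map_mul, map_mul, map_inv]
    change indHom Q hf (orthToSim Q m) * (A ⊓ Subgroup.centralizer {x}).subtype y * (indHom Q hf (orthToSim Q m))⁻¹ = _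
    rw [hye]
    simp only [Φ, MonoidHom.comp_apply, ← map_inv, ← map_mul]
    congr 2
    have hc' : ∀ a b, extHom hQ hW a * extHom hQ hW' b = extHom hQ hW' b * extHom hQ hW a :=
      fun a b => orth_ext fun v => by
        obtain ⟨w, hw, u, hu, rfl⟩ := H5.exists_split hQ hW v
        have hw' : ∀ z ∈ W, z ∈ H5.perp Q W' := fun z hz => hWW'.symm ▸ hz
        rw [orth_mul_apply, orth_mul_apply, map_add, map_add, map_add, map_add,
          extHom_apply_perp hQ hW' _ (hw' w hw), extHom_apply_mem hQ hW' _ hu,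
          extHom_apply_mem hQ hW _ hw, extHom_apply_perp hQ hW _ hu,
          extHom_apply_perp hQ hW _ (SetLike.coe_mem _),
          extHom_apply_perp hQ hW' _ (hw' _ (SetLike.coe_mem _)), extHom_apply_mem hQ hW' _ hu]
    calc m * extHom hQ hW' h * m⁻¹
        = extHom hQ hW l' * (extHom hQ hW' (l * h * l⁻¹)) * (extHom hQ hW l')⁻¹ := by
          rw [hm, map_mul (extHom hQ hW'), map_mul (extHom hQ hW'), map_inv (extHom hQ hW')]; group
      _ = extHom hQ hW' (l * h * l⁻¹) := by rw [hc', mul_inv_cancel_right]⟩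
  have hHodd : Odd (Nat.card H) := by
    refine hN.of_dvd_nat ?_
    rw [Nat.card_congr (Subgroup.equivMapOfInjective N (A ⊓ Subgroup.centralizer {x}).subtype (A ⊓ Subgroup.centralizer {x}).subtype_injective).toEquiv]
    exact Subgroup.card_dvd_of_injective
      ((Φ.comp H.subtype).codRestrict (N.map (A ⊓ Subgroup.centralizer {x}).subtype) fun s => s.2)
      fun a b hab => Subtype.ext (hΦinj (congrArg Subtype.val hab))
  have hH := eq_bot_of_odd_normal_orth h2 hQW' hbodd H hHodd
  rw [Subgroup.eq_bot_iff_forall]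
  intro y hy
  obtain ⟨g, hg⟩ := hlift y.1 y.2.2
  obtain ⟨lam, hlam⟩ := (indHom_eq_one_iff Q hf hh (g ^ Nat.card N)).1 (by
    rw [map_pow, ← hg, ← SubgroupClass.coe_pow]
    have : (⟨y, hy⟩ : N) ^ Nat.card N = 1 := pow_card_eq_one'
    exact congrArg (fun z : N => (z.1.1 : MulAut (Cfsg.POmega F f))) this)
  have hgk := commute_involution h2 hk g hN hlam (by
    have h1 : x * y.1 = y.1 * x := Subgroup.mem_centralizer_iff.1 y.2.2 x rfl
    simp only [hg] at h1
    rw [hx, ← map_mul, ← map_mul] at h1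
    obtain ⟨d, hd'⟩ := exists_smul_of_indHom_eq Q hf hh h1.symm
    exact ⟨d, fun v => by simpa [orthToSim_apply] using hd' v⟩)
  set G := simEquiv g
  have hgW : ∀ v, v ∈ W ↔ G v ∈ W := fun v => by
    rw [mem_fixSpace, mem_fixSpace, simEquiv_apply, ← hgk]
    exact ((g : Equiv.Perm (ι → F)).injective.eq_iff).symm
  have hgW' : ∀ v, v ∈ W' → G v ∈ W' := fun v hv => by
    rw [hperp] at hv ⊢
    rw [simEquiv_apply, ← hgk, hv]
    exact map_neg G v
  let G₀ : W ≃+ W :=
    { toFun := fun w => ⟨G w, (hgW w).1 w.2⟩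
      invFun := fun w => ⟨G.symm w, (hgW _).2 (by rw [G.apply_symm_apply]; exact w.2)⟩
      left_inv := fun w => Subtype.ext (G.symm_apply_apply _)
      right_inv := fun w => Subtype.ext (G.apply_symm_apply _)
      map_add' := fun u w => Subtype.ext (map_add G _ _) }
  have hG₀ : IsSemiSim (Q.restrict W) G₀ (simSigma g) (simMult g) :=
    ⟨(isSemiSim g).ne_zero, fun t w => Subtype.ext ((isSemiSim g).map_smul t _),
      fun w => (isSemiSim g).map_app _⟩
  have hex : ∀ (l : commutator (orth (Q.restrict W))) v, G ((extHom hQ hW (l : orth (Q.restrict W)) : (ι → F) ≃ₗ[F] (ι → F)) v) =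
      (extHom hQ hW (simConjOmega hG₀ l : orth (Q.restrict W)) : (ι → F) ≃ₗ[F] (ι → F)) (G v) := fun l v => by
    obtain ⟨w, hw, u, hu, rfl⟩ := H5.exists_split hQ hW v
    rw [show w = ((⟨w, hw⟩ : W) : ι → F) from rfl, map_add, map_add G, map_add G, map_add,
      extHom_apply, extHom_apply_perp hQ hW _ hu,
      show G ((⟨w, hw⟩ : W) : ι → F) = ((G₀ ⟨w, hw⟩ : W) : ι → F) from rfl, extHom_apply,
      extHom_apply_perp hQ hW _ (hgW' u hu), coe_simConjOmega, simConj_apply]
    rfl
  have hnorm : ∀ l, (y : MulAut _) * ψ l * (y : MulAut _)⁻¹ ∈ ψ.range := fun l => by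
    refine ⟨simConjOmega hG₀ l, ?_⟩
    rw [hg, eq_mul_inv_iff_mul_eq]
    simp only [ψ, φ, MonoidHom.comp_apply, ← map_mul]
    exact congrArg _ (Subtype.ext (Equiv.ext fun v => by
      simpa [Equiv.Perm.mul_apply, orthToSim_apply, ← simEquiv_apply g] using (hex l v).symm))
  have hyψ := commute_of_odd_normal N hN ψ hψinj hψle
    (fun M hM hMo => by haveI := hM; exact eq_bot_of_odd_normal_commutator h2 hQW ha5 haodd M hMo)
    hy hnorm
  have hgφ : ∀ l v, (g : Equiv.Perm (ι → F)) ((φ l : Equiv.Perm (ι → F)) v) =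
      (φ l : Equiv.Perm (ι → F)) ((g : Equiv.Perm (ι → F)) v) :=
    commute_of_perfect (commutator_omega_eq_top hQW ha5) φ hφl g fun l => by
      have h1 := hyψ l
      rw [hg] at h1
      simp only [ψ, MonoidHom.comp_apply, ← map_mul] at h1
      obtain ⟨d, hd'⟩ := exists_smul_of_indHom_eq Q hf hh h1
      exact ⟨d, fun v => by simpa using hd' v⟩
  obtain ⟨d, hdd⟩ := exists_smul_of_commute_eich hQW ha5 G₀ fun a b ha hb hab w => by
    have h1 := hgφ ⟨eich (Q.restrict W) a b, H5.eich_mem_commutator hQW ha5 a b⟩ (w : ι → F)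
    simp only [φ, MonoidHom.comp_apply, Subgroup.coe_subtype, orthToSim_apply, extHom_apply] at h1
    rw [show (g : Equiv.Perm (ι → F)) (w : ι → F) = ((G₀ w : W) : ι → F) from rfl, extHom_apply] at h1
    exact Subtype.ext h1
  have hdd' : ∀ w : W, G (w : ι → F) = d • (w : ι → F) := fun w => congrArg Subtype.val (hdd w)
  have hw₁0 : (w₁ : ι → F) ≠ 0 := fun h =>
    one_ne_zero (hw₁'.symm.trans (by rw [h, QuadraticMap.map_zero]))
  have hd0 : d ≠ 0 := fun h => hw₁0 (G.injective (by rw [hdd', h, zero_smul, map_zero]))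
  have hσ : simSigma g = RingEquiv.refl F := RingEquiv.ext fun t => by
    have h1 := (isSemiSim g).map_smul t (w₁ : ι → F)
    rw [show t • (w₁ : ι → F) = ((t • w₁ : W) : ι → F) from rfl, hdd', hdd', Submodule.coe_smul,
      smul_smul, smul_smul] at h1
    exact mul_right_cancel₀ hd0 ((mul_comm t d).trans (smul_left_injective F hw₁0 h1)).symm
  have hgl : g ∈ linSim Q := fun t v => by
    have h1 := (isSemiSim g).map_smul t v
    rwa [hσ] at h1
  have hc : simMult g = d * d := by
    have h1 := (isSemiSim g).map_app (w₁ : ι → F)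
    rw [hdd', qf_smul, hw₁', map_one, mul_one, mul_one, sq] at h1
    exact h1.symm
  let g' : orth Q := ⟨(linSimEquiv ⟨g, hgl⟩).trans (LinearEquiv.smulOfUnit (Units.mk0 d hd0)⁻¹),
    fun v => by
      change Q (d⁻¹ • linSimEquiv ⟨g, hgl⟩ v) = Q v
      rw [qf_smul, linSimEquiv_apply, linSim_app, hc]
      field_simp⟩
  have hg'W : ∀ v, v ∈ W' → (g' : (ι → F) ≃ₗ[F] (ι → F)) v ∈ W' := fun v hv =>
    Submodule.smul_mem _ _ (hgW' v hv)
  let r : W' ≃ₗ[F] W' := (g' : (ι → F) ≃ₗ[F] (ι → F)).ofSubmodules W' W'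
    (Submodule.eq_of_le_of_finrank_eq (by rintro _ ⟨v, hv, rfl⟩; exact hg'W v hv)
      (LinearEquiv.finrank_map_eq _ _))
  let h₀ : orth (Q.restrict W') := ⟨r, fun u => orth_map g' (u : ι → F)⟩
  have hgh : g' = extHom hQ hW' h₀ := orth_ext fun v => by
    obtain ⟨u, hu, w, hw, rfl⟩ := H5.exists_split hQ hW' v
    rw [map_add, map_add, show u = ((⟨u, hu⟩ : W') : ι → F) from rfl, extHom_apply,
      extHom_apply_perp hQ hW' _ hw]
    congr 1
    change d⁻¹ • G w = w
    rw [show w = ((⟨w, hWW' ▸ hw⟩ : W) : ι → F) from rfl, hdd', smul_smul, inv_mul_cancel₀ hd0, one_smul]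
  have hΦy : Φ h₀ = y := by
    rw [hg]
    refine (indHom_eq_of_smul Q hf hh (d := d) fun v => ?_).symm
    rw [MonoidHom.comp_apply, orthToSim_apply, ← hgh]
    change _ = d • d⁻¹ • linSimEquiv ⟨g, hgl⟩ v
    rw [smul_smul, mul_inv_cancel₀ hd0, one_smul]
    rfl
  have hmem : h₀ ∈ H := ⟨y, hy, hΦy.symm⟩
  rw [hH, Subgroup.mem_bot] at hmem
  exact Subtype.ext (by rw [← hΦy, hmem, map_one]; rfl)

/-- An involutory isometry outside the special group: no normal subgroup of odd order. -/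
theorem odd_normal_eq_bot_isometry (hf : ⇑Q = f) (hh : FormHyp Q) (hE : EvenForm Q n) (hn : 4 ≤ n)
    (h2 : (2 : F) ≠ 0) {A : Subgroup (MulAut (Cfsg.POmega F f))}
    (hinn : ∀ y : Cfsg.POmega F f, MulAut.conj y ∈ A) {k : orth Q} (hk : k * k = 1)
    (hd : dick k = -1) {x : MulAut (Cfsg.POmega F f)} (hx : x = indHom Q hf (orthToSim Q k))
    (N : Subgroup ↥(A ⊓ Subgroup.centralizer {x})) [N.Normal] (hN : Odd (Nat.card N))
    (hlift : ∀ d ∈ Subgroup.centralizer {x}, ∃ g₀, d = indHom Q hf g₀) : N = ⊥ := by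
  haveI : Finite (ι → F) := Pi.finite
  by_cases hbig : n ≤ finrank F (fixSpace k)
  · exact odd_normal_eq_bot_square hf hh hE hn h2 hinn hk hd hbig hx N hN hlift
  have hc : negOrth Q * k = k * negOrth Q := orth_ext fun v => by
    simp [orth_mul_apply, negOrth_apply]
  have hk' : (negOrth Q * k) * (negOrth Q * k) = 1 := by
    have hnn : negOrth Q * negOrth Q = 1 := orth_ext fun v => by simp [orth_mul_apply, negOrth_apply]
    calc (negOrth Q * k) * (negOrth Q * k) = negOrth Q * (k * negOrth Q) * k := by group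
      _ = (negOrth Q * negOrth Q) * (k * k) := by rw [← hc]; group
      _ = 1 := by rw [hnn, hk, one_mul]
  have hd' : dick (negOrth Q * k) = -1 := by
    have hdn := H5.det_eq_dick hE.nondeg (g := negOrth Q) (by
      rw [H5.reflGroup_eq_top hE.nondeg hE.std]; trivial)
    rw [show ((negOrth Q : (ι → F) ≃ₗ[F] (ι → F)) : (ι → F) →ₗ[F] (ι → F)) = (-1 : F) • LinearMap.id
        from LinearMap.ext fun v => by simp [negOrth_apply], LinearMap.det_smul, LinearMap.det_id,
      mul_one, hE.rank, pow_mul, neg_one_sq, one_pow] at hdn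
    rw [hE.dick_hom, hd]
    rcases Int.units_eq_one_or (dick (negOrth Q)) with h | h
    · rw [h, one_mul]
    · rw [h] at hdn
      simp only [Units.val_neg, Units.val_one, Int.cast_neg, Int.cast_one] at hdn
      exact absurd (show (2 : F) = 0 by linear_combination hdn) h2
  have hx' : x = indHom Q hf (orthToSim Q (negOrth Q * k)) := by
    rw [hx]
    exact indHom_eq_of_smul Q hf hh (d := -1) fun v => by
      simp [orthToSim_apply, orth_mul_apply, negOrth_apply]
  refine odd_normal_eq_bot_square hf hh hE hn h2 hinn hk' hd' ?_ hx' N hN hlift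
  obtain ⟨hW, hperp⟩ := involution_spaces h2 hE.nondeg hk
  have heq : fixSpace (negOrth Q * k) = H5.perp Q (fixSpace k) := Submodule.ext fun v => by
    rw [hperp, mem_fixSpace, orth_mul_apply, negOrth_apply, neg_eq_iff_eq_neg]
  have := H5.finrank_perp_add hE.nondeg (fixSpace k)
  rw [hE.rank] at this
  rw [heq]
  omega

end Cfsg.Agent.H4.LocalBalance
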