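import Cfsg.Agent.H4.LocalBalance.Graph
import Cfsg.Agent.H4.LocalBalance.Transfer
import Cfsg.Agent.H4.Coset.Minus
import Cfsg.Agent.H4.Coset.Plus

/-!
Local balance in almost simple groups with socle `PΩ⁻(2m+2, q)`.
-/

set_option autoImplicit false

namespace Cfsg.Agent.H4.LocalBalance

open QuadraticMap hiding sq
open Module
open scoped Matrix

variable {F : Type*} [Field F] [Fintype F] {m : ℕ} {a b : F}

set_option maxHeartbeats 1600000 in
/-- An element of prime order with a non-trivial field part is a field automorphism. -/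
theorem minus_isFieldAutClass (hm : 3 ≤ m)
    (hab : ∀ z₁ z₂ : F, z₁ ^ 2 + a * z₁ * z₂ + b * z₂ ^ 2 = 0 → z₁ = 0 ∧ z₂ = 0)
    (g : semiSimGroup (qMinus m F a b)) {p : ℕ} (hp : p.Prime)
    (hord : orderOf (indHom (qMinus m F a b) (coe_qMinus m a b) g) = p) (hne : simSigma g ≠ 1) :
    Cfsg.IsFieldAutClassPOmegaMinus m (indHom (qMinus m F a b) (coe_qMinus m a b) g) := by
  classical
  haveI := Fact.mk hp
  haveI : Finite ((Fin m ⊕ Fin m) ⊕ Fin 2 → F) := Pi.finite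
  have hh := autHyp_qMinus hab hm
  have hE := evenForm_qMinus (F := F) (m := m) (by omega) (disc_ne_zero hab)
  haveI := hE.nontrivial
  set σ := simSigma g with hσdef
  obtain ⟨lam, hlam⟩ := (indHom_eq_one_iff _ (coe_qMinus m a b) hh.toFormHyp (g ^ p)).1 (by
    rw [map_pow, ← hord, pow_orderOf_eq_one])
  have hσ : orderOf σ = p := orderOf_eq_prime (by
    rw [hσdef, ← simSigma_pow]
    exact simSigma_eq fun t v => by rw [hlam, hlam, smul_comm]; rfl) hne
  obtain ⟨K, hK, hcard⟩ := exists_fixed_embedding σ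
  haveI := Fintype.ofFinite K
  obtain ⟨d, h, t, P', -, ht, hP'nd, hgh, hP⟩ := twist_descent K.subtype hσ hK hh.nondeg
    hE.exists_ne g (isSemiSim g).map_smul hlam
  have hr2 : finrank K ((Fin m ⊕ Fin m) ⊕ Fin 2 → K) = 2 * (m + 1) := by simp; ring
  have hno : ¬ ∃ W : Submodule K ((Fin m ⊕ Fin m) ⊕ Fin 2 → K),
      (∀ w ∈ W, P' w = 0) ∧ finrank K W = m + 1 := by
    rintro ⟨W, hW, hWr⟩
    obtain ⟨g₀, hg₀⟩ := isom_qPlus_of_singular hP'nd hr2 W hW hWr
    obtain ⟨gF, hgF⟩ := exists_baseChange_equiv K.subtype g₀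
    have hpl : ∀ x, qPlus (m + 1) F (baseVec K.subtype x) = K.subtype (qPlus (m + 1) K x) :=
      qPlus_base K.subtype
    have hval : ∀ v, qMinus m F a b (h v) = t * qPlus (m + 1) F (gF v) := fun v => by
      have := qf_eq_of_baseVec K.subtype
        (Q := (qMinus m F a b).comp
          (h : ((Fin m ⊕ Fin m) ⊕ Fin 2 → F) →ₗ[F] ((Fin m ⊕ Fin m) ⊕ Fin 2 → F)))
        (Q' := t • (qPlus (m + 1) F).comp
          (gF : ((Fin m ⊕ Fin m) ⊕ Fin 2 → F) →ₗ[F] (Fin (m + 1) ⊕ Fin (m + 1) → F))) (fun x => by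
          simp only [QuadraticMap.comp_apply, LinearEquiv.coe_coe, _root_.QuadraticMap.smul_apply,
            smul_eq_mul]
          rw [hP, hgF, hpl, hg₀]) v
      simpa using this
    obtain ⟨W', hW', hWr'⟩ := qPlus_singular (F := F) (m + 1)
    refine qMinus_no_singular hab m
      (W'.map ((gF.symm.trans h : (Fin (m + 1) ⊕ Fin (m + 1) → F) ≃ₗ[F] _) : _ →ₗ[F] _)) ?_
      (by rw [LinearEquiv.finrank_map_eq]; exact hWr')
    rintro _ ⟨w, hw, rfl⟩
    rw [LinearEquiv.coe_coe, LinearEquiv.trans_apply, hval, LinearEquiv.apply_symm_apply, hW' w hw,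
      mul_zero]
  obtain ⟨ζ, hζ, g₀, hg₀⟩ : ∃ ζ : K, (∀ s : K, s ^ 2 + s + ζ ≠ 0) ∧
      ∃ g₀ : ((Fin m ⊕ Fin m) ⊕ Fin 2 → K) ≃ₗ[K] ((Fin m ⊕ Fin m) ⊕ Fin 2 → K),
        ∀ v, qMinus m K 1 ζ (g₀ v) = P' v := by
    rcases isom_std_even hP'nd hr2 with ⟨g₀, hg₀⟩ | ⟨-, h1⟩
    · exfalso
      obtain ⟨W', hW', hWr'⟩ := qPlus_singular (F := K) (m + 1)
      refine hno ⟨W'.map (g₀.symm : (Fin (m + 1) ⊕ Fin (m + 1) → K) →ₗ[K] _), ?_,
        (LinearEquiv.finrank_map_eq _ _).trans hWr'⟩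
      rintro _ ⟨w, hw, rfl⟩
      rw [LinearEquiv.coe_coe, ← hg₀, g₀.apply_symm_apply, hW' w hw]
    · exact h1
  obtain ⟨kF, hkF⟩ := exists_baseChange_equiv K.subtype g₀
  have hodd : Odd (orderOf σ) := by
    rw [hσ]
    refine hp.odd_of_ne_two fun h2 => ?_
    rw [hσ, h2, Nat.card_eq_fintype_card] at hcard
    obtain ⟨θ, -, hθ1, hθ2⟩ := H67.exists_quadratic_root (K := F) rfl hcard K.subtype 1 ζ
      (anisotropic_of_no_root hζ)
    let w₀ : (Fin m → F) × F →ₗ[F] ((Fin m ⊕ Fin m) ⊕ Fin 2 → F) :=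
      { toFun := fun u => Sum.elim (Sum.elim u.1 0) ![u.2 * -θ, u.2]
        map_add' := fun u v => by
          funext i; rcases i with (i | i) | i <;> simp
          fin_cases i <;> simp; ring
        map_smul' := fun s u => by
          funext i; rcases i with (i | i) | i <;> simp
          fin_cases i <;> simp; ring }
    have hinj : Function.Injective w₀ := fun u v huv => Prod.ext
      (funext fun i => congrFun huv (Sum.inl (Sum.inl i))) (congrFun huv (Sum.inr 1))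
    have hsing : ∀ u, qMinus m F (K.subtype 1) (K.subtype ζ) (w₀ u) = 0 := fun u => by
      simp [w₀, coe_qMinus, Cfsg.quadFormMinus]
      rw [map_one] at hθ1
      simp only [Subfield.subtype_apply] at hθ2
      linear_combination (u.2 * u.2) * (θ * hθ1 - hθ2)
    refine qMinus_no_singular hab m
      ((LinearMap.range w₀).map ((kF.symm.trans h : ((Fin m ⊕ Fin m) ⊕ Fin 2 → F) ≃ₗ[F] _) : _ →ₗ[F] _))
      ?_ (by rw [LinearEquiv.finrank_map_eq, LinearMap.finrank_range_of_inj hinj]; simp)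
    rintro _ ⟨_, ⟨u, rfl⟩, rfl⟩
    have := qf_eq_of_baseVec K.subtype
      (Q := (qMinus m F a b).comp
        (h : ((Fin m ⊕ Fin m) ⊕ Fin 2 → F) →ₗ[F] ((Fin m ⊕ Fin m) ⊕ Fin 2 → F)))
      (Q' := t • (qMinus m F (K.subtype 1) (K.subtype ζ)).comp
        (kF : ((Fin m ⊕ Fin m) ⊕ Fin 2 → F) →ₗ[F] ((Fin m ⊕ Fin m) ⊕ Fin 2 → F))) (fun x => by
        simp only [QuadraticMap.comp_apply, LinearEquiv.coe_coe, _root_.QuadraticMap.smul_apply,
          smul_eq_mul]
        rw [hP, hkF, qMinus_base, hg₀]) (kF.symm (w₀ u))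
    simp only [QuadraticMap.comp_apply, LinearEquiv.coe_coe, _root_.QuadraticMap.smul_apply, smul_eq_mul,
      LinearEquiv.apply_symm_apply, hsing u, mul_zero] at this
    exact this
  have hab' := anisotropic_of_odd hK hodd hζ
  have hh' := autHyp_qMinus hab' hm
  have hσQ : ∀ v, qMinus m F (K.subtype 1) (K.subtype ζ) (coordSigma _ σ v) =
      σ (qMinus m F (K.subtype 1) (K.subtype ζ) v) := fun v => by
    have e2 : σ (ζ : F) = ζ := (hK _).2 ⟨ζ, rfl⟩
    simp [coe_qMinus, Cfsg.quadFormMinus, coordSigma_apply, map_sum, e2]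
  obtain ⟨H, hHQ, hH⟩ := even_lang (coe_qMinus m _ _) hh'.toFormHyp hK
    (qMinus_base K.subtype m 1 ζ) hσQ (g : Equiv.Perm _) h ht hgh hP g₀ hg₀
  obtain ⟨-, δ, hδ⟩ : t ∈ similMults (qMinus m F (K.subtype 1) (K.subtype ζ)) := by
    rw [similMults_qMinus m hab']; exact ht
  have hj : ∀ w, qMinus m F (K.subtype 1) (K.subtype ζ) ((H.symm.trans δ) w) = qMinus m F a b w :=
    fun w => by rw [LinearEquiv.trans_apply, hδ, ← hHQ, LinearEquiv.apply_symm_apply]
  obtain ⟨ψ, hψ⟩ := exists_pomega_iso (H.symm.trans δ) hj (coe_qMinus m a b)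
    (coe_qMinus m (K.subtype 1) (K.subtype ζ))
  set I' := indHom (qMinus m F (K.subtype 1) (K.subtype ζ)) (coe_qMinus m _ _)
  set Δ : linSim (qMinus m F (K.subtype 1) (K.subtype ζ)) := toLinSim δ ht hδ
  set γ := (I' Δ.1)⁻¹
  refine ⟨K.subtype 1, K.subtype ζ, ψ.trans γ, σ, hab', hne, (hK _).2 ⟨1, rfl⟩, (hK _).2 ⟨ζ, rfl⟩,
    (fieldAutOf_iff _ (coe_qMinus m _ _) hσQ _).2 ?_⟩
  change γ * MulAut.congr ψ (indHom _ _ g) * γ⁻¹ = _
  rw [hψ]
  simp only [γ, inv_inv, mul_assoc, inv_mul_eq_iff_eq_mul, I', ← map_mul]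
  refine indHom_eq_of_smul _ _ hh'.toFormHyp (d := σ 1 * d) fun v => ?_
  simp only [Subgroup.coe_mul, Equiv.Perm.mul_apply, stdSigma_apply, Δ, toLinSim_apply, map_one,
    one_mul]
  have h1 := simTransport_apply (H.symm.trans δ) hj g (H v)
  simp only [LinearEquiv.trans_apply, LinearEquiv.symm_apply_apply] at h1
  rw [h1, hH, map_smul, LinearEquiv.symm_apply_apply, map_smul]

/-- An element with trivial field part that is not inner-diagonal is induced by an improper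
similarity. -/
theorem minus_improper (hm : 3 ≤ m)
    (hab : ∀ z₁ z₂ : F, z₁ ^ 2 + a * z₁ * z₂ + b * z₂ ^ 2 = 0 → z₁ = 0 ∧ z₂ = 0)
    (g : linSim (qMinus m F a b))
    (hnot : ¬ Cfsg.IsInnerDiagonalAutPOmegaMinus m a b
      (indHom (qMinus m F a b) (coe_qMinus m a b) g.1)) : ¬ IsProper (m + 1) g := by
  intro hp
  haveI := (evenForm_qMinus (F := F) (m := m) (by omega) (disc_ne_zero hab)).nontrivial
  set M := semiMatrix (simEquiv g.1) (RingEquiv.refl F) g.2
  have hMv : ∀ v, (M : Matrix _ _ F) *ᵥ v = (g.1 : Equiv.Perm _) v := fun v =>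
    semiMatrix_mulVec (simEquiv g.1) (RingEquiv.refl F) g.2 v
  exact hnot ⟨M, ⟨Units.mk0 _ (isSemiSim g.1).ne_zero, fun v => by
      rw [Units.val_mk0, hMv, ← coe_qMinus]; exact linSim_app _ g v⟩,
    (preservesMinus_iff_proper (by omega) hab g _ hMv).2 hp,
    (induced_iff _ (coe_qMinus m a b) g.1 M _ hMv _).2 rfl⟩

/-- A field automorphism is not induced by a similarity. -/
theorem minus_not_field (hm : 3 ≤ m)
    (hab : ∀ z₁ z₂ : F, z₁ ^ 2 + a * z₁ * z₂ + b * z₂ ^ 2 = 0 → z₁ = 0 ∧ z₂ = 0)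
    (g : linSim (qMinus m F a b)) {p : ℕ} (hp : p.Prime)
    (hord : orderOf (indHom (qMinus m F a b) (coe_qMinus m a b) g.1) = p) :
    ¬ Cfsg.IsFieldAutClassPOmegaMinus m (indHom (qMinus m F a b) (coe_qMinus m a b) g.1) := by
  intro hx
  haveI : Finite ((Fin m ⊕ Fin m) ⊕ Fin 2 → F) := Pi.finite
  obtain ⟨a', b', ψ, σ, hσQ, hab', -, -, hσ, -, h1⟩ := exists_minus_std hm hx hp hord
  have hh := autHyp_qMinus hab hm
  have hh' := autHyp_qMinus hab' hm
  haveI := (evenForm_qMinus (F := F) (m := m) (by omega) (disc_ne_zero hab')).nontrivial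
  have hr : finrank F ((Fin m ⊕ Fin m) ⊕ Fin 2 → F) = 2 * (m + 1) := by simp; ring
  obtain ⟨j, hj⟩ := isom_even_of_iff (qMinus_nondegenerate' hab m) (qMinus_nondegenerate' hab' m) hr hr
    (iff_of_false (fun ⟨W, hW, hk⟩ => qMinus_no_singular hab m W hW hk)
      (fun ⟨W, hW, hk⟩ => qMinus_no_singular hab' m W hW hk))
  obtain ⟨ψ₀, hψ₀⟩ := exists_pomega_iso j hj (coe_qMinus m a b) (coe_qMinus m a' b')
  set β : MulAut (Cfsg.POmega F (Cfsg.quadFormMinus m F a b)) := ψ.trans ψ₀.symm with hβdef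
  obtain ⟨c, hc⟩ := indHom_surjective (qMinus m F a b) (coe_qMinus m a b) hh β
  have h2 : ∀ x, MulAut.congr ψ x = MulAut.congr ψ₀ (β * x * β⁻¹) := fun x => MulEquiv.ext fun y => by
    change ψ (x (ψ.symm y)) = ψ₀ (β (x (β.symm (ψ₀.symm y))))
    simp [hβdef]
  rw [h2, ← hc, ← map_inv, ← map_mul, ← map_mul, hψ₀] at h1
  obtain ⟨d, hd⟩ := exists_smul_of_indHom_eq _ _ hh'.toFormHyp h1
  have hl : simTransport j hj (c * g.1 * c⁻¹) ∈ linSim (qMinus m F a' b') :=
    simTransport_mem_linSim j hj ((linSim_normal (qMinus m F a b)).conj_mem _ g.2 c)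
  have h3 : simSigma (stdSigma (qMinus m F a' b') hσQ) = 1 := by
    refine simSigma_eq fun t v => ?_
    have e1 := hd (t • v)
    rw [hl, hd, smul_comm] at e1
    have hd0 : d ≠ 0 := fun h0 => by
      obtain ⟨w, hw⟩ := exists_ne (0 : (Fin m ⊕ Fin m) ⊕ Fin 2 → F)
      have e2 := hd w
      rw [h0, zero_smul, ← simEquiv_apply] at e2
      exact hw ((simEquiv _).injective (e2.trans (map_zero _).symm))
    exact (smul_right_injective _ hd0 e1).symm
  rw [simSigma_eq (σ := σ) fun t v => coordSigma_smul σ t v] at h3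
  rw [h3, orderOf_one] at hσ
  exact hp.ne_one hσ.symm

set_option maxHeartbeats 1600000 in
/-- The criterion. -/
theorem minus_local_balance {r : ℕ} [Fact r.Prime] [CharP F r] (hm : 3 ≤ m)
    (hab : ∀ z₁ z₂ : F, z₁ ^ 2 + a * z₁ * z₂ + b * z₂ ^ 2 = 0 → z₁ = 0 ∧ z₂ = 0)
    (A : Subgroup (MulAut (Cfsg.POmega F (Cfsg.quadFormMinus m F a b))))
    (hinn : ∀ k : Cfsg.POmega F (Cfsg.quadFormMinus m F a b), MulAut.conj k ∈ A) {p : ℕ}
    [Fact p.Prime] (hpr : p ≠ r) (x : MulAut (Cfsg.POmega F (Cfsg.quadFormMinus m F a b))) (hxA : x ∈ A)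
    (hord : orderOf x = p) (hnot : ¬ Cfsg.IsInnerDiagonalAutPOmegaMinus m a b x) :
    Cfsg.pPrimeCore p ↥(A ⊓ Subgroup.centralizer {x}) ≠ ⊥ ↔
      (Cfsg.IsFieldAutClassPOmegaMinus m x ∧ Nat.Coprime p (Nat.card
        ↥(MonoidHom.eqLocus x.toMonoidHom
          (MonoidHom.id (Cfsg.POmega F (Cfsg.quadFormMinus m F a b)))))) := by
  classical
  haveI : Finite ((Fin m ⊕ Fin m) ⊕ Fin 2 → F) := Pi.finite
  have hp : p.Prime := Fact.out
  have hh := autHyp_qMinus hab hm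
  have hE := evenForm_qMinus (F := F) (m := m) (by omega) (disc_ne_zero hab)
  haveI := hE.nontrivial
  obtain ⟨g, rfl⟩ := indHom_surjective (qMinus m F a b) (coe_qMinus m a b) hh x
  by_cases hσ : simSigma g = 1
  · have hgl : g ∈ linSim (qMinus m F a b) := fun t v => by
      have h1 := (isSemiSim g).map_smul t v
      rwa [hσ] at h1
    refine iff_of_false (fun h => h ?_) fun h => minus_not_field hm hab ⟨g, hgl⟩ hp hord h.1
    exact graph_core_eq_bot (coe_qMinus m a b) hh.toFormHyp hE (by omega) hinn hpr ⟨g, hgl⟩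
      (minus_improper hm hab ⟨g, hgl⟩ hnot) rfl hord fun d _ => by
        obtain ⟨g₀, hg₀⟩ := indHom_surjective (qMinus m F a b) (coe_qMinus m a b) hh d
        exact ⟨g₀, hg₀.symm⟩
  have hx := minus_isFieldAutClass hm hab g hp hord hσ
  rw [and_iff_right hx]
  obtain ⟨a', b', ψ, σ, hσQ, hab', ha, hb, hσo, -, h1⟩ := exists_minus_std hm hx hp hord
  obtain ⟨hi, hxA', h3, h4⟩ := criterion_congr ψ hinn hxA p
  rw [h1] at hxA' h3 h4
  rw [h3, h4]
  obtain ⟨K, hK, -⟩ := exists_fixed_embedding σ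
  haveI := Fintype.ofFinite K
  obtain ⟨a₀, ha₀⟩ := (hK a').1 ha
  obtain ⟨b₀, hb₀⟩ := (hK b').1 hb
  subst ha₀ hb₀
  have hab₀ : ∀ z₁ z₂ : K, z₁ ^ 2 + a₀ * z₁ * z₂ + b₀ * z₂ ^ 2 = 0 → z₁ = 0 ∧ z₂ = 0 := by
    intro z₁ z₂ h
    have h' := congrArg K.subtype h
    simp only [map_add, map_mul, map_pow, map_zero] at h'
    obtain ⟨h5, h6⟩ := hab' _ _ h'
    exact ⟨K.subtype.injective (h5.trans (map_zero _).symm), K.subtype.injective (h6.trans (map_zero _).symm)⟩
  have hh' := autHyp_qMinus hab' hm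
  have hE' := evenForm_qMinus (F := F) (m := m) (by omega) (disc_ne_zero hab')
  have hEK := evenForm_qMinus (F := K) (m := m) (by omega) (disc_ne_zero hab₀)
  haveI := hEK.nontrivial
  haveI := properImage_normal (coe_qMinus m (K.subtype a₀) (K.subtype b₀)) hh' hE'
  refine field_core_iff (coe_qMinus m _ _) hh'.toFormHyp (autHyp_qMinus hab₀ hm).toFormHyp hK
    (qMinus_base K.subtype m a₀ b₀) hσQ (D := properImage (coe_qMinus m _ _) hE')
    (inn_le_properImage _ hh'.toFormHyp _) hi hσo hxA' ?_ ?_ ?_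
  · intro h5
    have h6 := ((mem_properImage_iff _ hh'.toFormHyp hE' _).1 h5).1
    have h7 : σ = 1 := by
      rw [← simSigma_linear h6]
      exact (simSigma_eq fun t v => coordSigma_smul σ t v).symm
    rw [h7, orderOf_one] at hσo
    exact hp.ne_one hσo.symm
  · intro d hd
    rw [properBase_range (coe_qMinus m _ _) hh'.toFormHyp hE' hEK hK (qMinus_base K.subtype m a₀ b₀) hσQ]
      at hd
    obtain ⟨k, rfl⟩ := hd
    exact ⟨Subgroup.inclusion (properSim_le hEK) k, rfl⟩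
  · intro d _ _
    obtain ⟨g₀, hg₀⟩ := indHom_surjective _ (coe_qMinus m _ _) hh' d
    exact ⟨g₀, hg₀.symm⟩

end Cfsg.Agent.H4.LocalBalance
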