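import Cfsg.Agent.H4.LocalBalance.FieldCore
import Cfsg.Agent.H5.StabNondeg

/-!
Tools for graph involutions: what commutes with `Ω`, odd normal subgroups of orthogonal groups in odd
dimension, and extension of isometries of a non-degenerate subspace.
-/

set_option autoImplicit false

namespace Cfsg.Agent.H4.LocalBalance

open QuadraticMap hiding sq
open Module
open Cfsg.Agent.H5 (orth orth_map orth_ext orth_mul_apply refl refl_apply eich eich_apply dick spin sqc
  HypPair pperp mem_pperp)

variable {F V : Type*} [Field F] [AddCommGroup V] [Module F V] {Q : QuadraticForm F V}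

/-- An isometry equal to its own inverse in a group of odd order is trivial. -/
theorem eq_one_of_mul_self {G : Type*} [Group G] {H : Subgroup G} (hH : Odd (Nat.card H)) {h : G}
    (hh : h ∈ H) (h2 : h * h = 1) : h = 1 := by
  obtain ⟨j, hj⟩ := hH
  have h1 : (⟨h, hh⟩ : H) ^ Nat.card H = 1 := pow_card_eq_one'
  rw [hj, pow_succ, pow_mul] at h1
  have h3 := congrArg Subtype.val h1
  simpa [sq, h2] using h3

/-- A scalar isometry squares to one. -/
theorem mul_self_eq_one_of_scalar [Finite F] [FiniteDimensional F V]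
    (hQ : (polarBilin Q).Nondegenerate) {k : orth Q} (hk : H5.IsScalar k) : k * k = 1 := by
  obtain ⟨t, ht⟩ := hk
  refine orth_ext fun x => ?_
  rw [orth_mul_apply, ht, ht, smul_smul, Subgroup.coe_one, LinearEquiv.coe_one, id_eq]
  rcases eq_or_ne x 0 with rfl | hx
  · simp
  obtain ⟨y, hy⟩ := H5.exists_polar_eq_one hQ hx
  have h1 := H5.orth_polar k x y
  rw [ht, ht, polar_smul_left, polar_smul_right, hy, smul_eq_mul, smul_eq_mul, mul_one] at h1
  rw [h1, one_smul]

/-- An additive bijection commuting with the root elements is a scalar. -/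
theorem exists_smul_of_commute_eich [Finite F] [FiniteDimensional F V]
    (hQ : (polarBilin Q).Nondegenerate) (hn : 5 ≤ finrank F V) (φ : V ≃+ V)
    (hφ : ∀ a b, Q a = 0 → Q b = 0 → polar Q a b = 0 → ∀ v,
      φ ((eich Q a b : V ≃ₗ[F] V) v) = (eich Q a b : V ≃ₗ[F] V) (φ v)) :
    ∃ d : F, ∀ v, φ v = d • v := by
  refine exists_eq_smul_of_fix_lines hQ hn φ fun a ha => ?_
  rcases eq_or_ne a 0 with rfl | ha0
  · simp
  have hN : ∀ b, Q b = 0 → polar Q a b = 0 → ∀ v,
      φ (polar Q a v • b - polar Q b v • a) = polar Q a (φ v) • b - polar Q b (φ v) • a := by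
    intro b hb hab v
    have h := hφ a b ha hb hab v
    simp only [eich_apply ha hab, hb, zero_mul, zero_smul, sub_zero, add_sub_assoc, map_add] at h
    exact add_left_cancel h
  obtain ⟨a', hp⟩ := H5.exists_hypPair hQ ha0 ha
  obtain ⟨b, hb, b', hb', hq⟩ := H5.exists_hypPair_mem (Q := Q) (S := pperp Q a a') (by
    rw [hp.inf_perp hQ, finrank_bot]
    have := hp.finrank_pperp hQ
    omega)
  rw [mem_pperp] at hb hb'
  have h1 := hN b hq.left hb.1 b'
  have h2 := hN b' hq.right hb'.1 b
  simp only [hb.1, hb'.1, hq.pair, polar_comm (⇑Q) b' b, zero_smul, one_smul, zero_sub, map_neg]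
    at h1 h2
  have h3 := congrArg (polar Q b') (h1.symm.trans h2)
  simp only [polar_sub_right, polar_smul_right, polar_comm (⇑Q) b' b, polar_comm (⇑Q) b' a, hb'.1,
    hq.pair, H5.polar_self', hq.right, mul_zero, smul_eq_mul, mul_one, sub_zero] at h3
  rw [h3, zero_smul, zero_sub, neg_inj] at h1
  exact Submodule.mem_span_singleton.2 ⟨_, h1.symm⟩

section oddDim

variable [Finite F] [Finite V] [FiniteDimensional F V]

/-- `Ω` has no non-trivial scalar in odd dimension. -/
theorem eq_one_of_scalar_commutator (h2 : (2 : F) ≠ 0) (hQ : (polarBilin Q).Nondegenerate)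
    (hodd : Odd (finrank F V)) {k : orth Q} (hk : k ∈ commutator (orth Q)) (hs : H5.IsScalar k) :
    k = 1 := by
  have hstd : Nat.card F ≠ 2 ∨ finrank F V ≠ 4 := Or.inr fun h => by
    rw [h] at hodd; exact absurd hodd (by decide)
  haveI : Nontrivial V := Module.nontrivial_of_finrank_pos (R := F) hodd.pos
  have hd : LinearMap.det ((k : V ≃ₗ[F] V) : V →ₗ[F] V) = 1 := by
    rw [H5.det_eq_dick hQ (by rw [H5.reflGroup_eq_top hQ hstd]; trivial),
      ((H5.mem_commutator_iff hQ hstd).1 hk).1]
    simp
  have hkk := mul_self_eq_one_of_scalar hQ hs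
  obtain ⟨t, ht⟩ := hs
  obtain ⟨x, hx⟩ := exists_ne (0 : V)
  have htt : t * t = 1 := by
    have h1 := congrArg (fun g : orth Q => (g : V ≃ₗ[F] V) x) hkk
    simp only [orth_mul_apply, ht, smul_smul, Subgroup.coe_one, LinearEquiv.coe_one, id_eq] at h1
    exact smul_left_injective F hx (h1.trans (one_smul F x).symm)
  obtain ⟨j, hj⟩ := hodd
  rw [show ((k : V ≃ₗ[F] V) : V →ₗ[F] V) = t • LinearMap.id from LinearMap.ext ht, LinearMap.det_smul,
    hj, LinearMap.det_id, mul_one, pow_succ, pow_mul, sq, htt, one_pow, one_mul] at hd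
  exact orth_ext fun v => by rw [ht, hd, one_smul]; rfl

/-- An involution in `Ω`. -/
theorem exists_involution_commutator (h2 : (2 : F) ≠ 0) (hQ : (polarBilin Q).Nondegenerate)
    (hn : 5 ≤ finrank F V) : ∃ k ∈ commutator (orth Q), k * k = 1 ∧ k ≠ 1 := by
  obtain ⟨a, ha0, ha⟩ := H5.exists_singular hQ (by omega)
  obtain ⟨a', hp⟩ := H5.exists_hypPair hQ ha0 ha
  obtain ⟨b, hb, b', hb', hq⟩ := H5.exists_hypPair_mem (Q := Q) (S := pperp Q a a') (by
    rw [hp.inf_perp hQ, finrank_bot]
    have := hp.finrank_pperp hQ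
    omega)
  rw [mem_pperp] at hb hb'
  have hu : Q (a + a') = 1 := by rw [QuadraticMap.map_add (⇑Q), ha, hp.right, hp.pair]; ring
  have hw : Q (b + b') = 1 := by rw [QuadraticMap.map_add (⇑Q), hq.left, hq.right, hq.pair]; ring
  have hperp : polar Q (a + a') (b + b') = 0 := by
    simp [polar_add_left, polar_add_right, hb.1, hb.2, hb'.1, hb'.2]
  have hu0 : Q (a + a') ≠ 0 := by rw [hu]; exact one_ne_zero
  have hw0 : Q (b + b') ≠ 0 := by rw [hw]; exact one_ne_zero
  have hcomm : refl Q (a + a') * refl Q (b + b') = refl Q (b + b') * refl Q (a + a') :=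
    orth_ext fun x => by
      simp only [orth_mul_apply, refl_apply, polar_sub_right, polar_smul_right, hperp,
        polar_comm (⇑Q) (b + b') (a + a'), smul_eq_mul, mul_zero, sub_zero]
      module
  refine ⟨refl Q (a + a') * refl Q (b + b'),
    (H5.mem_commutator_iff hQ (H5.std_of_five_le hn)).2 ⟨?_, ?_⟩, ?_, ?_⟩
  · rw [H5.dick_refl_mul hQ hu0, H5.dick_refl hQ hw0]; decide
  · rw [map_mul, H5.spin_refl hu0, H5.spin_refl hw0, hu, hw, H5.sqc_one, one_mul]
  · conv_lhs => arg 2; rw [hcomm]
    rw [mul_assoc, ← mul_assoc (refl Q (b + b')), H5.refl_mul_self, one_mul, H5.refl_mul_self]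
  · intro h
    have h1 := congrArg (fun g : orth Q => (g : V ≃ₗ[F] V) (a + a')) h
    simp only [orth_mul_apply, Subgroup.coe_one, LinearEquiv.coe_one, id_eq] at h1
    rw [H5.refl_apply_of_ortho (v := b + b') (x := a + a') (by rw [polar_comm]; exact hperp),
      H5.refl_apply_self hu0,
      neg_eq_iff_add_eq_zero, ← two_smul F, smul_eq_zero] at h1
    exact hu0 (by rw [h1.resolve_left h2, QuadraticMap.map_zero])

/-- `Ω` has no non-trivial normal subgroup of odd order in odd dimension at least five. -/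
theorem eq_bot_of_odd_normal_commutator (h2 : (2 : F) ≠ 0) (hQ : (polarBilin Q).Nondegenerate)
    (hn : 5 ≤ finrank F V) (hodd : Odd (finrank F V)) (M : Subgroup (commutator (orth Q))) [M.Normal]
    (hM : Odd (Nat.card M)) : M = ⊥ := by
  rw [Subgroup.eq_bot_iff_forall]
  intro k hk
  by_cases hs : H5.IsScalar (k : orth Q)
  · exact Subtype.ext (eq_one_of_scalar_commutator h2 hQ hodd k.2 hs)
  have htop := H5.eq_top_of_normal hQ hn M hk hs
  obtain ⟨l, hl, hll, hl1⟩ := exists_involution_commutator h2 hQ hn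
  exact absurd (congrArg Subtype.val (eq_one_of_mul_self hM (h := (⟨l, hl⟩ : commutator (orth Q)))
    (htop ▸ Subgroup.mem_top _) (Subtype.ext hll))) hl1

/-- In dimension three the singular lines are one more than the elements of the field. -/
theorem line_eq_of_dim_three (hQ : (polarBilin Q).Nondegenerate) {e f : V} (hp : HypPair Q e f)
    (h3 : finrank F V = 3) :
    ∃ u ∈ pperp Q e f, Q u ≠ 0 ∧ ∀ x, ∃ γ : F, x = polar Q f x • e + polar Q e x • f + γ • u := by
  have hd := hp.finrank_pperp hQ
  obtain ⟨u, hu, hqu⟩ := H5.exists_anisotropic (hp.inf_perp hQ) (by omega)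
  refine ⟨u, hu, hqu, fun x => ?_⟩
  have hu0 : u ≠ 0 := fun h => hqu (by rw [h, QuadraticMap.map_zero])
  have hs : Submodule.span F {u} = pperp Q e f :=
    Submodule.eq_of_le_of_finrank_eq (by simpa [Submodule.span_le] using hu)
      (by rw [finrank_span_singleton hu0]; omega)
  have hmem := hp.decomp x
  rw [← hs, Submodule.mem_span_singleton] at hmem
  obtain ⟨γ, hγ⟩ := hmem
  exact ⟨γ, by rw [hγ]; abel⟩

/-- A normal subgroup of odd order of `O(Q)` in dimension three fixes every singular line. -/
theorem mem_span_of_odd_normal_three (h2 : (2 : F) ≠ 0) (hQ : (polarBilin Q).Nondegenerate)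
    (h3 : finrank F V = 3) (H : Subgroup (orth Q)) [H.Normal] (hH : Odd (Nat.card H)) {h : orth Q}
    (hh : h ∈ H) {e : V} (he : Q e = 0) : (h : V ≃ₗ[F] V) e ∈ Submodule.span F {e} := by
  classical
  rcases eq_or_ne e 0 with rfl | he0
  · simp
  obtain ⟨f, hp⟩ := H5.exists_hypPair hQ he0 he
  obtain ⟨u, hu, hqu, hdec⟩ := line_eq_of_dim_three hQ hp h3
  rw [mem_pperp] at hu
  by_contra hmove
  have hoff : ∀ y, Q y = 0 → y ∉ Submodule.span F {e} → polar Q e y ≠ 0 := by
    intro y hy hys h0
    obtain ⟨γ, hγ⟩ := hdec y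
    rw [h0, zero_smul, add_zero] at hγ
    have hQy := hy
    rw [hγ, QuadraticMap.map_add (⇑Q), QuadraticMap.map_smul, QuadraticMap.map_smul, he,
      polar_smul_left, polar_smul_right, hu.1] at hQy
    simp only [smul_eq_mul, mul_zero, zero_add, add_zero, mul_eq_zero, or_iff_left hqu, or_self] at hQy
    rw [hQy, zero_smul, add_zero] at hγ
    exact hys (Submodule.mem_span_singleton.2 ⟨_, hγ.symm⟩)
  -- the orbit of the line of `e` is the set of all singular lines
  letI : MulAction H (Submodule F V) :=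
    { smul := fun k W => W.map ((k.1 : V ≃ₗ[F] V) : V →ₗ[F] V)
      one_smul := fun W => Submodule.map_id W
      mul_smul := fun k l W => Submodule.map_comp _ _ W }
  have hsmul : ∀ (k : H) (y : V), k • Submodule.span F {y} = Submodule.span F {(k.1 : V ≃ₗ[F] V) y} :=
    fun k y => (Submodule.map_span _ _).trans (by rw [Set.image_singleton]; rfl)
  let rep : Option F → V := fun o => o.elim e fun t => f + t • u - (t * t * Q u) • e
  have hrep : ∀ t : F, polar Q e (rep (some t)) = 1 ∧ Q (rep (some t)) = 0 ∧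
      polar Q u (rep (some t)) = 2 * Q u * t := fun t => by
    simp only [rep, Option.elim_some]
    refine ⟨?_, ?_, ?_⟩
    · simp [polar_sub_right, polar_add_right, polar_smul_right, hp.pair, hu.1, H5.polar_self', he]
    · rw [sub_eq_add_neg, QuadraticMap.map_add (⇑Q), QuadraticMap.map_add (⇑Q)]
      simp [QuadraticMap.map_smul, polar_add_left, polar_smul_left, polar_smul_right, hp.right,
        he, hu.2, polar_comm (⇑Q) f e, hp.pair, polar_comm (⇑Q) u e, hu.1]
    · simp [polar_sub_right, polar_add_right, polar_smul_right, polar_comm (⇑Q) u f, hu.2,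
        polar_comm (⇑Q) u e, hu.1, H5.polar_self']
      ring
  have horb : MulAction.orbit H (Submodule.span F {e}) =
      Set.range fun o => Submodule.span F {rep o} := by
    ext W
    constructor
    · rintro ⟨k, rfl⟩
      simp only [hsmul]
      set y := (k.1 : V ≃ₗ[F] V) e
      have hy : Q y = 0 := by rw [orth_map, he]
      by_cases hys : y ∈ Submodule.span F {e}
      · refine ⟨none, (Submodule.eq_of_le_of_finrank_eq (by simpa [Submodule.span_le, rep] using hys) ?_).symm⟩
        rw [finrank_span_singleton]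
        · exact (finrank_span_singleton (show rep none ≠ 0 from he0)).symm
        exact fun h0 => he0 ((k.1 : V ≃ₗ[F] V).injective (h0.trans (map_zero _).symm))
      have hb := hoff y hy hys
      obtain ⟨γ, hγ⟩ := hdec y
      set β := polar Q e y
      set α := polar Q f y
      have hQy := hy
      rw [hγ, QuadraticMap.map_add (⇑Q), QuadraticMap.map_add (⇑Q)] at hQy
      simp [QuadraticMap.map_smul, polar_add_left, polar_smul_left, polar_smul_right, he, hp.right,
        hp.pair, hu.1, hu.2] at hQy
      refine ⟨some (γ / β), ?_⟩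
      have hy' : y = β • rep (some (γ / β)) := by
        simp only [rep, Option.elim_some]
        rw [show α = -(γ * γ * Q u) / β by field_simp; linear_combination hQy] at hγ
        rw [hγ, smul_sub, smul_add, smul_smul, smul_smul]
        rw [show β * (γ / β) = γ by field_simp,
          show β * (γ / β * (γ / β) * Q u) = -(-(γ * γ * Q u) / β) by field_simp, neg_smul]
        abel
      rw [hy', Submodule.span_singleton_smul_eq (IsUnit.mk0 _ hb)]
    · rintro ⟨o, rfl⟩
      cases o with
      | none => exact MulAction.mem_orbit_self _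
      | some t =>
        obtain ⟨h1, h0, -⟩ := hrep t
        have hb := hoff _ (by rw [orth_map, he]) hmove
        set c := polar Q e ((h : V ≃ₗ[F] V) e)
        have hp₁ : HypPair Q e (c⁻¹ • (h : V ≃ₗ[F] V) e) :=
          ⟨he, by simp [QuadraticMap.map_smul, orth_map, he], by simp [polar_smul_right, c, hb]⟩
        obtain ⟨a, ha, haf⟩ := H5.exists_eich_map hp₁ (⟨he, h0, h1⟩ : HypPair Q e (rep (some t)))
        refine ⟨⟨eich Q e a * h * (eich Q e a)⁻¹, ‹H.Normal›.conj_mem h hh _⟩, ?_⟩
        simp only [hsmul, orth_mul_apply]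
        have hi : (((eich Q e a)⁻¹ : orth Q) : V ≃ₗ[F] V) e = e := by
          have h0' := H5.orth_inv_apply_apply (eich Q e a) e
          rwa [H5.eich_apply_self (Q := Q) he (mem_pperp.1 ha).1] at h0'
        rw [map_smul] at haf
        rw [hi, show (eich Q e a : V ≃ₗ[F] V) ((h : V ≃ₗ[F] V) e) = c • rep (some t) by
          rw [← haf, smul_smul, mul_inv_cancel₀ hb, one_smul],
          Submodule.span_singleton_smul_eq (IsUnit.mk0 _ hb)]
  have hinj : Function.Injective fun o => Submodule.span F {rep o} := by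
    have hne : ∀ t : F, ∀ c : F, c • e ≠ rep (some t) := fun t c hc => by
      have := congrArg (polar Q e) hc
      rw [(hrep t).1, polar_smul_right, H5.polar_self', he, mul_zero, smul_zero] at this
      exact zero_ne_one this
    intro o o' hoo
    obtain ⟨c, hc⟩ : ∃ c : F, c • rep o' = rep o :=
      Submodule.mem_span_singleton.1 ((show Submodule.span F {rep o} = Submodule.span F {rep o'} from hoo) ▸
        Submodule.mem_span_singleton_self _)
    rcases o with _ | t <;> rcases o' with _ | t'
    · rfl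
    · have h1 := congrArg (polar Q e) hc
      rw [polar_smul_right, (hrep t').1, show rep none = e from rfl, H5.polar_self', he, mul_zero,
        smul_eq_mul, mul_one] at h1
      rw [h1, zero_smul] at hc
      exact absurd hc.symm he0
    · exact absurd hc (hne t c)
    · have h1 := congrArg (polar Q e) hc
      rw [polar_smul_right, (hrep t').1, (hrep t).1, smul_eq_mul, mul_one] at h1
      rw [h1, one_smul] at hc
      have h4 := congrArg (polar Q u) hc
      rw [(hrep t').2.2, (hrep t).2.2] at h4
      rw [mul_left_cancel₀ (mul_ne_zero h2 hqu) h4]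
  have hdvd : Nat.card F + 1 ∣ Nat.card H := by
    have h5 := MulAction.index_stabilizer H (Submodule.span F {e})
    rw [horb, Set.ncard_range_of_injective hinj, Finite.card_option] at h5
    exact h5 ▸ Subgroup.index_dvd_card _
  haveI := Fintype.ofFinite F
  have hq : Odd (Nat.card F) := by
    rw [Nat.card_eq_fintype_card, Nat.odd_iff]
    exact FiniteField.odd_card_of_char_ne_two fun hc => h2 (by
      haveI := ringChar.of_eq hc; exact CharTwo.two_eq_zero)
  exact Nat.not_odd_iff_even.2 hq.add_one (hH.of_dvd_nat hdvd)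

/-- `O(Q)` has no non-trivial normal subgroup of odd order in odd dimension. -/
theorem eq_bot_of_odd_normal_orth (h2 : (2 : F) ≠ 0) (hQ : (polarBilin Q).Nondegenerate)
    (hodd : Odd (finrank F V)) (H : Subgroup (orth Q)) [H.Normal] (hH : Odd (Nat.card H)) : H = ⊥ := by
  rw [Subgroup.eq_bot_iff_forall]
  intro h hh
  refine eq_one_of_mul_self hH hh (mul_self_eq_one_of_scalar hQ ?_)
  obtain ⟨j, hj⟩ := hodd
  rcases (show j = 0 ∨ j = 1 ∨ 2 ≤ j by omega) with rfl | rfl | hj2
  · obtain ⟨v, hv, hspan⟩ := finrank_eq_one_iff'.1 (show finrank F V = 1 by omega)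
    obtain ⟨t, ht⟩ := hspan ((h : V ≃ₗ[F] V) v)
    refine ⟨t, fun x => ?_⟩
    obtain ⟨c, rfl⟩ := hspan x
    rw [map_smul, ← ht, smul_comm]
  · have h3 : finrank F V = 3 := by omega
    have hfix := fun x (hx : Q x = 0) => mem_span_of_odd_normal_three h2 hQ h3 H hH hh hx
    obtain ⟨e, he0, he⟩ := H5.exists_singular hQ (by omega)
    obtain ⟨f, hp⟩ := H5.exists_hypPair hQ he0 he
    exact H5.isScalar_of_fix_singular hQ (by omega) hp h hfix
  · have hn : 5 ≤ finrank F V := by omega
    set M := H.subgroupOf (commutator (orth Q))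
    have hM : M = ⊥ := eq_bot_of_odd_normal_commutator h2 hQ hn ⟨j, hj⟩ M (hH.of_dvd_nat (by
      refine Subgroup.card_dvd_of_injective
        (((commutator (orth Q)).subtype.comp M.subtype).codRestrict H fun s => s.2)
        fun a b hab => Subtype.ext (Subtype.ext (congrArg (fun x : H => (x : orth Q)) hab))))
    refine H5.isScalar_of_centralize hQ (by omega) (H5.std_of_five_le hn) fun g hg => ?_
    have hc : h * g * h⁻¹ * g⁻¹ ∈ commutator (orth Q) :=
      mul_mem ((inferInstance : (commutator (orth Q)).Normal).conj_mem g hg h) (inv_mem hg)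
    have hmem : (⟨_, hc⟩ : commutator (orth Q)) ∈ M := by
      rw [Subgroup.mem_subgroupOf]
      change h * g * h⁻¹ * g⁻¹ ∈ H
      rw [mul_assoc h g, mul_assoc h (g * h⁻¹)]
      exact mul_mem hh (‹H.Normal›.conj_mem _ (inv_mem hh) g)
    rw [hM, Subgroup.mem_bot, Subtype.ext_iff, Subgroup.coe_one, mul_inv_eq_one,
      mul_inv_eq_iff_eq_mul] at hmem
    exact hmem

end oddDim

section ext

variable [FiniteDimensional F V] (hQ : (polarBilin Q).Nondegenerate) {W : Submodule F V}
  (hW : W ⊓ H5.perp Q W = ⊥)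

/-- An isometry of a non-degenerate subspace, extended by the identity on the orthogonal complement. -/
noncomputable def extHom : orth (Q.restrict W) →* orth Q :=
  let E := Submodule.prodEquivOfIsCompl W (H5.perp Q W)
    ⟨disjoint_iff.2 hW, codisjoint_iff.2 (H5.sup_perp_eq_top hQ hW)⟩
  { toFun := fun k => ⟨E.symm.trans (((k : W ≃ₗ[F] W).prodCongr (LinearEquiv.refl F _)).trans E),
      fun x => by
        obtain ⟨⟨w, u⟩, rfl⟩ := E.surjective x
        simp only [LinearEquiv.trans_apply, LinearEquiv.symm_apply_apply, LinearEquiv.prodCongr_apply,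
          LinearEquiv.refl_apply]
        simp only [E, Submodule.coe_prodEquivOfIsCompl']
        rw [QuadraticMap.map_add (⇑Q), QuadraticMap.map_add (⇑Q),
          H5.mem_perp.1 u.2 _ w.2, H5.mem_perp.1 u.2 _ ((k : W ≃ₗ[F] W) w).2]
        exact congrArg (fun z => z + Q (u : V) + 0) (orth_map k w)⟩
    map_one' := orth_ext fun x => by
      obtain ⟨y, rfl⟩ := E.surjective x
      simp
    map_mul' := fun a b => orth_ext fun x => by
      obtain ⟨y, rfl⟩ := E.surjective x
      simp [orth_mul_apply] }

theorem extHom_apply (k : orth (Q.restrict W)) (w : W) :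
    (extHom hQ hW k : V ≃ₗ[F] V) w = ((k : W ≃ₗ[F] W) w : V) := by
  simp [extHom, Submodule.coe_prodEquivOfIsCompl']

theorem extHom_apply_perp (k : orth (Q.restrict W)) {u : V} (hu : u ∈ H5.perp Q W) :
    (extHom hQ hW k : V ≃ₗ[F] V) u = u := by
  simp only [extHom, MonoidHom.coe_mk, OneHom.coe_mk, LinearEquiv.trans_apply]
  rw [show u = ((⟨u, hu⟩ : H5.perp Q W) : V) from rfl,
    Submodule.prodEquivOfIsCompl_symm_apply_right]
  simp [Submodule.coe_prodEquivOfIsCompl']

theorem extHom_refl (w : W) : extHom hQ hW (refl (Q.restrict W) w) = refl Q (w : V) := by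
  refine orth_ext fun x => ?_
  obtain ⟨a, ha, u, hu, rfl⟩ := H5.exists_split hQ hW x
  rw [map_add, map_add, show a = ((⟨a, ha⟩ : W) : V) from rfl, extHom_apply,
    extHom_apply_perp hQ hW _ hu, H5.refl_apply_of_ortho (H5.mem_perp.1 hu _ w.2), refl_apply,
    refl_apply]
  rfl

theorem extHom_injective : Function.Injective (extHom hQ hW) := fun k l h =>
  orth_ext fun w => Subtype.ext (by rw [← extHom_apply hQ hW, h, extHom_apply])

theorem dick_spin_extHom [Finite F] [Finite V] (hstd : Nat.card F ≠ 2) (k : orth (Q.restrict W)) :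
    dick (extHom hQ hW k) = dick k ∧ spin Q (extHom hQ hW k) = spin (Q.restrict W) k := by
  have hW' := H5.restrict_nondegenerate hW
  have hk : k ∈ H5.reflGroup (Q.restrict W) := by
    rw [H5.reflGroup_eq_top hW' (Or.inl hstd)]; trivial
  refine H5.reflGroup_induction (p := fun k =>
    dick (extHom hQ hW k) = dick k ∧ spin Q (extHom hQ hW k) = spin (Q.restrict W) k) ?_ ?_ hk
  · rw [map_one, map_one, map_one, H5.dick_one, H5.dick_one]; exact ⟨rfl, rfl⟩
  · intro w l hw _ ih
    have hw' : Q (w : V) ≠ 0 := hw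
    rw [map_mul, extHom_refl, H5.dick_refl_mul hQ hw', H5.dick_refl_mul hW' hw, map_mul, map_mul,
      H5.spin_refl hw', H5.spin_refl hw, ih.1, ih.2]
    exact ⟨rfl, rfl⟩

end ext

/-- Commuting modulo scalars with a perfect group of linear similarities is commuting. -/
theorem commute_of_perfect [Nontrivial V] {P : Type*} [Group P] (hP : commutator P = ⊤)
    (φ : P →* semiSimGroup Q) (hφ : ∀ k, φ k ∈ linSim Q) (g : semiSimGroup Q)
    (hg : ∀ k, ∃ d : F, ∀ v, (g : Equiv.Perm V) ((φ k : Equiv.Perm V) v) =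
      d • (φ k : Equiv.Perm V) ((g : Equiv.Perm V) v)) (k : P) (v : V) :
    (g : Equiv.Perm V) ((φ k : Equiv.Perm V) v) = (φ k : Equiv.Perm V) ((g : Equiv.Perm V) v) := by
  choose d hd using hg
  obtain ⟨w, hw⟩ := exists_ne (0 : V)
  have hu : ∀ k, ∀ z, (φ k : Equiv.Perm V) z = 0 → z = 0 := fun k z hz =>
    (linSimEquiv (⟨φ k, hφ k⟩ : linSim Q)).injective ((linSimEquiv_apply _ z).trans hz |>.trans (map_zero _).symm)
  have hg0 : (g : Equiv.Perm V) w ≠ 0 := fun h0 =>
    hw ((simEquiv g).injective ((simEquiv_apply g w).trans h0 |>.trans (map_zero _).symm))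
  have hd0 : ∀ k, d k ≠ 0 := fun k h0 => by
    obtain ⟨z, hz⟩ := (φ k : Equiv.Perm V).surjective w
    refine hg0 ?_
    rw [← hz, hd, h0, zero_smul]
  have hne : ∀ k, (φ k : Equiv.Perm V) ((g : Equiv.Perm V) w) ≠ 0 := fun k h => hg0 (hu k _ h)
  have hmul : ∀ k l, d (k * l) = d k * d l := fun k l => by
    have h1 := hd (k * l) w
    rw [map_mul, Subgroup.coe_mul, Equiv.Perm.mul_apply, Equiv.Perm.mul_apply, hd k, hd l,
      hφ k (d l), smul_smul] at h1
    exact (smul_left_injective F (fun h => hne l (hu k _ h)) h1).symm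
  have h1 : d 1 = 1 := (mul_eq_left₀ (hd0 1)).1 (by rw [← hmul, mul_one])
  let δ : P →* Fˣ :=
    { toFun := fun k => Units.mk0 (d k) (hd0 k)
      map_one' := Units.ext h1
      map_mul' := fun k l => Units.ext (hmul k l) }
  have hker : δ.ker = ⊤ := top_unique (hP ▸ Abelianization.commutator_subset_ker δ)
  have hk : δ k = 1 := by rw [← MonoidHom.mem_ker, hker]; trivial
  rw [hd, show d k = 1 from congrArg Units.val hk, one_smul]

end Cfsg.Agent.H4.LocalBalance
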