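import Cfsg.Agent.H4.LocalBalance.FieldCore
import Cfsg.Agent.H4.LocalBalance.Transfer
import Cfsg.Agent.H4.Coset.Odd

/-!
Local balance in almost simple groups with socle `Ω(2m+1, q)`.
-/

set_option autoImplicit false

namespace Cfsg.Agent.H4.LocalBalance

open QuadraticMap hiding sq
open Module
open scoped Matrix

variable {F : Type*} [Field F] [Fintype F] {m : ℕ}

/-- Outside the inner diagonal group everything of prime order is a field automorphism. -/
theorem odd_isFieldAutClass (h2 : (2 : F) ≠ 0) (hm : 3 ≤ m)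
    {x : MulAut (Cfsg.POmega F (Cfsg.quadFormOdd m F))} {p : ℕ} (hp : p.Prime)
    (hord : orderOf x = p) (hnot : ¬ Cfsg.IsInnerDiagonalAutPOmegaOdd m x) :
    Cfsg.IsFieldAutClassPOmega (Cfsg.quadFormOdd m F) x := by
  haveI := Fact.mk hp
  have hh := autHyp_qOdd' h2 hm
  haveI := hh.nontrivial
  haveI : Finite (Unit ⊕ (Fin m ⊕ Fin m) → F) := Pi.finite
  obtain ⟨g, rfl⟩ := indHom_surjective (qOdd m F) (coe_qOdd m) hh x
  set σ := simSigma g with hσdef
  have hne : σ ≠ 1 := by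
    intro h1
    refine hnot ?_
    have hl : ∀ (t : F) v, simEquiv g (t • v) = t • simEquiv g v := fun t v => by
      rw [(isSemiSim g).map_smul, ← hσdef, h1]; rfl
    set M := semiMatrix (simEquiv g) (RingEquiv.refl F) hl
    have hMv : ∀ v, (M : Matrix _ _ F) *ᵥ v = (g : Equiv.Perm _) v := fun v =>
      semiMatrix_mulVec (simEquiv g) (RingEquiv.refl F) hl v
    exact ⟨M, ⟨Units.mk0 _ (isSemiSim g).ne_zero, fun v => by
        rw [Units.val_mk0, hMv, ← coe_qOdd]; exact linSim_app _ ⟨g, hl⟩ v⟩,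
      (induced_iff _ (coe_qOdd m) g M _ hMv _).2 rfl⟩
  set S := stdSigma (qOdd m F) (qOdd_rational σ)
  have hL : g * S⁻¹ ∈ linSim (qOdd m F) := by
    intro t v
    simp only [Subgroup.coe_mul, Subgroup.coe_inv, Equiv.Perm.mul_apply]
    rw [show ((S : Equiv.Perm _))⁻¹ (t • v) = σ.symm t • ((S : Equiv.Perm _))⁻¹ v by
      apply (S : Equiv.Perm _).injective
      rw [Equiv.Perm.inv_def, Equiv.apply_symm_apply, stdSigma_apply, coordSigma_smul,
        RingEquiv.apply_symm_apply, ← stdSigma_apply _ (qOdd_rational σ)]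
      exact congrArg _ (Equiv.apply_symm_apply _ v).symm, ← simEquiv_apply, (isSemiSim g).map_smul,
      simEquiv_apply, ← hσdef, RingEquiv.apply_symm_apply]
  have hσ : orderOf σ = p := by
    refine orderOf_eq_prime ?_ hne
    have hg : indHom (qOdd m F) (coe_qOdd m) g ^ p = 1 := hord ▸ pow_orderOf_eq_one _
    rw [← map_pow, indHom_eq_one_iff _ _ hh] at hg
    obtain ⟨d, hd⟩ := hg
    rw [hσdef, ← simSigma_pow]
    exact simSigma_eq fun t v => by rw [hd, hd, smul_comm]; rfl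
  obtain ⟨H, hH⟩ := odd_lang h2 hm hσ ⟨_, hL⟩ (by
    rw [oddStd, ← map_mul, inv_mul_cancel_right, ← hord, pow_orderOf_eq_one])
  rw [oddStd, ← map_mul, inv_mul_cancel_right] at hH
  refine ⟨(indHom (qOdd m F) (coe_qOdd m) H.1)⁻¹, indHom (qOdd m F) (coe_qOdd m) S, σ, hne, ?_, ?_⟩
  · rw [fieldAutOf_iff _ (coe_qOdd m) (qOdd_rational σ)]
  · rw [hH, inv_inv]
    group
    rfl

theorem odd_local_balance (h2 : (2 : F) ≠ 0) (hm : 3 ≤ m)
    (A : Subgroup (MulAut (Cfsg.POmega F (Cfsg.quadFormOdd m F))))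
    (hinn : ∀ k : Cfsg.POmega F (Cfsg.quadFormOdd m F), MulAut.conj k ∈ A) {p : ℕ} [Fact p.Prime]
    (x : MulAut (Cfsg.POmega F (Cfsg.quadFormOdd m F))) (hxA : x ∈ A) (hord : orderOf x = p)
    (hnot : ¬ Cfsg.IsInnerDiagonalAutPOmegaOdd m x) :
    Cfsg.pPrimeCore p ↥(A ⊓ Subgroup.centralizer {x}) ≠ ⊥ ↔
      (Cfsg.IsFieldAutClassPOmega (Cfsg.quadFormOdd m F) x ∧ Nat.Coprime p (Nat.card
        ↥(MonoidHom.eqLocus x.toMonoidHom (MonoidHom.id (Cfsg.POmega F (Cfsg.quadFormOdd m F)))))) := by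
  classical
  have hx := odd_isFieldAutClass h2 hm Fact.out hord hnot
  rw [and_iff_right hx]
  obtain ⟨a, σ, hσx, hσ⟩ := exists_oddStd h2 hm hx
  rw [hord] at hσ
  obtain ⟨h1, h2', h3, h4⟩ := criterion_conj hinn hxA a p
  rw [hσx] at h2' h3 h4
  rw [h3, h4]
  obtain ⟨K, hK, -⟩ := exists_fixed_embedding σ
  haveI := Fintype.ofFinite K
  have hh := autHyp_qOdd' h2 hm
  haveI := hh.nontrivial
  have hhK := (autHyp_qOdd' (F := K) (two_ne_zero_of_embedding (e := K.subtype) h2) hm).toFormHyp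
  haveI := hhK.nontrivial
  haveI := inndiag_odd_normal (F := F) h2 hm
  refine field_core_iff (coe_qOdd m) hh.toFormHyp hhK hK (qOdd_base K.subtype) (qOdd_rational σ)
    (D := Cfsg.inndiagPOmegaOdd m F) ?_ h1 hσ h2' ?_ ?_ ?_
  · rw [inndiag_odd_eq h2 hm]
    intro β hβ
    obtain ⟨g, rfl⟩ := exists_indHom_of_inn _ (coe_qOdd m) hβ
    obtain ⟨d, k, -, hd⟩ := (indHom_mem_inn_iff _ (coe_qOdd m) hh g).1 hβ
    exact ⟨g, fun t v => by rw [hd, hd, map_smul, smul_comm], rfl⟩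
  · rw [inndiag_odd_eq h2 hm]
    rintro ⟨g, hg, he⟩
    obtain ⟨d, hd⟩ := exists_smul_of_indHom_eq _ _ hh he.symm
    have h5 : simSigma (stdSigma (qOdd m F) (qOdd_rational σ)) = 1 := simSigma_eq fun t v => by
      rw [hd, hd, hg, smul_comm]; rfl
    rw [simSigma_eq (σ := σ) fun t v => coordSigma_smul σ t v] at h5
    rw [h5, orderOf_one] at hσ
    exact (Fact.out : p.Prime).ne_one hσ.symm
  · intro d hd
    rw [show indHom (qOdd m F) (coe_qOdd m) (stdSigma (qOdd m F) (qOdd_rational σ)) =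
      oddStd F m σ from rfl, oddBase_range h2 hm hK] at hd
    obtain ⟨k, rfl⟩ := hd
    exact ⟨k, rfl⟩
  · intro g _ _
    obtain ⟨g₀, hg₀⟩ := indHom_surjective _ (coe_qOdd m) hh g
    exact ⟨g₀, hg₀.symm⟩

end Cfsg.Agent.H4.LocalBalance
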