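import Cfsg.Agent.H4.LocalBalance.SympCent
import Cfsg.Agent.H4.LocalBalance.Criterion
import Cfsg.Agent.H4.LocalBalance.Transfer
import Cfsg.Agent.H4.LocalBalance.FieldCore

/-!
Local balance in almost simple groups with socle `PSp(2m, q)`.
-/

set_option autoImplicit false

namespace Cfsg.Agent.H4.LocalBalance

open Matrix MulAction Cfsg.Agent.H2 Cfsg.Agent.H2.AutPSp
open scoped LinearAlgebra.Projectivization

variable {m : ℕ} {F : Type*} [Field F]

/-- Inner automorphisms determine the element. -/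
theorem conj_injective_psp [Finite F] (hm : 2 ≤ m) :
    Function.Injective (MulAut.conj : Cfsg.PSp m F →* MulAut (Cfsg.PSp m F)) := by
  rw [← MonoidHom.ker_eq_bot_iff, eq_bot_iff]
  intro y hy
  obtain ⟨s, rfl⟩ := QuotientGroup.mk'_surjective _ y
  rw [MonoidHom.mem_ker, ← semiAut_spUnit, semiAut_eq_one_iff hm] at hy
  obtain ⟨-, a, ha⟩ := hy
  refine (QuotientGroup.eq_one_iff s).2 (Subgroup.mem_center_iff.2 fun t => Subtype.ext ?_)
  change (t : Matrix (Fin m ⊕ Fin m) (Fin m ⊕ Fin m) F) * (s : Matrix (Fin m ⊕ Fin m) (Fin m ⊕ Fin m) F) =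
    (s : Matrix (Fin m ⊕ Fin m) (Fin m ⊕ Fin m) F) * (t : Matrix (Fin m ⊕ Fin m) (Fin m ⊕ Fin m) F)
  rw [show (s : Matrix (Fin m ⊕ Fin m) (Fin m ⊕ Fin m) F) = Matrix.scalar _ (a : F) from congrArg Units.val ha,
    show Matrix.scalar (Fin m ⊕ Fin m) (a : F) = (a : F) • 1 by simp [Matrix.smul_one_eq_diagonal]]
  simp

/-- Outside the inner diagonal group everything of prime order is a field automorphism. -/
theorem psp_isFieldAutClass [Finite F] {r : ℕ} [Fact r.Prime] [CharP F r] (hm : 2 ≤ m)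
    {x : MulAut (Cfsg.PSp m F)} {p : ℕ} (hp : p.Prime) (hpr : p ≠ r) (hord : orderOf x = p)
    (hnot : ¬ Cfsg.IsInnerDiagonalAutPSp x) : Cfsg.IsFieldAutClassPSp x := by
  haveI := Fact.mk hp
  obtain ⟨g, hg, σ, rfl⟩ : ∃ (g : GL (Fin m ⊕ Fin m) F) (hg : g ∈ Cfsg.GSp m F) (σ : F ≃+* F),
      x = semiAut g hg σ := by
    by_cases h22 : m = 2 → (2 : F) ≠ 0
    · exact exists_semilinear hm h22 x
    push Not at h22
    obtain ⟨rfl, h2⟩ := h22
    have hp2 : p ≠ 2 := fun h => hpr (by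
      rw [h]
      haveI := CharTwo.of_one_ne_zero_of_two_eq_zero (R := F) one_ne_zero h2
      exact CharP.eq F (inferInstance : CharP F 2) ‹CharP F r›)
    refine exists_semilinear_of_preserves le_rfl x ?_
    have hsq : ∀ y, IsPTransv y → IsPTransv ((x * x) y) := by
      intro y hy
      by_cases hx : ∀ y, IsPTransv y → IsPTransv (x y)
      · exact hx _ (hx y hy)
      have hx' : ¬ ∀ y, IsPTransv y → IsPTransv (x⁻¹ y) := fun h => hx fun y hy => by
        have := isPTransv_symm x⁻¹ h y hy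
        simpa using this
      have := preserves_inv_mul h2 hx hx' y hy
      simpa using this
    obtain ⟨j, hj⟩ := hp.odd_of_ne_two hp2
    have hx : x = (x * x) ^ (j + 1) := by
      rw [← sq, ← pow_mul, show 2 * (j + 1) = orderOf x + 1 by omega, pow_succ, pow_orderOf_eq_one,
        one_mul]
    rw [hx]
    generalize j + 1 = n
    induction n with
    | zero => intro y hy; simpa using hy
    | succ n ih => intro y hy; rw [pow_succ']; exact hsq _ (ih y hy)
  have hne : σ ≠ 1 := fun h => hnot ⟨g, hg, by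
    subst h
    exact semiAut_induced g hg _⟩
  have hpow : semiAut g hg σ ^ p = 1 := hord ▸ pow_orderOf_eq_one _
  have hσ : orderOf σ = p := by
    refine orderOf_eq_prime ?_ hne
    have h := hpow
    rw [semiAut_pow, semiAut_eq_one_iff hm] at h
    exact h.1
  obtain ⟨c, -, hc⟩ := isConjUnder_of_orderOf hm σ hg (by rw [hσ]; exact hpow)
  refine ⟨c⁻¹, σ, hne, ?_⟩
  rw [hc, show c⁻¹ * (c * fieldHom m F σ * c⁻¹) * c⁻¹⁻¹ = fieldHom m F σ by group]
  intro s s' hs
  have h : s' = semiHom 1 (one_mem _) σ s := Subtype.ext (hs.trans (by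
    show _ = semiMat 1 σ _
    simp [semiMat]))
  rw [h]
  exact semiAut_mk 1 (one_mem _) σ s

/-- A non-trivial normal subgroup of `PSp(4, 2)` has order divisible by `15`. -/
theorem fifteen_dvd_card {K : Type*} [Field K] [Finite K] (hK : Nat.card K = 2)
    (M : Subgroup (Cfsg.PSp 2 K)) (hM : M.Normal) (hne : M ≠ ⊥) : 15 ∣ Nat.card M := by
  haveI : Finite (Matrix.symplecticGroup (Fin 2) K) :=
    Finite.of_injective (fun s => (s : Matrix (Fin 2 ⊕ Fin 2) (Fin 2 ⊕ Fin 2) K)) Subtype.val_injective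
  haveI : Finite (Cfsg.PSp 2 K) := Quotient.finite _
  obtain ⟨g, hg, hg1⟩ : ∃ g ∈ M, g ≠ 1 := by
    by_contra! h
    exact hne ((Subgroup.eq_bot_iff_forall M).2 h)
  haveI : IsPretransitive M (ℙ K (Fin 2 ⊕ Fin 2 → K)) := by
    refine IsQuasiPreprimitive.isPretransitive_of_normal (N := M) fun h => hg1 ?_
    refine FaithfulSMul.eq_of_smul_eq_smul (α := ℙ K (Fin 2 ⊕ Fin 2 → K)) fun p => ?_
    have hp : p ∈ fixedPoints M (ℙ K (Fin 2 ⊕ Fin 2 → K)) := by rw [h]; trivial
    rw [one_smul]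
    exact hp ⟨g, hg⟩
  have h0 : (Pi.single (Sum.inl 0) 1 : Fin 2 ⊕ Fin 2 → K) ≠ 0 := by simp
  have hidx := MulAction.index_stabilizer_of_transitive M
    (Projectivization.mk K _ h0)
  have hcard : Nat.card (ℙ K (Fin 2 ⊕ Fin 2 → K)) = 15 := by
    have h := Projectivization.card K (Fin 2 ⊕ Fin 2 → K)
    rw [Nat.card_fun, hK] at h
    simp at h
    omega
  exact ⟨Nat.card (stabilizer M (Projectivization.mk K _ h0)), by
    rw [← hcard, ← hidx, mul_comm, Subgroup.card_mul_index]⟩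

theorem psp_local_balance [Fintype F] {r : ℕ} [Fact r.Prime] [CharP F r] (hm : 2 ≤ m)
    (A : Subgroup (MulAut (Cfsg.PSp m F))) (hinn : ∀ k : Cfsg.PSp m F, MulAut.conj k ∈ A)
    {p : ℕ} [Fact p.Prime] (hpr : p ≠ r) (x : MulAut (Cfsg.PSp m F)) (hxA : x ∈ A)
    (hord : orderOf x = p) (hnot : ¬ Cfsg.IsInnerDiagonalAutPSp x) :
    Cfsg.pPrimeCore p ↥(A ⊓ Subgroup.centralizer {x}) ≠ ⊥ ↔
      (Cfsg.IsFieldAutClassPSp x ∧ Nat.Coprime p (Nat.card
        ↥(MonoidHom.eqLocus x.toMonoidHom (MonoidHom.id (Cfsg.PSp m F))))) := by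
  classical
  have hp : p.Prime := Fact.out
  have hx := psp_isFieldAutClass hm hp hpr hord hnot
  rw [and_iff_right hx]
  obtain ⟨a, σ, hσ1, hσx, hσ⟩ := exists_std hm hx
  rw [hord] at hσ
  obtain ⟨h1, hAx, h3, h4⟩ := criterion_conj hinn hxA a p
  rw [hσx] at hAx h3 h4
  rw [h3, h4]
  obtain ⟨K, hK, hKcard⟩ := H23.Descent.exists_fixedField σ
  haveI := Fintype.ofFinite K
  have hι : ∀ y, σ y = y ↔ y ∈ K.subtype.range := fun y =>
    ⟨fun h => ⟨⟨y, (hK y).2 h⟩, rfl⟩, fun ⟨z, hz⟩ => hz ▸ (hK _).1 z.2⟩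
  haveI : Finite (Matrix.symplecticGroup (Fin m) F) :=
    Finite.of_injective (fun s => (s : Matrix (Fin m ⊕ Fin m) (Fin m ⊕ Fin m) F)) Subtype.val_injective
  haveI : Finite (Cfsg.PSp m F) := Quotient.finite _
  haveI : Finite (Matrix.symplecticGroup (Fin m) K) :=
    Finite.of_injective (fun s => (s : Matrix (Fin m ⊕ Fin m) (Fin m ⊕ Fin m) K)) Subtype.val_injective
  haveI : Nontrivial (Cfsg.PSp m K) := psp_nontrivial (by omega)
  set S := (baseSp m K.subtype).range
  set x' := fieldHom m F σ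
  have hord' : orderOf x' = p := by
    rw [← hσx, ← MulAut.conj_apply, MulEquiv.orderOf_eq, hord]
  have hSle : S ≤ Cfsg.Inn (Cfsg.PSp m F) ⊓ Subgroup.centralizer {x'} := le_inf
    (by rintro _ ⟨s, rfl⟩; exact baseSp_mem_inn _ s) (baseSp_le_centralizer hm K.subtype hι)
  have hHG : ∀ d ∈ Cfsg.inndiagPSp m F ⊓ Subgroup.centralizer {x'},
      ∃ k : Cfsg.GSp m K, subfieldHom m K.subtype k = d := fun d hd => by
    rw [← range_subfieldHom hm σ K.subtype hι] at hd
    exact hd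
  have hSn : ∀ h ∈ Cfsg.inndiagPSp m F ⊓ Subgroup.centralizer {x'}, ∀ s ∈ S, h * s * h⁻¹ ∈ S := by
    rintro h hh _ ⟨s, rfl⟩
    obtain ⟨k, rfl⟩ := hHG h hh
    obtain ⟨c, hc⟩ := k.2
    have hs : (((k * spToGSp m K s * k⁻¹ : Cfsg.GSp m K) : GL (Fin m ⊕ Fin m) K) :
        Matrix (Fin m ⊕ Fin m) (Fin m ⊕ Fin m) K) ∈ Matrix.symplecticGroup (Fin m) K := by
      rw [mem_symplecticGroup_iff]
      intro u v
      have hk : ∀ w, (((k : Cfsg.GSp m K) : GL (Fin m ⊕ Fin m) K) : Matrix (Fin m ⊕ Fin m) (Fin m ⊕ Fin m) K) *ᵥ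
          ((((k⁻¹ : Cfsg.GSp m K) : GL (Fin m ⊕ Fin m) K) : Matrix (Fin m ⊕ Fin m) (Fin m ⊕ Fin m) K) *ᵥ w) = w :=
        fun w => by
          rw [mulVec_mulVec, ← Units.val_mul, ← Subgroup.coe_mul, mul_inv_cancel, Subgroup.coe_one,
            Units.val_one, one_mulVec]
      conv_rhs => rw [← hk u, ← hk v, hc]
      rw [Subgroup.coe_mul, Subgroup.coe_mul, Units.val_mul, Units.val_mul, ← mulVec_mulVec,
        ← mulVec_mulVec, ← mulVec_mulVec, ← mulVec_mulVec, hc]
      congr 1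
      exact sympForm_mulVec s _ _
    refine ⟨⟨_, hs⟩, ?_⟩
    rw [baseSp, MonoidHom.comp_apply, MonoidHom.comp_apply, ← map_inv, ← map_mul, ← map_mul]
    exact congrArg _ (Subtype.ext (Units.ext rfl))
  have hcent : ∀ g ∈ Subgroup.centralizer {x'}, (∀ s ∈ S, g * s = s * g) →
      g ∈ Subgroup.zpowers x' := by
    intro g _ hg
    obtain ⟨τ, hτ, rfl⟩ := exists_fieldHom_of_commute hm K.subtype g fun s => hg _ ⟨s, rfl⟩
    obtain ⟨j, rfl⟩ := Subgroup.mem_zpowers_iff.1 (mem_zpowers_of_fix (σ := σ) fun y hy => by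
      obtain ⟨b, rfl⟩ := (hι y).1 hy
      exact hτ b)
    rw [map_zpow]
    exact zpow_mem (Subgroup.mem_zpowers _) j
  have hxD : x' ∉ Cfsg.inndiagPSp m F := by
    intro h
    obtain ⟨g, hg, he⟩ := mem_inndiag_iff.1 h
    exact hσ1 ((semiAut_eq_iff hm _ hg _ _).1 he).1
  haveI hDn : (Cfsg.inndiagPSp m F).Normal := ⟨fun _ hd a => inndiag_conj_mem hm a hd⟩
  by_cases hsm : m = 2 ∧ Nat.card K = 2
  · -- the subfield group is `PSp(4, 2)`
    obtain ⟨rfl, hK2⟩ := hsm
    haveI : Nontrivial S := (baseSpEquiv le_rfl K.subtype).toEquiv.symm.nontrivial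
    refine core_iff_of_invariant (conj_injective_psp le_rfl) h1 hord' S hSle ?_ ?_
      (fun g hg => hcent g hg.2)
    · intro g hg s hs
      obtain ⟨k, hk⟩ := hHG (g * s * g⁻¹) ⟨hDn.conj_mem s (inn_le_inndiag (hSle hs).1) g,
        Subgroup.mul_mem _ (Subgroup.mul_mem _ hg.2 (hSle hs).2) (Subgroup.inv_mem _ hg.2)⟩
      obtain ⟨c, hc⟩ := k.2
      have hc1 : c = 1 := by
        have hu : Nat.card (K : Type _)ˣ = 1 := by rw [Nat.card_units, hK2]
        haveI := (Nat.card_eq_one_iff_unique.1 hu).1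
        exact Subsingleton.elim _ _
      have hmem : ((k.1 : GL (Fin 2 ⊕ Fin 2) K) : Matrix (Fin 2 ⊕ Fin 2) (Fin 2 ⊕ Fin 2) K) ∈
          Matrix.symplecticGroup (Fin 2) K := by
        rw [mem_symplecticGroup_iff]
        intro u v
        rw [hc, hc1, Units.val_one, one_mul]
      exact ⟨⟨_, hmem⟩, (congrArg (subfieldHom 2 K.subtype)
        (Subtype.ext (Units.ext rfl) : spToGSp 2 K ⟨_, hmem⟩ = k)).trans hk⟩
    · intro M hM hne hdvd
      let e := baseSpEquiv (K := K) le_rfl K.subtype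
      have h15 : 15 ∣ Nat.card M := by
        have := fifteen_dvd_card hK2 (M.comap e.toMonoidHom) (hM.comap _) fun h => hne (by
          rw [← Subgroup.map_comap_eq_self_of_surjective (f := e.toMonoidHom) e.surjective M, h,
            Subgroup.map_bot])
        rwa [Nat.card_congr (Subgroup.equivMapOfInjective _ e.toMonoidHom e.injective).toEquiv,
          Subgroup.map_comap_eq_self_of_surjective (f := e.toMonoidHom) e.surjective M] at this
      refine dvd_trans ?_ h15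
      have hle : Cfsg.Inn (Cfsg.PSp 2 F) ⊓ Subgroup.centralizer {x'} ≤
          Cfsg.inndiagPSp 2 F ⊓ Subgroup.centralizer {x'} := inf_le_inf_right _ inn_le_inndiag
      rw [← range_subfieldHom le_rfl σ K.subtype hι] at hle
      have h1' := (hdvd.trans (Subgroup.card_dvd_of_le hle)).trans
        (Subgroup.card_range_dvd (subfieldHom 2 K.subtype))
      have hu : Nat.card (K : Type _)ˣ = 1 := by rw [Nat.card_units, hK2]
      rw [card_gsp one_le_two, hu, one_mul, card_sp, hK2] at h1'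
      norm_num [Finset.prod_range_succ] at h1'
      have hp2 : p ≠ 2 := fun h => hpr (by
        have h0 : ((2 : ℕ) : K) = 0 := by rw [← hK2]; exact (Nat.card_eq_fintype_card (α := K)).symm ▸ Nat.cast_card_eq_zero K
        have : ((2 : ℕ) : F) = 0 := by
          have := congrArg K.subtype h0
          rwa [map_natCast, map_zero] at this
        rw [h]
        exact ((Nat.prime_dvd_prime_iff_eq (Fact.out : r.Prime) Nat.prime_two).1
          ((CharP.cast_eq_zero_iff F r 2).1 this)).symm)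
      have h720 : p ∣ 2 ^ 4 * (15 * 3) := h1'
      rcases hp.dvd_mul.1 h720 with h | h
      · exact absurd ((Nat.prime_dvd_prime_iff_eq hp Nat.prime_two).1 (hp.dvd_of_dvd_pow h)) hp2
      · rcases hp.dvd_mul.1 h with h | h
        · exact h
        · exact h.trans ⟨5, rfl⟩
  · have hK3 : m = 2 → 3 ≤ Fintype.card K := fun h => by
      have h2 : 2 ≤ Fintype.card K := Fintype.one_lt_card
      have : Fintype.card K ≠ 2 := fun hh => hsm ⟨h, by rw [Nat.card_eq_fintype_card, hh]⟩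
      omega
    haveI : IsSimpleGroup (Cfsg.PSp m K) := psp_isSimpleGroup_of (by omega) (commutator_sp_eq_top (by
      rcases eq_or_lt_of_le hm with h | h
      · exact Or.inr (Or.inl ⟨h.symm, hK3 h.symm⟩)
      · exact Or.inl h))
    haveI : IsSimpleGroup S := (baseSpEquiv hm K.subtype).symm.isSimpleGroup
    refine core_iff (conj_injective_psp hm) inn_le_inndiag h1 hAx hord' hxD S hSle hSn
      (two_dvd_card_baseSp hm K.subtype) ?_ hcent
    intro g hg
    obtain ⟨k, rfl⟩ := hHG g ⟨inn_le_inndiag hg.1, hg.2⟩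
    obtain ⟨c, hc⟩ := k.2
    let u : GL (Fin m ⊕ Fin m) K := (Matrix.GeneralLinearGroup.scalar _ c)⁻¹ * (k.1 * k.1)
    have hval : (u : Matrix (Fin m ⊕ Fin m) (Fin m ⊕ Fin m) K) =
        ((c⁻¹ : Kˣ) : K) • ((k.1 * k.1 : GL (Fin m ⊕ Fin m) K) : Matrix (Fin m ⊕ Fin m) (Fin m ⊕ Fin m) K) := by
      simp only [u]
      rw [← map_inv, coe_scalar_mul]
    have hu : (u : Matrix (Fin m ⊕ Fin m) (Fin m ⊕ Fin m) K) ∈ Matrix.symplecticGroup (Fin m) K := by
      rw [mem_symplecticGroup_iff]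
      intro v w
      rw [hval, Matrix.smul_mulVec, Matrix.smul_mulVec, ← sympBilin_apply]
      simp only [map_smul, LinearMap.smul_apply, sympBilin_apply, smul_eq_mul, Units.val_mul,
        ← mulVec_mulVec, hc, Units.val_inv_eq_inv_val]
      field_simp
    have hsc : subfieldHom m K.subtype ⟨Matrix.GeneralLinearGroup.scalar _ c, scalar_mem_gsp c⟩ = 1 := by
      rw [← MonoidHom.mem_ker, ker_subfieldHom hm, Subgroup.mem_subgroupOf, Cfsg.Geo.mem_scalars_iff]
      exact ⟨c, by simp [Matrix.smul_one_eq_diagonal]⟩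
    have hsq : baseSp m K.subtype ⟨_, hu⟩ = subfieldHom m K.subtype k ^ 2 := by
      rw [← map_pow, baseSp, MonoidHom.comp_apply,
        show k ^ 2 = ⟨Matrix.GeneralLinearGroup.scalar _ c, scalar_mem_gsp c⟩ * spToGSp m K ⟨_, hu⟩ from
          Subtype.ext (by
            rw [sq, Subgroup.coe_mul, Subgroup.coe_mul]
            change k.1 * k.1 = _ * spUnit ⟨_, hu⟩
            rw [show spUnit ⟨_, hu⟩ = u from Units.ext rfl]
            simp only [u, mul_inv_cancel_left]), map_mul, hsc, one_mul]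
    rw [show (4 : ℕ) = 2 * 2 from rfl, pow_mul, ← hsq]
    exact pow_mem (⟨_, rfl⟩ : baseSp m K.subtype ⟨_, hu⟩ ∈ (baseSp m K.subtype).range) 2

end Cfsg.Agent.H4.LocalBalance
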