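import Cfsg.Agent.H2.AutPSp.FieldCentralizer
import Cfsg.Agent.H2.AutPSp.Exceptional
import Cfsg.Agent.H2.AutPSp.Count
import Cfsg.Agent.H2.Simple
import Cfsg.Agent.H4.Triality.Pair

/-!
The symplectic group over a subfield inside the automorphism group of `PSp`: structure and
centraliser.
-/

set_option autoImplicit false

namespace Cfsg.Agent.H4.LocalBalance

open Matrix Cfsg.Agent.H2 Cfsg.Agent.H2.AutPSp

variable {m : ℕ} {F : Type*} [Field F] [Finite F] {K : Type*} [Field K]

/-- Symplectic matrices as similitudes. -/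
def spToGSp (m : ℕ) (K : Type*) [Field K] : Matrix.symplecticGroup (Fin m) K →* Cfsg.GSp m K :=
  MonoidHom.mk' (fun s => ⟨spUnit s, spUnit_mem s⟩) fun _ _ => Subtype.ext (Units.ext rfl)

/-- The embedding of the symplectic group over a subfield. -/
noncomputable def baseSp (m : ℕ) (ι : K →+* F) :
    Matrix.symplecticGroup (Fin m) K →* MulAut (Cfsg.PSp m F) :=
  (subfieldHom m ι).comp (spToGSp m K)

theorem baseSp_apply (ι : K →+* F) (s : Matrix.symplecticGroup (Fin m) K) :
    baseSp m ι s = semiAut (Matrix.GeneralLinearGroup.map ι (spUnit s))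
      (map_mem_gsp ι (spUnit_mem s)) (RingEquiv.refl F) := rfl

theorem baseSp_eq_one_iff (hm : 2 ≤ m) (ι : K →+* F) (s : Matrix.symplecticGroup (Fin m) K) :
    baseSp m ι s = 1 ↔ s ∈ Subgroup.center (Matrix.symplecticGroup (Fin m) K) := by
  rw [← MonoidHom.mem_ker, baseSp, MonoidHom.mem_ker, MonoidHom.comp_apply, ← MonoidHom.mem_ker,
    ker_subfieldHom hm, Subgroup.mem_subgroupOf, Cfsg.Geo.mem_scalars_iff]
  constructor
  · rintro ⟨c, hc⟩
    refine Subgroup.mem_center_iff.2 fun t => Subtype.ext ?_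
    change (t : Matrix (Fin m ⊕ Fin m) (Fin m ⊕ Fin m) K) * (s : Matrix (Fin m ⊕ Fin m) (Fin m ⊕ Fin m) K) = (s : Matrix (Fin m ⊕ Fin m) (Fin m ⊕ Fin m) K) * (t : Matrix (Fin m ⊕ Fin m) (Fin m ⊕ Fin m) K)
    rw [show (s : Matrix (Fin m ⊕ Fin m) (Fin m ⊕ Fin m) K) = (c : K) • 1 from hc]
    simp
  · intro hs
    rcases (mem_center_iff_eq (by omega) s).1 hs with h | h
    · exact ⟨1, by rw [Units.val_one, one_smul]; exact h⟩
    · exact ⟨-1, by rw [Units.val_neg, Units.val_one, neg_one_smul]; exact h⟩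

theorem baseSp_ker (hm : 2 ≤ m) (ι : K →+* F) :
    (baseSp m ι).ker = Subgroup.center (Matrix.symplecticGroup (Fin m) K) := by
  ext s
  rw [MonoidHom.mem_ker, baseSp_eq_one_iff hm]

/-- The image is a copy of `PSp` over the subfield. -/
noncomputable def baseSpEquiv (hm : 2 ≤ m) (ι : K →+* F) : Cfsg.PSp m K ≃* (baseSp m ι).range :=
  (QuotientGroup.quotientMulEquivOfEq (baseSp_ker hm ι).symm).trans
    (QuotientGroup.quotientKerEquivRange (baseSp m ι))

theorem baseSp_mem_inn (ι : K →+* F) (s : Matrix.symplecticGroup (Fin m) K) :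
    baseSp m ι s ∈ Cfsg.Inn (Cfsg.PSp m F) := by
  have h : (s : Matrix (Fin m ⊕ Fin m) (Fin m ⊕ Fin m) K).map ι ∈ Matrix.symplecticGroup (Fin m) F := by
    rw [SymplecticGroup.mem_iff, ← map_J (m := m) ι, ← Matrix.transpose_map, ← Matrix.map_mul,
      ← Matrix.map_mul, SymplecticGroup.mem_iff.1 s.2]
  refine ⟨QuotientGroup.mk' _ ⟨_, h⟩, ?_⟩
  rw [← semiAut_spUnit, baseSp_apply]
  exact semiAut_congr _ _ (Units.ext rfl) rfl

theorem baseSp_le_centralizer (hm : 2 ≤ m) {σ : F ≃+* F} (ι : K →+* F)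
    (hι : ∀ y, σ y = y ↔ y ∈ ι.range) :
    (baseSp m ι).range ≤ Subgroup.centralizer {fieldHom m F σ} := by
  rintro _ ⟨s, rfl⟩
  exact ((range_subfieldHom hm σ ι hι).le ⟨spToGSp m K s, rfl⟩).2

/-- An involution in the image. -/
theorem two_dvd_card_baseSp [Finite K] (hm : 2 ≤ m) (ι : K →+* F) :
    2 ∣ Nat.card (baseSp m ι).range := by
  haveI : Finite (MulAut (Cfsg.PSp m F)) :=
    Finite.of_injective (fun α => (α : Cfsg.PSp m F → Cfsg.PSp m F)) DFunLike.coe_injective
  let j : Matrix.symplecticGroup (Fin m) K := ⟨Matrix.J (Fin m) K, SymplecticGroup.J_mem (Fin m) K⟩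
  have hne : baseSp m ι j ≠ 1 := fun h => by
    have hm0 : 0 < m := by omega
    rcases (mem_center_iff_eq (by omega) j).1 ((baseSp_eq_one_iff hm ι j).1 h) with h | h
    all_goals
      have h1 := congrFun (congrFun h (Sum.inr ⟨0, hm0⟩)) (Sum.inl ⟨0, hm0⟩)
      simp [j, Matrix.J] at h1
  have hsq : j ^ 2 ∈ Subgroup.center (Matrix.symplecticGroup (Fin m) K) :=
    (mem_center_iff_eq (by omega) _).2 (Or.inr (by
      rw [SubmonoidClass.coe_pow, sq]; exact Matrix.J_squared (Fin m) K))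
  have : orderOf (⟨baseSp m ι j, j, rfl⟩ : (baseSp m ι).range) = 2 := orderOf_eq_prime (by
    apply Subtype.ext
    rw [SubgroupClass.coe_pow, ← map_pow, (baseSp_eq_one_iff hm ι _).2 hsq]
    rfl) fun h => hne (congrArg Subtype.val h)
  exact this ▸ orderOf_dvd_natCard _

/-- An automorphism commuting with the group over the subfield is a field automorphism fixing it. -/
theorem exists_fieldHom_of_commute (hm : 2 ≤ m) (ι : K →+* F) (g : MulAut (Cfsg.PSp m F))
    (hg : ∀ s, g * baseSp m ι s = baseSp m ι s * g) :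
    ∃ τ : F ≃+* F, (∀ a, τ (ι a) = ι a) ∧ g = fieldHom m F τ := by
  classical
  have hfix : ∀ (v : Fin m ⊕ Fin m → K) (c : K),
      g (QuotientGroup.mk' _ (transv (fun i => ι (v i)) (ι c))) =
        QuotientGroup.mk' _ (transv (fun i => ι (v i)) (ι c)) := by
    intro v c
    have hb : baseSp m ι (transv v c) =
        MulAut.conj (QuotientGroup.mk' _ (transv (fun i => ι (v i)) (ι c))) := by
      rw [← semiAut_spUnit, baseSp_apply]
      refine semiAut_congr _ _ (Units.ext ?_) rfl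
      change (transv v c : Matrix (Fin m ⊕ Fin m) (Fin m ⊕ Fin m) K).map ι = (transv (fun i => ι (v i)) (ι c) : Matrix (Fin m ⊕ Fin m) (Fin m ⊕ Fin m) F)
      refine Matrix.ext_of_mulVec_single fun i => ?_
      have hs : (Pi.single i 1 : Fin m ⊕ Fin m → F) = fun j => ι ((Pi.single i 1 : _ → K) j) := by
        funext j; simp [Pi.single_apply, apply_ite ι]
      rw [hs, coe_transv, coe_transv]
      funext k
      refine ((RingHom.map_mulVec ι _ _ k).symm).trans ?_
      rw [sympTransvection_mulVec, sympTransvection_mulVec]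
      simp [Cfsg.sympForm, Matrix.mulVec, dotProduct, Matrix.J, Matrix.one_apply, map_sum, apply_ite ι]
    have h := hg (transv v c)
    rw [hb] at h
    have h' := (mul_inv_eq_iff_eq_mul.2 h)
    have hinj : Function.Injective (MulAut.conj : Cfsg.PSp m F →* MulAut (Cfsg.PSp m F)) := by
      rw [← MonoidHom.ker_eq_bot_iff, eq_bot_iff]
      intro y hy
      obtain ⟨s, rfl⟩ := QuotientGroup.mk'_surjective _ y
      rw [MonoidHom.mem_ker, ← semiAut_spUnit, semiAut_eq_one_iff hm] at hy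
      obtain ⟨-, a, ha⟩ := hy
      refine (QuotientGroup.eq_one_iff s).2 (Subgroup.mem_center_iff.2 fun t => Subtype.ext ?_)
      change (t : Matrix (Fin m ⊕ Fin m) (Fin m ⊕ Fin m) F) * (s : Matrix (Fin m ⊕ Fin m) (Fin m ⊕ Fin m) F) = (s : Matrix (Fin m ⊕ Fin m) (Fin m ⊕ Fin m) F) * (t : Matrix (Fin m ⊕ Fin m) (Fin m ⊕ Fin m) F)
      rw [show (s : Matrix (Fin m ⊕ Fin m) (Fin m ⊕ Fin m) F) = Matrix.scalar _ (a : F) from congrArg Units.val ha,
        show Matrix.scalar (Fin m ⊕ Fin m) (a : F) = (a : F) • 1 by simp [Matrix.smul_one_eq_diagonal]]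
      simp
    exact hinj ((conj_apply_aut g _).trans h')
  set o : Fin m ⊕ Fin m := Sum.inl ⟨0, by omega⟩
  have hsingle : ∀ i, (fun j => ι ((Pi.single i (1 : K) : Fin m ⊕ Fin m → K) j)) =
      (Pi.single i 1 : Fin m ⊕ Fin m → F) := fun i => by
    funext j; simp [Pi.single_apply, apply_ite ι]
  obtain ⟨G, hG, τ, rfl⟩ : ∃ (G : GL (Fin m ⊕ Fin m) F) (hG : G ∈ Cfsg.GSp m F) (τ : F ≃+* F),
      g = semiAut G hG τ := by
    by_cases h22 : m = 2 → (2 : F) ≠ 0
    · exact exists_semilinear hm h22 g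
    push Not at h22
    obtain ⟨rfl, h2⟩ := h22
    refine exists_semilinear_of_preserves le_rfl g fun y hy => ?_
    have ht : IsPTransv (QuotientGroup.mk' (Subgroup.center (Matrix.symplecticGroup (Fin 2) F))
        (transv (Pi.single o 1) 1)) := ⟨_, _, by simp, one_ne_zero, rfl⟩
    have h0 := hfix (Pi.single o 1) 1
    rw [hsingle, map_one] at h0
    obtain ⟨c, hc⟩ := isConj_iff.1 (isConj_of_isPTransv h2 ht hy)
    rw [← hc, map_mul, map_mul, map_inv, h0]
    exact ht.conj _
  obtain ⟨k, hk, hkt⟩ := semiHom_transv hG τ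
  have hpar : ∀ v : Fin m ⊕ Fin m → K, v ≠ 0 → ∀ c : K,
      transv ((G : Matrix (Fin m ⊕ Fin m) (Fin m ⊕ Fin m) F) *ᵥ fun a => τ (ι (v a))) (τ (ι c) * k) =
        transv (fun i => ι (v i)) (ι c) := by
    intro v _ c
    refine eq_of_mk_transv_eq hm ?_
    rw [← hkt, ← semiAut_mk G hG τ, hfix]
  have hsc : ∀ v : Fin m ⊕ Fin m → K, v ≠ 0 →
      ∃ b : F, (G : Matrix (Fin m ⊕ Fin m) (Fin m ⊕ Fin m) F) *ᵥ (fun a => τ (ι (v a))) = b • fun i => ι (v i) := by
    intro v hv
    refine exists_smul_of_transv_eq ?_ ?_ (hpar v hv 1)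
    · intro h0
      have h1 := congrArg (fun w => ((G⁻¹ : GL (Fin m ⊕ Fin m) F) : Matrix (Fin m ⊕ Fin m) (Fin m ⊕ Fin m) F) *ᵥ w) h0
      simp [Matrix.mulVec_mulVec, ← Units.val_mul] at h1
      exact hv (funext fun a => ι.injective (τ.injective (by simpa using congrFun h1 a)))
    · simpa using hk
  have hsc' : ∀ i, ∃ b : F, (G : Matrix (Fin m ⊕ Fin m) (Fin m ⊕ Fin m) F) *ᵥ (Pi.single i 1) = b • Pi.single i 1 := fun i => by
    obtain ⟨b, hb⟩ := hsc (Pi.single i 1) (by simp)
    refine ⟨b, ?_⟩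
    rw [hsingle] at hb
    rw [show (fun a => τ (ι ((Pi.single i (1 : K) : Fin m ⊕ Fin m → K) a))) =
      (Pi.single i 1 : Fin m ⊕ Fin m → F) by funext j; simp [Pi.single_apply, apply_ite ι, apply_ite τ]]
      at hb
    exact hb
  choose b hb using hsc'
  have hall : ∀ i, b i = b o := by
    intro i
    rcases eq_or_ne i o with rfl | hi
    · rfl
    obtain ⟨c, hc⟩ := hsc (Pi.single i 1 + Pi.single o 1) (fun h => by
      have := congrFun h o
      simp [Ne.symm hi] at this)
    have e1 : (fun a => τ (ι ((Pi.single i (1 : K) + Pi.single o 1 : Fin m ⊕ Fin m → K) a))) =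
        (Pi.single i 1 + Pi.single o 1 : Fin m ⊕ Fin m → F) := by
      funext j; simp [Pi.single_apply, apply_ite ι, apply_ite τ]
    have e2 : (fun a => ι ((Pi.single i (1 : K) + Pi.single o 1 : Fin m ⊕ Fin m → K) a)) =
        (Pi.single i 1 + Pi.single o 1 : Fin m ⊕ Fin m → F) := by
      funext j; simp [Pi.single_apply, apply_ite ι]
    rw [e1, e2, Matrix.mulVec_add, hb, hb, smul_add] at hc
    have h1 := congrFun hc i
    have h2 := congrFun hc o
    simp [hi, Ne.symm hi] at h1 h2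
    rw [h1, h2]
  have hscalar : (G : Matrix (Fin m ⊕ Fin m) (Fin m ⊕ Fin m) F) = b o • 1 := Matrix.ext_of_mulVec_single fun i => by
    rw [hb, hall, Matrix.smul_mulVec, Matrix.one_mulVec]
  have hb0 : b o ≠ 0 := by
    intro h0
    exact ((Matrix.isUnit_iff_isUnit_det _).mp G.isUnit).ne_zero (by
      haveI : Nonempty (Fin m ⊕ Fin m) := ⟨o⟩
      rw [hscalar, h0, zero_smul, Matrix.det_zero])
  refine ⟨τ, fun a => ?_, (semiAut_eq_iff hm hG (one_mem _) τ τ).2
    ⟨rfl, (Units.mk0 (b o) hb0)⁻¹, Units.ext ?_⟩⟩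
  · have key : ∀ c : K, τ (ι c) * k * (b o * b o) = ι c := fun c => by
      have h := hpar (Pi.single o 1) (by simp) c
      rw [hsingle, show (fun a => τ (ι ((Pi.single o (1 : K) : Fin m ⊕ Fin m → K) a))) =
        (Pi.single o 1 : Fin m ⊕ Fin m → F) by funext j; simp [Pi.single_apply, apply_ite ι, apply_ite τ],
        hb, transv_smul] at h
      obtain ⟨z, hz⟩ := exists_sympForm_eq_one
        (show (Pi.single o 1 : Fin m ⊕ Fin m → F) ≠ 0 by simp)
      have h2 := congrArg (fun t : Matrix.symplecticGroup (Fin m) F => t • z) h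
      simp only [smul_eq_mulVec_sp, coe_transv, sympTransvection_mulVec, hz, mul_one,
        add_right_inj] at h2
      have h3 := smul_left_injective F (show (Pi.single o 1 : Fin m ⊕ Fin m → F) ≠ 0 by simp) h2
      linear_combination h3
    have h1 := key 1
    rw [map_one, map_one, one_mul] at h1
    have h2 := key a
    rwa [mul_assoc, h1, mul_one] at h2
  · rw [Units.val_one, coe_scalar_mul, hscalar, smul_smul, Units.val_inv_eq_inv_val, Units.val_mk0,
      inv_mul_cancel₀ hb0, one_smul]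

end Cfsg.Agent.H4.LocalBalance
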